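import Cfsg.Agent.SignedClasses.Count

/-!
Numerical bounds for the weighted counts of signed tuples, for `q ≥ 3`.
-/

set_option autoImplicit false

namespace CfsgLib.SignedClasses

open Finset

/-- Scaled partial sum. -/
noncomputable def partS (q : ℕ) (σ : ℕ → Bool) (u : ℝ) (k i n : ℕ) : ℝ := ∑ w ∈ range n, (bndS q σ k i w : ℝ) * u ^ w

theorem conv_step (q : ℕ) (σ : ℕ → Bool) {u : ℝ} (hu : 0 ≤ u) (k i : ℕ) (n : ℕ) {C : ℝ}
    (h : partS q σ u k (i + 1) n ≤ C) :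
    partS q σ u (k + 1) i n ≤ (∑ d ∈ range n, (cntS q (σ i) d : ℝ) * u ^ ((i + 1) * d)) * C := by
  refine le_trans ?_ (mul_le_mul_of_nonneg_left h (sum_nonneg fun d _ => by positivity))
  rw [partS, partS, sum_mul_sum, ← sum_product']
  have h1 : ∑ w ∈ range n, (bndS q σ (k + 1) i w : ℝ) * u ^ w =
      ∑ x ∈ (range n).sigma fun w => range (w / (i + 1) + 1),
        (cntS q (σ i) x.2 : ℝ) * u ^ ((i + 1) * x.2) *
          ((bndS q σ k (i + 1) (x.1 - (i + 1) * x.2) : ℝ) * u ^ (x.1 - (i + 1) * x.2)) := by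
    rw [sum_sigma]
    refine sum_congr rfl fun w _ => ?_
    rw [bndS, Nat.cast_sum, sum_mul]
    refine sum_congr rfl fun d hd => ?_
    have : (i + 1) * d ≤ w := by
      rw [mul_comm]; exact (Nat.le_div_iff_mul_le (by omega)).mp (Nat.lt_succ_iff.mp (mem_range.mp hd))
    conv_lhs => rw [← Nat.add_sub_cancel' this, pow_add, Nat.add_sub_cancel' this]
    push_cast
    ring
  rw [h1, ← sum_image (g := fun x : (_ : ℕ) × ℕ => (x.2, x.1 - (i + 1) * x.2))
    (f := fun p : ℕ × ℕ => (cntS q (σ i) p.1 : ℝ) * u ^ ((i + 1) * p.1) * ((bndS q σ k (i + 1) p.2 : ℝ) * u ^ p.2))]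
  · refine sum_le_sum_of_subset_of_nonneg ?_ fun p _ _ => by positivity
    intro p hp
    simp only [mem_image, mem_sigma, mem_range] at hp
    obtain ⟨⟨w, d⟩, ⟨hw, hd⟩, rfl⟩ := hp
    have hdw : (i + 1) * d ≤ w := by
      rw [mul_comm]; exact (Nat.le_div_iff_mul_le (by omega)).mp (Nat.lt_succ_iff.mp hd)
    dsimp only at hw hd
    simp only [mem_product, mem_range]
    exact ⟨lt_of_le_of_lt (le_trans (Nat.le_mul_of_pos_left d (by omega)) hdw) hw, by omega⟩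
  · rintro ⟨w, d⟩ hx ⟨w', d'⟩ hx' e
    simp only [mem_coe, mem_sigma, mem_range] at hx hx'
    simp only [Prod.mk.injEq] at e
    obtain ⟨rfl, e⟩ := e
    have h1 : (i + 1) * d ≤ w := by
      rw [mul_comm]; exact (Nat.le_div_iff_mul_le (by omega)).mp (Nat.lt_succ_iff.mp hx.2)
    have h2 : (i + 1) * d ≤ w' := by
      rw [mul_comm]; exact (Nat.le_div_iff_mul_le (by omega)).mp (Nat.lt_succ_iff.mp hx'.2)
    obtain rfl : w = w' := by omega
    rfl

theorem ev_series (q : ℕ) {x : ℝ} (hx : 0 ≤ x) (hqx : (q : ℝ) * x ^ 2 < 1) (n : ℕ) :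
    ∑ d ∈ range n, (ev q d : ℝ) * x ^ d ≤ 1 / (1 - (q : ℝ) * x ^ 2) := by
  have hz : 0 ≤ (q : ℝ) * x ^ 2 := by positivity
  refine le_trans (b := ∑ r ∈ range n, ((q : ℝ) * x ^ 2) ^ r) ?_ ?_
  · rw [← sum_filter_of_ne (p := fun d => Even d) fun d _ hd => by
      by_contra ho; exact hd (by simp [ev, ho]),
      sum_congr rfl fun d hd => show (ev q d : ℝ) * x ^ d = ((q : ℝ) * x ^ 2) ^ (d / 2) by
        obtain ⟨r, rfl⟩ := (mem_filter.mp hd).2
        rw [ev, if_pos ⟨r, rfl⟩, show (r + r) / 2 = r by omega, mul_pow, ← pow_mul, two_mul]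
        push_cast; ring,
      ← sum_image (g := fun d => d / 2) (f := fun r => ((q : ℝ) * x ^ 2) ^ r)]
    · refine sum_le_sum_of_subset_of_nonneg (fun r hr => ?_) fun r _ _ => by positivity
      obtain ⟨d, hd, rfl⟩ := mem_image.mp hr
      have := mem_range.mp (mem_filter.mp hd).1
      exact mem_range.mpr (by omega)
    · intro a ha b hb e
      obtain ⟨r, rfl⟩ := (mem_filter.mp ha).2
      obtain ⟨s, rfl⟩ := (mem_filter.mp hb).2
      simp only at e; omega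
  · rw [le_div_iff₀ (by linarith)]
    nlinarith [geom_sum_mul ((q : ℝ) * x ^ 2) n, pow_nonneg hz n]

theorem sg_series (q : ℕ) {x : ℝ} (hx : 0 ≤ x) (hqx : (q : ℝ) * x ^ 2 < 1) (n : ℕ) :
    ∑ d ∈ range n, (sg q d : ℝ) * x ^ d ≤ (1 + x) ^ 4 / (1 - (q : ℝ) * x ^ 2) := by
  have hl : ∀ l, ∑ d ∈ range n, ((if l ≤ d ∧ Even (d - l) then Nat.choose 4 l * q ^ ((d - l) / 2) else 0 : ℕ) : ℝ) * x ^ d ≤
      (Nat.choose 4 l : ℝ) * x ^ l * (1 / (1 - (q : ℝ) * x ^ 2)) := fun l => by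
    refine le_trans ?_ (mul_le_mul_of_nonneg_left (ev_series q hx hqx n) (by positivity))
    rw [mul_sum, ← sum_filter_of_ne (p := fun d => l ≤ d) fun d _ hd => by
      by_contra ho; exact hd (by simp [ho])]
    rw [sum_congr rfl fun d hd => show ((if l ≤ d ∧ Even (d - l) then Nat.choose 4 l * q ^ ((d - l) / 2) else 0 : ℕ) : ℝ) * x ^ d =
      (Nat.choose 4 l : ℝ) * x ^ l * ((ev q (d - l) : ℝ) * x ^ (d - l)) by
        have hle := (mem_filter.mp hd).2
        conv_lhs => arg 2; rw [← Nat.add_sub_cancel' hle, pow_add]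
        by_cases he : Even (d - l)
        · rw [if_pos ⟨hle, he⟩, ev, if_pos he]; push_cast; ring
        · rw [if_neg (fun h => he h.2), ev, if_neg he]; simp,
      ← sum_image (g := fun d => d - l) (f := fun v => (Nat.choose 4 l : ℝ) * x ^ l * ((ev q v : ℝ) * x ^ v))]
    · refine sum_le_sum_of_subset_of_nonneg (fun r hr => ?_) fun r _ _ => by positivity
      obtain ⟨d, hd, rfl⟩ := mem_image.mp hr
      have := mem_range.mp (mem_filter.mp hd).1
      exact mem_range.mpr (by omega)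
    · intro a ha b hb e
      have := (mem_filter.mp ha).2
      have := (mem_filter.mp hb).2
      simp only at e; omega
  simp only [sg, Nat.cast_sum, sum_mul]
  rw [sum_comm]
  refine (sum_le_sum fun l _ => hl l).trans (le_of_eq ?_)
  rw [← sum_mul, mul_one_div]
  congr 1
  simp [sum_range_succ, Nat.choose]
  ring

/-- Rational bound for `u ^ j`. -/
noncomputable def xb (j : ℕ) : ℝ := (1 / 3) ^ (j / 2) * (if Even j then 1 else 578 / 1000)

/-- Rational bound for the factor of part `j`. -/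
noncomputable def fb (σ : ℕ → Bool) (j : ℕ) : ℝ :=
  (if σ (j - 1) then (1 + xb j) ^ 4 else 1) / (1 - (1 / 3) ^ (j - 1))

/-- Bound for the parts above `14 - t`. -/
noncomputable def tb (σ : ℕ → Bool) : ℕ → ℝ
  | 0 => 1 / (1 - 7 * (1 / 3) ^ 7)
  | t + 1 => fb σ (14 - t) * tb σ t

theorem third_pow_lt {n : ℕ} (hn : n ≠ 0) : (1 / 3 : ℝ) ^ n < 1 := pow_lt_one₀ (by norm_num) (by norm_num) hn

theorem one_le_tb (σ : ℕ → Bool) : ∀ t, t ≤ 13 → 1 ≤ tb σ t
  | 0, _ => by rw [tb]; norm_num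
  | t + 1, ht => by
    rw [tb]
    refine one_le_mul_of_one_le_of_one_le ?_ (one_le_tb σ t (by omega))
    have h1 := third_pow_lt (show 14 - t - 1 ≠ 0 by omega)
    rw [fb, le_div_iff₀ (by linarith), one_mul]
    have h0 : 0 ≤ xb (14 - t) := by unfold xb; positivity
    have : (0 : ℝ) ≤ (1 / 3) ^ (14 - t - 1) := by positivity
    split_ifs
    · have := one_le_pow₀ (M₀ := ℝ) (n := 4) (le_add_of_nonneg_right h0)
      linarith
    · linarith

variable {q : ℕ} {u : ℝ}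

theorem u_lt (hu0 : 0 ≤ u) (huq : (q : ℝ) * u ^ 2 = 1) (hq : 3 ≤ q) : u ^ 2 ≤ 1 / 3 ∧ u ≤ 578 / 1000 := by
  have h3 : (3 : ℝ) ≤ q := by exact_mod_cast hq
  have h1 : u ^ 2 ≤ 1 / 3 := by nlinarith [sq_nonneg u]
  exact ⟨h1, by nlinarith⟩

theorem factor_le (σ : ℕ → Bool) (hu0 : 0 ≤ u) (huq : (q : ℝ) * u ^ 2 = 1) (hq : 3 ≤ q) (i : ℕ) (hi : 1 ≤ i) (n : ℕ) :
    ∑ d ∈ range n, (cntS q (σ i) d : ℝ) * u ^ ((i + 1) * d) ≤
      (if σ i then (1 + u ^ (i + 1)) ^ 4 else 1) / (1 - (u ^ 2) ^ i) := by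
  have e : (q : ℝ) * (u ^ (i + 1)) ^ 2 = (u ^ 2) ^ i := by
    rw [← pow_mul, show (i + 1) * 2 = 2 + 2 * i by ring, pow_add, ← mul_assoc, huq, one_mul, pow_mul]
  have hlt : (u ^ 2) ^ i < 1 := pow_lt_one₀ (sq_nonneg u) (by linarith [(u_lt hu0 huq hq).1]) (by omega)
  simp only [pow_mul u (i + 1)]
  cases σ i
  · simp only [cntS, Bool.false_eq_true, if_false]
    rw [← e]
    exact ev_series q (by positivity) (by rw [e]; exact hlt) n
  · simp only [cntS, if_true]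
    rw [← e]
    exact sg_series q (by positivity) (by rw [e]; exact hlt) n

theorem factor_le_fb (σ : ℕ → Bool) (hu0 : 0 ≤ u) (huq : (q : ℝ) * u ^ 2 = 1) (hq : 3 ≤ q) (i : ℕ) (hi : 1 ≤ i) (n : ℕ) :
    ∑ d ∈ range n, (cntS q (σ i) d : ℝ) * u ^ ((i + 1) * d) ≤ fb σ (i + 1) := by
  obtain ⟨h1, h2⟩ := u_lt hu0 huq hq
  refine (factor_le σ hu0 huq hq i hi n).trans ?_
  have hy : (u ^ 2) ^ i ≤ (1 / 3) ^ i := pow_le_pow_left₀ (sq_nonneg u) h1 i
  have hx : u ^ (i + 1) ≤ xb (i + 1) := by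
    rw [xb]
    rcases Nat.even_or_odd (i + 1) with ⟨r, hr⟩ | ⟨r, hr⟩
    · rw [if_pos ⟨r, hr⟩, mul_one, hr, show (r + r) / 2 = r by omega, ← two_mul, pow_mul]
      exact pow_le_pow_left₀ (sq_nonneg u) h1 r
    · rw [if_neg (Nat.not_even_iff_odd.mpr ⟨r, hr⟩), hr, show (2 * r + 1) / 2 = r by omega, pow_succ, pow_mul]
      exact mul_le_mul (pow_le_pow_left₀ (sq_nonneg u) h1 r) h2 hu0 (by positivity)
  rw [fb, Nat.add_sub_cancel]
  have hd : 0 < 1 - (1 / 3 : ℝ) ^ i := sub_pos.mpr (third_pow_lt (by omega))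
  refine div_le_div₀ ?_ ?_ hd (by linarith)
  · split_ifs <;> have : 0 ≤ xb (i + 1) := (pow_nonneg hu0 _).trans hx <;> positivity
  · split_ifs
    · exact pow_le_pow_left₀ (by positivity) (by linarith) 4
    · exact le_rfl

theorem part_tail (σ : ℕ → Bool) (hu0 : 0 ≤ u) (huq : (q : ℝ) * u ^ 2 = 1) (hq : 3 ≤ q) :
    ∀ k i, 4 ≤ i → ∀ n, partS q σ u k i n ≤ 1 / (1 - 7 * u ^ i) := by
  obtain ⟨h1, h2⟩ := u_lt hu0 huq hq
  have hi4 : ∀ i, 4 ≤ i → u ^ i ≤ 1 / 9 := fun i hi =>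
    le_trans (pow_le_pow_of_le_one hu0 (by linarith) hi) (by nlinarith [sq_nonneg u])
  intro k
  induction k with
  | zero =>
    intro i hi n
    refine le_trans (b := 1) ?_ ?_
    · rw [partS]
      rcases n with _ | n
      · simp
      · rw [sum_range_succ']; simp [bndS]
    · rw [le_div_iff₀ (by linarith [hi4 i hi]), one_mul]
      linarith [pow_nonneg hu0 i]
  | succ k ih =>
    intro i hi n
    obtain ⟨x, hx⟩ : ∃ x, x = u ^ (i + 1) := ⟨_, rfl⟩
    have hx9 : x ≤ 1 / 9 := hx ▸ hi4 (i + 1) (by omega)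
    have hx0 : 0 ≤ x := hx ▸ pow_nonneg hu0 _
    have hz : (u ^ 2) ^ i ≤ x := by
      rw [hx, ← pow_mul]; exact pow_le_pow_of_le_one hu0 (by linarith) (by omega)
    have hz0 : 0 ≤ (u ^ 2) ^ i := by positivity
    have hT := ih (i + 1) (by omega) n
    rw [← hx] at hT
    refine (conv_step q σ hu0 k i n hT).trans ?_
    have hpos : 0 < 1 / (1 - 7 * x) := one_div_pos.mpr (by linarith)
    refine le_trans (mul_le_mul_of_nonneg_right (factor_le σ hu0 huq hq i (by omega) n) hpos.le) ?_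
    rw [← hx]
    have hnum : (if σ i then (1 + x) ^ 4 else 1) ≤ 1 / (1 - 4 * x) := by
      rw [le_div_iff₀ (by linarith)]
      split_ifs
      · nlinarith [mul_nonneg (mul_nonneg hx0 hx0) hx0, mul_nonneg hx0 hx0, pow_nonneg hx0 4, pow_nonneg hx0 5]
      · linarith
    refine le_trans (mul_le_mul_of_nonneg_right (div_le_div_of_nonneg_right hnum (by linarith)) hpos.le) ?_
    have hui : 12 * x ≤ 7 * u ^ i := by
      rw [hx, pow_succ]; nlinarith [mul_nonneg (pow_nonneg hu0 i) (show 0 ≤ 7 - 12 * u by linarith)]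
    have := hi4 i hi
    rw [div_div, div_mul_div_comm, mul_one, div_le_div_iff₀ (mul_pos (mul_pos (by linarith) (by linarith)) (by linarith))
      (by linarith), one_mul, one_mul]
    nlinarith [mul_nonneg hx0 hx0, mul_nonneg hx0 hz0, mul_nonneg (mul_nonneg hx0 hx0) hz0]

theorem part_le_tb (σ : ℕ → Bool) (hu0 : 0 ≤ u) (huq : (q : ℝ) * u ^ 2 = 1) (hq : 3 ≤ q) :
    ∀ t, t ≤ 13 → ∀ k n, partS q σ u k (14 - t) n ≤ tb σ t := by
  obtain ⟨h1, -⟩ := u_lt hu0 huq hq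
  intro t
  induction t with
  | zero =>
    intro _ k n
    refine (part_tail σ hu0 huq hq k 14 (by omega) n).trans ?_
    have : u ^ 14 ≤ (1 / 3) ^ 7 := by
      rw [show 14 = 2 * 7 from rfl, pow_mul]; exact pow_le_pow_left₀ (sq_nonneg u) h1 7
    rw [tb]
    exact one_div_le_one_div_of_le (by norm_num) (by linarith)
  | succ t ih =>
    intro ht k n
    rcases k with _ | k
    · refine le_trans ?_ (one_le_tb σ (t + 1) ht)
      rw [partS]
      rcases n with _ | n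
      · simp
      · rw [sum_range_succ']; simp [bndS]
    · obtain ⟨i, hi⟩ : ∃ i, i = 14 - (t + 1) := ⟨_, rfl⟩
      rw [← hi, tb, show 14 - t = i + 1 by omega]
      refine (conv_step q σ hu0 k i n (C := tb σ t) ?_).trans
        (mul_le_mul_of_nonneg_right (factor_le_fb σ hu0 huq hq i (by omega) n) ((zero_le_one).trans (one_le_tb σ t (by omega))))
      have := ih (by omega) k n
      rwa [show 14 - t = i + 1 by omega] at this

theorem exists_u (q : ℕ) (hq : 3 ≤ q) : ∃ u : ℝ, 0 < u ∧ (q : ℝ) * u ^ 2 = 1 := by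
  have hq0 : (0 : ℝ) < q := by exact_mod_cast (by omega : 0 < q)
  exact ⟨(Real.sqrt q)⁻¹, inv_pos.mpr (Real.sqrt_pos.mpr hq0), by
    rw [inv_pow, Real.sq_sqrt hq0.le, mul_inv_cancel₀ hq0.ne']⟩

/-- Master bound: the first index is summed with a factor at most `C`. -/
theorem bndS_le (q : ℕ) (hq : 3 ≤ q) (σ : ℕ → Bool) (k N : ℕ) (C D : ℝ) (hC : 0 ≤ C)
    (hfac : ∀ u : ℝ, 0 ≤ u → (q : ℝ) * u ^ 2 = 1 → ∀ d, (cntS q (σ 0) d : ℝ) * u ^ d ≤ C)
    (hD : C * tb σ 13 ≤ D) : (bndS q σ (k + 1) 0 (2 * N) : ℝ) ≤ D * (q : ℝ) ^ N := by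
  obtain ⟨u, hu, huq⟩ := exists_u q hq
  have h := part_le_tb σ hu.le huq hq 13 le_rfl k (2 * N + 1)
  have e : (q : ℝ) ^ N * u ^ (2 * N) = 1 := by rw [pow_mul, ← mul_pow, huq, one_pow]
  refine le_of_mul_le_mul_right ?_ (pow_pos hu (2 * N))
  rw [mul_assoc, e, mul_one]
  refine le_trans ?_ ((mul_le_mul_of_nonneg_left h hC).trans hD)
  rw [bndS, Nat.cast_sum, sum_mul, partS, mul_sum,
    ← sum_range_reflect (fun v => C * ((bndS q σ k (14 - 13) v : ℝ) * u ^ v))]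
  simp only [Nat.zero_add, Nat.div_one, Nat.one_mul, Nat.add_sub_cancel, show 14 - 13 = 1 from rfl]
  refine sum_le_sum fun d hd => ?_
  have hdw : d ≤ 2 * N := Nat.lt_succ_iff.mp (mem_range.mp hd)
  rw [Nat.cast_mul]
  conv_lhs => arg 2; rw [← Nat.add_sub_cancel' hdw, pow_add]
  rw [mul_mul_mul_comm]
  exact mul_le_mul_of_nonneg_right (hfac u hu.le huq d) (by positivity)

theorem ev_factor (q : ℕ) {u : ℝ} (_ : 0 ≤ u) (huq : (q : ℝ) * u ^ 2 = 1) (d : ℕ) : (ev q d : ℝ) * u ^ d ≤ 1 := by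
  unfold ev
  split_ifs with hd
  · obtain ⟨r, rfl⟩ := hd
    rw [show (r + r) / 2 = r by omega, Nat.cast_pow, ← two_mul, pow_mul, ← mul_pow, huq, one_pow]
  · simp

theorem sg_factor (q : ℕ) (hq : 3 ≤ q) {u : ℝ} (hu0 : 0 ≤ u) (huq : (q : ℝ) * u ^ 2 = 1) (d : ℕ) :
    (sg q d : ℝ) * u ^ d ≤ 28 / 9 := by
  obtain ⟨h1, h2⟩ := u_lt hu0 huq hq
  have hterm : ∀ l, ((if l ≤ d ∧ Even (d - l) then Nat.choose 4 l * q ^ ((d - l) / 2) else 0 : ℕ) : ℝ) * u ^ d =
      if l ≤ d ∧ Even (d - l) then (Nat.choose 4 l : ℝ) * u ^ l else 0 := fun l => by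
    split_ifs with h
    · obtain ⟨hl, r, hr⟩ := h
      obtain rfl : d = l + (r + r) := by omega
      rw [show (l + (r + r) - l) / 2 = r by omega, Nat.cast_mul, Nat.cast_pow, pow_add, ← two_mul, pow_mul, mul_assoc,
        mul_left_comm ((q : ℝ) ^ r), ← mul_pow, huq, one_pow, mul_one]
    · simp
  rw [sg, Nat.cast_sum, sum_mul]
  simp only [hterm, sum_range_succ, sum_range_zero, zero_add]
  have h4 : u ^ 4 ≤ 1 / 9 := by nlinarith [sq_nonneg u]
  have h3 : u ^ 3 ≤ 1 / 3 * (578 / 1000) := by nlinarith [sq_nonneg u]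
  rcases Nat.even_or_odd d with ⟨r, rfl⟩ | ⟨r, rfl⟩
  · rw [if_neg (fun h : 1 ≤ r + r ∧ Even (r + r - 1) => by have := Nat.even_iff.mp h.2; omega),
      if_neg (fun h : 3 ≤ r + r ∧ Even (r + r - 3) => by have := Nat.even_iff.mp h.2; omega)]
    split_ifs <;> norm_num [Nat.choose] <;> linarith [sq_nonneg u, pow_nonneg hu0 4]
  · rw [if_neg (fun h : 0 ≤ 2 * r + 1 ∧ Even (2 * r + 1 - 0) => by have := Nat.even_iff.mp h.2; omega),
      if_neg (fun h : 2 ≤ 2 * r + 1 ∧ Even (2 * r + 1 - 2) => by have := Nat.even_iff.mp h.2; omega),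
      if_neg (fun h : 4 ≤ 2 * r + 1 ∧ Even (2 * r + 1 - 4) => by have := Nat.even_iff.mp h.2; omega)]
    split_ifs <;> norm_num [Nat.choose] <;> linarith [pow_nonneg hu0 3]

/-- Signs at even parts. -/
def sigmaSp (i : ℕ) : Bool := decide (i % 2 = 1)

/-- Signs at odd parts. -/
def sigmaOrth (i : ℕ) : Bool := decide (i % 2 = 0)

/-- No signs. -/
def sigmaNone (_ : ℕ) : Bool := false

theorem tb_sp : tb sigmaSp 13 ≤ 108 / 10 := by norm_num [tb, fb, xb, sigmaSp, Nat.even_iff]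

theorem tb_orth : 28 / 9 * tb sigmaOrth 13 ≤ 165 / 10 := by norm_num [tb, fb, xb, sigmaOrth, Nat.even_iff]

theorem tb_none : tb sigmaNone 13 ≤ 18 / 10 := by norm_num [tb, fb, xb, sigmaNone, Nat.even_iff]

theorem sp_bound (q : ℕ) (hq : 3 ≤ q) (k N : ℕ) : 5 * bndS q sigmaSp (k + 1) 0 (2 * N) ≤ 54 * q ^ N := by
  have h := bndS_le q hq sigmaSp k N 1 (108 / 10) zero_le_one
    (fun u hu huq d => by simpa [sigmaSp, cntS] using ev_factor q hu huq d) (by rw [one_mul]; exact tb_sp)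
  have : ((5 * bndS q sigmaSp (k + 1) 0 (2 * N) : ℕ) : ℝ) ≤ ((54 * q ^ N : ℕ) : ℝ) := by push_cast; linarith
  exact_mod_cast this

theorem orth_bound (q : ℕ) (hq : 3 ≤ q) (k N : ℕ) :
    10 * (bndS q sigmaOrth (k + 1) 0 (2 * N) + bndS q sigmaNone (k + 1) 0 (2 * N)) ≤ 190 * q ^ N := by
  have h := bndS_le q hq sigmaOrth k N (28 / 9) (165 / 10) (by norm_num)
    (fun u hu huq d => by simpa [sigmaOrth, cntS] using sg_factor q hq hu huq d) tb_orth
  have h' := bndS_le q hq sigmaNone k N 1 (18 / 10) zero_le_one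
    (fun u hu huq d => by simpa [sigmaNone, cntS] using ev_factor q hu huq d) (by rw [one_mul]; exact tb_none)
  have hq0 : (0 : ℝ) ≤ (q : ℝ) ^ N := by positivity
  have : ((10 * (bndS q sigmaOrth (k + 1) 0 (2 * N) + bndS q sigmaNone (k + 1) 0 (2 * N)) : ℕ) : ℝ) ≤
      ((190 * q ^ N : ℕ) : ℝ) := by push_cast; linarith
  exact_mod_cast this

end CfsgLib.SignedClasses
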