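import Mathlib

/-!
Class numbers of a subgroup of index two.
-/

set_option autoImplicit false

namespace CfsgLib.SignedClasses

open scoped Classical

/-- Class numbers of a group and of a subgroup of index two. -/
theorem card_classes_index_two {G : Type*} [Group G] [Finite G] (H : Subgroup G) (hH : H.index = 2) :
    2 * Nat.card (ConjClasses H) ≤ Nat.card (ConjClasses G) +
        3 * Nat.card {C : ConjClasses G // ∃ g : G, ConjClasses.mk g = C ∧ g ∈ H ∧ ∀ x : G, x * g = g * x → x ∈ H} ∧
      Nat.card (ConjClasses G) ≤ 2 * Nat.card (ConjClasses H) := by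
  have hmul : ∀ {a b : G}, a * b ∈ H ↔ (a ∈ H ↔ b ∈ H) := fun {a b} => Subgroup.mul_mem_iff_of_index_two hH
  haveI : H.Normal := Subgroup.normal_of_index_eq_two hH
  obtain ⟨s, hs⟩ : ∃ s, s ∉ H := by
    by_contra hc
    push Not at hc
    rw [Subgroup.index_eq_one.mpr (H.eq_top_iff'.mpr hc)] at hH
    exact absurd hH (by norm_num)
  let P := fun a b : Bool => {p : G × G // Commute p.1 p.2 ∧ decide (p.1 ∈ H) = a ∧ decide (p.2 ∈ H) = b}
  have hHH : Nat.card (P true true) = Nat.card (ConjClasses H) * Nat.card H := by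
    rw [← card_comm_eq_card_conjClasses_mul_card]
    exact Nat.card_congr
      { toFun := fun p => ⟨(⟨p.1.1, by simpa using p.2.2.1⟩, ⟨p.1.2, by simpa using p.2.2.2⟩), Subtype.ext p.2.1⟩
        invFun := fun p => ⟨(p.1.1.1, p.1.2.1), congrArg Subtype.val p.2, by simp, by simp⟩
        left_inv := fun p => rfl
        right_inv := fun p => rfl }
  have hall : Nat.card (ConjClasses G) * Nat.card G =
      Nat.card (P true true) + Nat.card (P true false) + (Nat.card (P false true) + Nat.card (P false false)) := by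
    rw [← card_comm_eq_card_conjClasses_mul_card, ← Nat.card_sum, ← Nat.card_sum, ← Nat.card_sum]
    exact Nat.card_congr
      { toFun := fun p =>
          if h1 : p.1.1 ∈ H then
            if h2 : p.1.2 ∈ H then .inl (.inl ⟨p.1, p.2, by simp [h1], by simp [h2]⟩)
            else .inl (.inr ⟨p.1, p.2, by simp [h1], by simp [h2]⟩)
          else
            if h2 : p.1.2 ∈ H then .inr (.inl ⟨p.1, p.2, by simp [h1], by simp [h2]⟩)
            else .inr (.inr ⟨p.1, p.2, by simp [h1], by simp [h2]⟩)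
        invFun := fun p => p.elim (fun q => q.elim (fun r => ⟨r.1, r.2.1⟩) fun r => ⟨r.1, r.2.1⟩)
          (fun q => q.elim (fun r => ⟨r.1, r.2.1⟩) fun r => ⟨r.1, r.2.1⟩)
        left_inv := fun p => by dsimp only; split_ifs <;> rfl
        right_inv := fun p => by
          rcases p with (⟨r, hr, h1, h2⟩ | ⟨r, hr, h1, h2⟩) | (⟨r, hr, h1, h2⟩ | ⟨r, hr, h1, h2⟩) <;>
            simp only [decide_eq_true_eq, decide_eq_false_iff_not] at h1 h2 <;> simp [h1, h2] }
  have hOH : Nat.card (P false true) = Nat.card (P true false) := Nat.card_congr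
    { toFun := fun p => ⟨(p.1.2, p.1.1), p.2.1.symm, p.2.2.2, p.2.2.1⟩
      invFun := fun p => ⟨(p.1.2, p.1.1), p.2.1.symm, p.2.2.2, p.2.2.1⟩
      left_inv := fun p => rfl
      right_inv := fun p => rfl }
  have hOO : Nat.card (P false false) = Nat.card (P false true) := Nat.card_congr
    { toFun := fun p => ⟨(p.1.1, p.1.1 * p.1.2), (Commute.refl p.1.1).mul_right p.2.1, p.2.2.1, by
        have h1 := p.2.2.1
        have h2 := p.2.2.2
        simp only [decide_eq_false_iff_not, decide_eq_true_eq] at h1 h2 ⊢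
        exact hmul.mpr (iff_of_false h1 h2)⟩
      invFun := fun p => ⟨(p.1.1, p.1.1⁻¹ * p.1.2), ((Commute.refl p.1.1).inv_right).mul_right p.2.1, p.2.2.1, by
        have h1 := p.2.2.1
        have h2 := p.2.2.2
        simp only [decide_eq_false_iff_not, decide_eq_true_eq] at h1 h2 ⊢
        exact fun h => h1 (H.inv_mem_iff.mp ((hmul.mp h).mpr h2))⟩
      left_inv := fun p => Subtype.ext (Prod.ext rfl (inv_mul_cancel_left _ _))
      right_inv := fun p => Subtype.ext (Prod.ext rfl (mul_inv_cancel_left _ _)) }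
  haveI : Fintype G := Fintype.ofFinite G
  haveI : Fintype (ConjAct G) := Fintype.ofFinite _
  haveI : Fintype (Quotient (MulAction.orbitRel (ConjAct G) H)) := Fintype.ofFinite _
  obtain ⟨i, hi⟩ : ∃ i, i = Nat.card (Quotient (MulAction.orbitRel (ConjAct G) H)) := ⟨_, rfl⟩
  have horb : Nat.card (P true true) + Nat.card (P true false) = i * Nat.card G := by
    have hb := MulAction.sum_card_fixedBy_eq_card_orbits_mul_card_group (ConjAct G) H
    simp only [← Nat.card_eq_fintype_card] at hb
    rw [hi, show Nat.card G = Nat.card (ConjAct G) from rfl, ← hb, ← Nat.card_sigma, ← Nat.card_sum]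
    exact Nat.card_congr
      { toFun := fun p => p.elim
          (fun r => ⟨ConjAct.toConjAct r.1.2, ⟨⟨r.1.1, by simpa using r.2.2.1⟩, Subtype.ext (by
            show r.1.2 * r.1.1 * r.1.2⁻¹ = r.1.1
            rw [r.2.1.symm.eq, mul_inv_cancel_right])⟩⟩)
          (fun r => ⟨ConjAct.toConjAct r.1.2, ⟨⟨r.1.1, by simpa using r.2.2.1⟩, Subtype.ext (by
            show r.1.2 * r.1.1 * r.1.2⁻¹ = r.1.1
            rw [r.2.1.symm.eq, mul_inv_cancel_right])⟩⟩)
        invFun := fun p =>
          have hc : Commute (p.2.1.1 : G) (ConjAct.ofConjAct p.1) := by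
            have h := congrArg Subtype.val p.2.2
            have h' : ConjAct.ofConjAct p.1 * p.2.1.1 * (ConjAct.ofConjAct p.1)⁻¹ = p.2.1.1 := h
            exact (mul_inv_eq_iff_eq_mul.mp h').symm
          if h : ConjAct.ofConjAct p.1 ∈ H then .inl ⟨(p.2.1.1, ConjAct.ofConjAct p.1), hc, by simp, by simp [h]⟩
          else .inr ⟨(p.2.1.1, ConjAct.ofConjAct p.1), hc, by simp, by simp [h]⟩
        left_inv := fun p => by
          rcases p with ⟨r, hr, h1, h2⟩ | ⟨r, hr, h1, h2⟩ <;>
            simp only [decide_eq_true_eq, decide_eq_false_iff_not] at h1 h2 <;> simp [h2]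
        right_inv := fun p => by dsimp only; split_ifs <;> rfl }
  have hcardG : Nat.card G = 2 * Nat.card H := by rw [← hH, mul_comm, H.card_mul_index]
  have hpos : 0 < Nat.card H := Nat.card_pos
  let π : ConjClasses H → Quotient (MulAction.orbitRel (ConjAct G) H) :=
    Quotient.lift (fun x : H => Quotient.mk (MulAction.orbitRel (ConjAct G) H) x) fun a b hab => by
      obtain ⟨c, hc⟩ := isConj_iff.mp (show IsConj a b from hab)
      refine (Quotient.sound ?_ : Quotient.mk (MulAction.orbitRel (ConjAct G) H) a = Quotient.mk _ b)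
      exact (MulAction.orbitRel (ConjAct G) H).iseqv.symm (show (MulAction.orbitRel (ConjAct G) H).r b a from
        ⟨ConjAct.toConjAct (c : G), Subtype.ext (congrArg Subtype.val hc)⟩)
  have hπ : Function.Surjective π := fun o => Quotient.inductionOn o fun x => ⟨ConjClasses.mk x, rfl⟩
  have hik : i ≤ Nat.card (ConjClasses H) := hi ▸ Nat.card_le_card_of_surjective π hπ
  let bad := fun o : Quotient (MulAction.orbitRel (ConjAct G) H) => ∀ x : G, x * o.out.1 = o.out.1 * x → x ∈ H
  have hki : Nat.card (ConjClasses H) ≤ i + Nat.card {o // bad o} := by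
    rw [hi, ← Nat.card_congr (Equiv.sigmaFiberEquiv π), Nat.card_sigma,
      Nat.card_eq_fintype_card (α := {o // bad o}), Fintype.card_subtype, Finset.card_filter,
      Nat.card_eq_fintype_card (α := Quotient _), ← Finset.card_univ, Finset.card_eq_sum_ones, ← Finset.sum_add_distrib]
    refine Finset.sum_le_sum fun o _ => ?_
    obtain ⟨x, hx⟩ : ∃ x, x = o.out := ⟨_, rfl⟩
    have hsx : s * x.1 * s⁻¹ ∈ H := Subgroup.Normal.conj_mem ‹_› x.1 x.2 s
    have hfib : ∀ C : {C // π C = o}, C.1 = ConjClasses.mk x ∨ (bad o ∧ C.1 = ConjClasses.mk ⟨_, hsx⟩) := fun C => by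
      obtain ⟨C, hC⟩ := C
      obtain ⟨y, rfl⟩ := ConjClasses.mk_surjective C
      have h' : Quotient.mk (MulAction.orbitRel (ConjAct G) H) y = Quotient.mk _ x := by rw [hx, Quotient.out_eq]; exact hC
      obtain ⟨t, ht⟩ := Quotient.exact h'
      have ht' : ConjAct.ofConjAct t * x.1 * (ConjAct.ofConjAct t)⁻¹ = y.1 := congrArg Subtype.val ht
      obtain ⟨g, hg⟩ : ∃ g, g = ConjAct.ofConjAct t := ⟨_, rfl⟩
      rw [← hg] at ht'
      show ConjClasses.mk y = _ ∨ (_ ∧ ConjClasses.mk y = _)
      simp only [ConjClasses.mk_eq_mk_iff_isConj]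
      by_cases hgH : g ∈ H
      · exact Or.inl (IsConj.symm (isConj_iff.mpr ⟨⟨g, hgH⟩, Subtype.ext ht'⟩))
      by_cases hb : bad o
      · refine Or.inr ⟨hb, IsConj.symm (isConj_iff.mpr ⟨⟨g * s⁻¹, hmul.mpr (iff_of_false hgH fun h => hs (H.inv_mem_iff.mp h))⟩,
          Subtype.ext ?_⟩)⟩
        show g * s⁻¹ * (s * x.1 * s⁻¹) * (g * s⁻¹)⁻¹ = y.1
        rw [← ht']; group
      · simp only [bad, ← hx, not_forall] at hb
        obtain ⟨c, hc, hcH⟩ := hb
        refine Or.inl (IsConj.symm (isConj_iff.mpr ⟨⟨g * c, hmul.mpr (iff_of_false hgH hcH)⟩, Subtype.ext ?_⟩))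
        show g * c * x.1 * (g * c)⁻¹ = y.1
        rw [mul_assoc g c, hc, ← ht']; group
    rw [Nat.card_eq_fintype_card]
    by_cases hb : bad o
    · rw [if_pos hb]
      refine le_trans (Fintype.card_le_of_injective (fun C : {C // π C = o} =>
        (⟨C.1, by rcases hfib C with h | h; · simp [h]
                  · simp [h.2]⟩ : ↥({ConjClasses.mk x, ConjClasses.mk ⟨_, hsx⟩} : Finset (ConjClasses H))))
        fun a b h => Subtype.ext (congrArg (fun z => z.1) h :)) ?_
      rw [Fintype.card_coe]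
      exact Finset.card_le_two
    · rw [if_neg hb, Nat.add_zero]
      refine Fintype.card_le_one_iff_subsingleton.mpr ⟨fun a b => Subtype.ext ?_⟩
      rw [(hfib a).resolve_right fun h => hb h.1, (hfib b).resolve_right fun h => hb h.1]
  have hbad : Nat.card {o // bad o} ≤
      Nat.card {C : ConjClasses G // ∃ g : G, ConjClasses.mk g = C ∧ g ∈ H ∧ ∀ x : G, x * g = g * x → x ∈ H} := by
    refine Nat.card_le_card_of_injective (fun o => ⟨ConjClasses.mk o.1.out.1, _, rfl, o.1.out.2, o.2⟩) fun a b h => ?_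
    obtain ⟨c, hc⟩ := isConj_iff.mp (ConjClasses.mk_eq_mk_iff_isConj.mp (congrArg Subtype.val h :))
    refine Subtype.ext ?_
    rw [← Quotient.out_eq a.1, ← Quotient.out_eq b.1]
    exact Quotient.sound ((MulAction.orbitRel (ConjAct G) H).iseqv.symm (show (MulAction.orbitRel (ConjAct G) H).r b.1.out a.1.out from
      ⟨ConjAct.toConjAct c, Subtype.ext hc⟩))
  rw [hHH] at hall horb
  rw [hOO, hOH, hcardG] at hall
  rw [hcardG] at horb
  have hrel : Nat.card (ConjClasses G) + Nat.card (ConjClasses H) = 3 * i := by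
    refine Nat.eq_of_mul_eq_mul_right (show 0 < 2 * Nat.card H by omega) ?_
    rw [add_mul]
    have : 3 * i * (2 * Nat.card H) = 3 * (i * (2 * Nat.card H)) := by ring
    rw [this]
    have h2k : Nat.card (ConjClasses H) * (2 * Nat.card H) = 2 * (Nat.card (ConjClasses H) * Nat.card H) := by ring
    omega
  omega

end CfsgLib.SignedClasses
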