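import Cfsg.Agent.SignedClasses.OrthLower
import Cfsg.Agent.SignedClasses.Series
import Cfsg.Agent.Forms.Standard
import Cfsg.Agent.Forms.Gram
import Cfsg.Agent.Forms.Matrix

/-!
Class number bounds for even-dimensional orthogonal groups, odd characteristic.
-/

set_option autoImplicit false

namespace CfsgLib.SignedClasses

open Matrix QuadraticMap CfsgLib.Forms
open scoped Classical

/-- An isometry group is the group fixing the polar matrix. -/
theorem exists_iso_equiv {F : Type*} [Field F] {ι : Type} [Fintype ι] [DecidableEq ι] (h2 : (2 : F) ≠ 0)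
    (Q : QuadraticForm F (ι → F)) (hQ : (polarBilin Q).Nondegenerate) {N : ℕ} (e : ι ≃ Fin N) :
    ∃ G : Matrix (Fin N) (Fin N) F, IsUnit G.det ∧ G.transpose = G ∧
      Nonempty (↥(Cfsg.isometryGroup F ⇑Q) ≃* ↥(isoGroup G)) := by
  obtain ⟨Φ, hΦ⟩ : ∃ Φ : Matrix ι ι F ≃ₐ[F] Matrix (Fin N) (Fin N) F, Φ = Matrix.reindexAlgEquiv F F e := ⟨_, rfl⟩
  have hΦt : ∀ A, Φ A.transpose = (Φ A).transpose := fun A => by rw [hΦ]; rfl
  obtain ⟨M, hMdef⟩ : ∃ M, M = gram ⇑Q ⇑(Pi.basisFun F ι) := ⟨_, rfl⟩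
  have hMs : M.transpose = M := by rw [hMdef]; ext i l; simp [CfsgLib.Forms.gram, polar_comm]
  have hMp : ∀ u v, u ⬝ᵥ (M *ᵥ v) = polar Q u v := fun u v => by
    rw [hMdef, gram_eq_toMatrix, ← QuadraticMap.polarBilin_apply_apply,
      LinearMap.BilinForm.toMatrix_basisFun, ← Matrix.toBilin'_apply', Matrix.toBilin'_toMatrix']
  have hmem : ∀ a : GL ι F, a ∈ Cfsg.isometryGroup F ⇑Q ↔ a.1.transpose * M * a.1 = M := fun a => by
    rw [mem_isometryGroup]
    have key : ∀ u v, u ⬝ᵥ ((a.1.transpose * M * a.1) *ᵥ v) = polar Q (a.1 *ᵥ u) (a.1 *ᵥ v) := fun u v => by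
      rw [← hMp, ← Matrix.mulVec_mulVec, ← Matrix.mulVec_mulVec, Matrix.dotProduct_mulVec u, Matrix.vecMul_transpose]
    refine ⟨fun h => Matrix.ext fun i l => ?_, fun h v => ?_⟩
    · have h3 := key (Pi.single i 1) (Pi.single l 1)
      rw [show polar (⇑Q) (a.1 *ᵥ Pi.single i 1) (a.1 *ᵥ Pi.single l 1) = polar Q (Pi.single i 1) (Pi.single l 1) by
        simp only [polar, ← Matrix.mulVec_add, h], ← hMp] at h3
      simpa using h3
    · have h3 := key v v
      rw [h, hMp, polar_self, polar_self, nsmul_eq_mul, nsmul_eq_mul] at h3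
      exact (mul_left_cancel₀ (by exact_mod_cast h2) h3).symm
  refine ⟨Φ M, ?_, by rw [← hΦt, hMs], ?_⟩
  · rw [hΦ, Matrix.coe_reindexAlgEquiv, Matrix.det_reindex_self, hMdef, isUnit_iff_ne_zero]
    exact det_gram_ne_zero hQ _
  let f : ↥(Cfsg.isometryGroup F ⇑Q) →* ↥(isoGroup (Φ M)) :=
    MonoidHom.mk' (fun a => ⟨Units.map (Φ : Matrix ι ι F →* Matrix (Fin N) (Fin N) F) a.1, by
        rw [mem_isoGroup]
        show (Φ a.1.1).transpose * _ * Φ a.1.1 = _
        rw [← hΦt, ← map_mul, ← map_mul, (hmem a.1).mp a.2]⟩)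
      fun a b => Subtype.ext (map_mul (Units.map (Φ : Matrix ι ι F →* Matrix (Fin N) (Fin N) F)) a.1 b.1)
  refine ⟨MulEquiv.ofBijective f ⟨fun a b h => Subtype.ext (Units.ext (Φ.injective (congrArg (fun u => u.1.1) h :))),
    fun u => ?_⟩⟩
  refine ⟨⟨Units.map (Φ.symm : Matrix (Fin N) (Fin N) F →* Matrix ι ι F) u.1, (hmem _).mpr (Φ.injective ?_)⟩,
    Subtype.ext (Units.ext (Φ.apply_symm_apply _))⟩
  show Φ ((Φ.symm u.1.1).transpose * M * Φ.symm u.1.1) = Φ M
  rw [map_mul, map_mul, hΦt, Φ.apply_symm_apply, mem_isoGroup.mp u.2]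

theorem orth_bounds {F : Type*} [Field F] [Fintype F] (hodd : Odd (Fintype.card F)) {n : ℕ} (hn : 2 ≤ n) {ι : Type}
    [Fintype ι] [DecidableEq ι] (Q : QuadraticForm F (ι → F)) (hQ : (polarBilin Q).Nondegenerate)
    (hι : Fintype.card ι = n + n) :
    Fintype.card F ^ n ≤ 2 * Nat.card (ConjClasses ↥(Cfsg.isometryGroup F ⇑Q)) ∧
      2 * Nat.card (ConjClasses ↥(Cfsg.isometryGroup F ⇑Q)) ≤ 19 * Fintype.card F ^ n := by
  have h2 : (2 : F) ≠ 0 := by
    refine Ring.two_ne_zero ?_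
    intro hc
    have := FiniteField.even_card_iff_char_two.mp hc
    rw [Nat.odd_iff] at hodd
    omega
  have hq : 3 ≤ Fintype.card F := by
    have := Fintype.one_lt_card (α := F)
    obtain ⟨k, hk⟩ := hodd
    omega
  obtain ⟨G, hG, hGs, ⟨E⟩⟩ := exists_iso_equiv h2 Q hQ (Fintype.equivFinOfCardEq hι)
  have e1 : Nat.card (ConjClasses ↥(Cfsg.isometryGroup F ⇑Q)) = Nat.card (ConjClasses ↥(isoGroup G)) :=
    le_antisymm (Nat.card_le_card_of_surjective (ConjClasses.map E.symm.toMonoidHom)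
      (ConjClasses.map_surjective E.symm.surjective))
      (Nat.card_le_card_of_surjective (ConjClasses.map E.toMonoidHom) (ConjClasses.map_surjective E.surjective))
  rw [e1]
  refine ⟨card_classes_ge h2 hn G hG hGs, ?_⟩
  have hσ : ∀ j : ℕ, (-1 : F) ^ j = 1 ↔ sigmaOrth j = true := fun j => by
    rcases Nat.even_or_odd j with h | h
    · rw [h.neg_one_pow, sigmaOrth, Nat.even_iff.mp h]; simp
    · rw [h.neg_one_pow, sigmaOrth, Nat.odd_iff.mp h]
      exact iff_of_false (fun e => h2 (by linear_combination -e)) (by simp)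
  have h1 := two_card_classes_le h2 G hG hGs sigmaOrth hσ
  obtain ⟨k, hk⟩ : ∃ k, n + n = k + 1 := ⟨n + n - 1, by omega⟩
  have h3 := orth_bound (Fintype.card F) hq k n
  rw [← hk, two_mul n] at h3
  change 2 * _ ≤ bndS _ sigmaOrth (n + n) 0 (n + n) + bndS _ sigmaNone (n + n) 0 (n + n) at h1
  omega

end CfsgLib.SignedClasses
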