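import Cfsg.Agent.SignedClasses.Layer

/-!
An orthogonal scaling on one cyclic summand changes exactly one layer discriminant.
-/

set_option autoImplicit false

namespace CfsgLib.SignedClasses

open Polynomial Matrix
open scoped Classical

variable {F : Type*} [Field F] {ι : Type*} [Fintype ι] [DecidableEq ι] {g G : Matrix ι ι F}
  {m : ℕ} {p : Fin m → F[X]} {e : Fin m → ℕ} {b : Fin m → ι → F}

theorem exists_anisotropic {κ : Type*} [Fintype κ] [DecidableEq κ] [Nonempty κ] (h2 : (2 : F) ≠ 0)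
    {B : Matrix κ κ F} (hB : Bᵀ = B) (hu : IsUnit B.det) : ∃ x : κ → F, x ⬝ᵥ (B *ᵥ x) ≠ 0 := by
  by_contra hc
  push Not at hc
  have h1 : ∀ i, B i i = 0 := fun i => by simpa using hc (Pi.single i 1)
  have h0 : B = 0 := Matrix.ext fun i l => by
    have h := hc (Pi.single i 1 + Pi.single l 1)
    simp only [Matrix.mulVec_add, dotProduct_add, add_dotProduct, Matrix.mulVec_single_one, single_one_dotProduct,
      Matrix.col_apply, h1, zero_add, add_zero] at h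
    have hs : B l i = B i l := congrFun (congrFun hB i) l
    rw [hs] at h
    exact (mul_eq_zero.mp (show (2 : F) * B i l = 0 by linear_combination h)).resolve_left h2
  exact hu.ne_zero (by rw [h0, Matrix.det_zero])

theorem eigen_of_pi {δ : F} {z : ι → F} (hz : aeval g (X - C δ) *ᵥ z = 0) : g *ᵥ z = δ • z := by
  rwa [aeval_pi, Matrix.sub_mulVec, Matrix.smul_mulVec, Matrix.one_mulVec, sub_eq_zero] at hz

/-- A form differing from `G` in one layer only, by the factor `ν`. -/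
theorem exists_flip (h2 : (2 : F) ≠ 0) [Finite F] (hb : IsFrame g p e b) (hp : ∀ i, Irreducible (p i) ∧ (p i).Monic)
    (he : ∀ i, e i ≠ 0) (hG : IsUnit G.det) (hg : gᵀ * G * g = G) {ε : F} (hε : ε * ε = 1) (hs : Gᵀ = ε • G)
    {δ : F} (hδ : δ * δ = 1) {j : ℕ} (hj : ε * (-1) ^ (j - 1) = 1)
    (hne : Nonempty {i : Fin m // (p i, e i) = (X - C δ, j)}) {ν : F} (hν : ν ≠ 0) :
    ∃ G' : Matrix ι ι F, IsUnit G'.det ∧ G'ᵀ = ε • G' ∧ gᵀ * G' * g = G' ∧ G'.det = G.det * ν ^ j ∧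
      ∀ δ' : F, δ' * δ' = 1 → ∀ j', (δ' = δ ∧ j' = j → (layer g G' p e b δ' j').det = ν * (layer g G p e b δ' j').det) ∧
        (¬(δ' = δ ∧ j' = j) → layer g G' p e b δ' j' = layer g G p e b δ' j') := by
  classical
  obtain ⟨⟨i₀, hi₀⟩⟩ := id hne
  obtain ⟨hpi₀, hei₀⟩ := Prod.mk.inj hi₀
  have hj0 : 0 < j := Nat.pos_of_ne_zero (hei₀ ▸ he i₀)
  have hgu := isUnit_iso hG hg
  have hBs : (layer g G p e b δ j)ᵀ = layer g G p e b δ j := by
    rw [layer_transpose hb he hG hg hδ hs j, hj, one_smul]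
  obtain ⟨x, hx⟩ := exists_anisotropic h2 hBs (layer_det hb hp he hG hg hδ j)
  obtain ⟨val, hval⟩ : ∃ v, v = x ⬝ᵥ (layer g G p e b δ j *ᵥ x) := ⟨_, rfl⟩
  have hval0 : val ≠ 0 := hval ▸ hx
  obtain ⟨y, hy⟩ : ∃ y : ι → F, y = ∑ l : {i : Fin m // (p i, e i) = (X - C δ, j)}, x l • b l := ⟨_, rfl⟩
  have hkill : ∀ k, j ≤ k → aeval g ((X - C δ) ^ k) *ᵥ y = 0 := fun k hk => by
    rw [hy, Matrix.mulVec_sum]
    refine Finset.sum_eq_zero fun l _ => ?_
    obtain ⟨h1, h2⟩ := Prod.mk.inj l.2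
    rw [Matrix.mulVec_smul, hb.kill l.1 (by rw [h1, h2]; exact pow_dvd_pow _ hk), smul_zero]
  obtain ⟨w, hw⟩ : ∃ w, w = aeval g ((X - C δ) ^ (j - 1)) *ᵥ y := ⟨_, rfl⟩
  have hgw : g *ᵥ w = δ • w := eigen_of_pi (by
    rw [hw, Matrix.mulVec_mulVec, ← map_mul, ← pow_succ', Nat.sub_add_cancel hj0]; exact hkill j le_rfl)
  have hbw : ∀ a : {i : Fin m // (p i, e i) = (X - C δ, j)}, b a ⬝ᵥ (G *ᵥ w) = (layer g G p e b δ j *ᵥ x) a := fun a => by
    rw [hw, hy, Matrix.mulVec_sum, Matrix.mulVec_sum, dotProduct_sum]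
    refine Finset.sum_congr rfl fun l _ => ?_
    rw [Matrix.mulVec_smul, Matrix.mulVec_smul, dotProduct_smul, smul_eq_mul, mul_comm]
    rfl
  have hyw : y ⬝ᵥ (G *ᵥ w) = val := by
    rw [hval]
    conv_lhs => rw [hy, sum_dotProduct]
    refine Finset.sum_congr rfl fun l _ => ?_
    rw [smul_dotProduct, smul_eq_mul, hbw]
  obtain ⟨K, hK⟩ : ∃ K : Matrix ι (Fin j) F, K = Matrix.of fun r (k : Fin j) => (aeval g ((X - C δ) ^ (k : ℕ)) *ᵥ y) r := ⟨_, rfl⟩
  have hcol : ∀ k : Fin j, K *ᵥ Pi.single k 1 = aeval g ((X - C δ) ^ (k : ℕ)) *ᵥ y := fun k => by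
    rw [hK, Matrix.mulVec_single_one]; rfl
  have hKt : ∀ (u : ι → F) (k : Fin j), (Kᵀ *ᵥ u) k = (aeval g ((X - C δ) ^ (k : ℕ)) *ᵥ y) ⬝ᵥ u := fun u k => by
    rw [hK]; rfl
  obtain ⟨M, hM⟩ : ∃ M, M = Kᵀ * G * K := ⟨_, rfl⟩
  have hMac : ∀ a c : Fin j, M a c =
      (aeval g ((X - C δ) ^ (a : ℕ)) *ᵥ y) ⬝ᵥ (G *ᵥ (aeval g ((X - C δ) ^ (c : ℕ)) *ᵥ y)) := fun a c => by
    rw [← hcol c, ← hKt, Matrix.mulVec_mulVec, Matrix.mulVec_mulVec, hM, Matrix.mul_assoc, Matrix.mulVec_single_one]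
    rfl
  have hM0 : ∀ a c : Fin j, j ≤ (a : ℕ) + c → M a c = 0 := fun a c hac => by
    rw [hMac, form_pi hG hg hδ, Matrix.mulVec_mulVec y, ← map_mul, ← pow_add, hkill _ hac, Matrix.mulVec_zero,
      Matrix.mulVec_zero, dotProduct_zero]
  have hM1 : ∀ a c : Fin j, (a : ℕ) + c = j - 1 → M a c = (-1) ^ (a : ℕ) * val := fun a c hac => by
    rw [hMac, form_pi hG hg hδ, Matrix.mulVec_mulVec y, ← map_mul, ← pow_add, hac, ← hw]
    have h1 : ((-δ) • g⁻¹) *ᵥ w = (-1 : F) • w := by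
      have h3 : g⁻¹ *ᵥ w = δ • w := by
        conv_lhs => rw [show w = g *ᵥ (δ • w) by rw [Matrix.mulVec_smul, hgw, smul_smul, hδ, one_smul]]
        rw [Matrix.mulVec_mulVec, Matrix.nonsing_inv_mul _ hgu, Matrix.one_mulVec]
      rw [Matrix.smul_mulVec, h3, smul_smul, neg_mul, hδ]
    have h4 : ∀ k : ℕ, ((-δ) • g⁻¹) ^ k *ᵥ w = (-1 : F) ^ k • w := fun k => by
      induction k with
      | zero => simp
      | succ k ih => rw [pow_succ, ← Matrix.mulVec_mulVec, h1, Matrix.mulVec_smul, ih, smul_smul, pow_succ, mul_comm]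
    rw [h4, Matrix.mulVec_smul, dotProduct_smul, smul_eq_mul, hyw]
  have hMu : IsUnit M.det := by
    refine isUnit_iff_ne_zero.mpr fun hdet => ?_
    obtain ⟨v, hv0, hv⟩ := Matrix.exists_mulVec_eq_zero_iff.mpr hdet
    obtain ⟨S, hS⟩ : ∃ S, S = Finset.univ.filter fun k => v k ≠ 0 := ⟨_, rfl⟩
    have hSne : S.Nonempty := by
      obtain ⟨k, hk⟩ := Function.ne_iff.mp hv0
      exact ⟨k, by rw [hS]; simpa using hk⟩
    obtain ⟨r, hr⟩ : ∃ r, r = S.min' hSne := ⟨_, rfl⟩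
    have hvr : v r ≠ 0 := by
      have := S.min'_mem hSne
      rw [← hr, hS] at this
      exact (Finset.mem_filter.mp this).2
    have hlt : ∀ k, k < r → v k = 0 := fun k hk => by
      by_contra hne'
      exact absurd (S.min'_le k (by rw [hS]; simpa using hne')) (not_le.mpr (hr ▸ hk))
    have hrow := congrFun hv ⟨j - 1 - (r : ℕ), by omega⟩
    simp only [Matrix.mulVec, dotProduct, Pi.zero_apply] at hrow
    rw [Finset.sum_eq_single r (fun c _ hc => ?_) (fun h => absurd (Finset.mem_univ r) h),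
      hM1 _ r (by have := r.2; simp only []; omega)] at hrow
    · exact mul_ne_zero (mul_ne_zero (pow_ne_zero _ (by norm_num)) hval0) hvr hrow
    · rcases lt_or_gt_of_ne hc with h | h
      · rw [hlt c h, mul_zero]
      · have := r.2
        rw [hM0 _ c (by simp only []; rw [Fin.lt_def] at h; omega), zero_mul]
  obtain ⟨A, hA⟩ : ∃ A : Matrix (Fin j) (Fin j) F, g * K = K * A := by
    have hex : ∀ c : Fin j, ∃ v : Fin j → F, K *ᵥ v = g *ᵥ (aeval g ((X - C δ) ^ (c : ℕ)) *ᵥ y) := fun c => by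
      refine ⟨δ • Pi.single c 1 + if h : (c : ℕ) + 1 < j then Pi.single ⟨c + 1, h⟩ 1 else 0, ?_⟩
      have e1 : g *ᵥ (aeval g ((X - C δ) ^ (c : ℕ)) *ᵥ y) =
          δ • (aeval g ((X - C δ) ^ (c : ℕ)) *ᵥ y) + aeval g ((X - C δ) ^ ((c : ℕ) + 1)) *ᵥ y := by
        rw [pow_succ' (X - C δ), map_mul, ← Matrix.mulVec_mulVec, aeval_pi, Matrix.sub_mulVec, Matrix.smul_mulVec,
          Matrix.one_mulVec, add_sub_cancel]
      rw [Matrix.mulVec_add, Matrix.mulVec_smul, hcol, e1]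
      split_ifs with h
      · rw [hcol]
      · rw [Matrix.mulVec_zero, hkill _ (not_lt.mp h)]
    choose v hv using hex
    refine ⟨Matrix.of fun c' c => v c c', Matrix.ext_of_mulVec_single fun c => ?_⟩
    rw [← Matrix.mulVec_mulVec, ← Matrix.mulVec_mulVec, hcol, Matrix.mulVec_single_one,
      show Matrix.col (Matrix.of fun c' c => v c c') c = v c from rfl, hv]
  have hAM : Aᵀ * M * A = M := by
    calc Aᵀ * M * A = (K * A)ᵀ * G * (K * A) := by rw [hM, Matrix.transpose_mul]; simp only [Matrix.mul_assoc]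
      _ = Kᵀ * (gᵀ * G * g) * K := by rw [← hA, Matrix.transpose_mul]; simp only [Matrix.mul_assoc]
      _ = M := by rw [hg, hM]
  have hAu := isUnit_iso hMu hAM
  have hAMi : A * M⁻¹ * Aᵀ = M⁻¹ := by
    have h1 : Aᵀ * (M * A * M⁻¹) = 1 := by
      rw [← Matrix.mul_assoc, ← Matrix.mul_assoc, hAM, Matrix.mul_nonsing_inv _ hMu]
    have h3 : M * A * M⁻¹ * Aᵀ = 1 := mul_eq_one_comm.mp h1
    calc A * M⁻¹ * Aᵀ = M⁻¹ * (M * A * M⁻¹ * Aᵀ) := by
          simp only [Matrix.mul_assoc]; rw [Matrix.nonsing_inv_mul_cancel_left _ _ hMu]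
      _ = M⁻¹ := by rw [h3, Matrix.mul_one]
  obtain ⟨P, hP⟩ : ∃ P, P = K * M⁻¹ * (Kᵀ * G) := ⟨_, rfl⟩
  have hPg : P * g = g * P := by
    calc P * g = K * (A * M⁻¹ * Aᵀ) * (Kᵀ * G) * g := by rw [hAMi, hP]
      _ = K * A * M⁻¹ * ((K * A)ᵀ * G * g) := by rw [Matrix.transpose_mul]; simp only [Matrix.mul_assoc]
      _ = g * K * M⁻¹ * (Kᵀ * (gᵀ * G * g)) := by rw [← hA, Matrix.transpose_mul]; simp only [Matrix.mul_assoc]
      _ = g * P := by rw [hg, hP]; simp only [Matrix.mul_assoc]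
  have hPs : (G * P)ᵀ = ε • (G * P) := by
    have hMs : Mᵀ = ε • M := by
      rw [hM, Matrix.transpose_mul, Matrix.transpose_mul, Matrix.transpose_transpose, hs, Matrix.smul_mul, Matrix.mul_smul,
        Matrix.mul_assoc]
    have hMi : (M⁻¹)ᵀ = ε • M⁻¹ := by
      rw [Matrix.transpose_nonsing_inv, hMs]
      exact Matrix.inv_eq_left_inv (by rw [Matrix.smul_mul, Matrix.mul_smul, smul_smul, hε, one_smul,
        Matrix.nonsing_inv_mul _ hMu])
    rw [hP, Matrix.transpose_mul, Matrix.transpose_mul, Matrix.transpose_mul, Matrix.transpose_mul, Matrix.transpose_transpose,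
      hMi, hs]
    simp only [Matrix.smul_mul, Matrix.mul_smul, smul_smul, hε, Matrix.mul_assoc, mul_one]
  obtain ⟨c, hc⟩ : ∃ c, c = ν - 1 := ⟨_, rfl⟩
  have hdet : (1 + c • P).det = ν ^ j := by
    rw [hP, Matrix.mul_assoc, ← Matrix.smul_mul, Matrix.det_one_add_mul_comm, Matrix.mul_smul,
      Matrix.mul_assoc, ← hM, Matrix.nonsing_inv_mul _ hMu]
    rw [show (1 : Matrix (Fin j) (Fin j) F) + c • 1 = ν • 1 by rw [hc, sub_smul, one_smul, add_sub_cancel],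
      Matrix.det_smul, Matrix.det_one, mul_one, Fintype.card_fin]
  have hG'det : (G * (1 + c • P)).det = G.det * ν ^ j := by rw [Matrix.det_mul, hdet]
  have hG'g : gᵀ * (G * (1 + c • P)) * g = G * (1 + c • P) := by
    have h1 : (1 + c • P) * g = g * (1 + c • P) := by
      rw [Matrix.add_mul, Matrix.mul_add, Matrix.smul_mul, Matrix.mul_smul, hPg, Matrix.one_mul, Matrix.mul_one]
    rw [← Matrix.mul_assoc, Matrix.mul_assoc (gᵀ * G), h1, ← Matrix.mul_assoc, hg]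
  refine ⟨G * (1 + c • P), by rw [hG'det]; exact hG.mul (isUnit_iff_ne_zero.mpr (pow_ne_zero _ hν)), ?_, hG'g, hG'det,
    fun δ' hδ' j' => ?_⟩
  · rw [Matrix.mul_add, Matrix.mul_one, Matrix.mul_smul, Matrix.transpose_add, Matrix.transpose_smul, hPs, hs, smul_add,
      smul_comm]
  have key : ∀ a i : {i : Fin m // (p i, e i) = (X - C δ', j')}, layer g (G * (1 + c • P)) p e b δ' j' a i =
      layer g G p e b δ' j' a i +
        c * ((y ⬝ᵥ (G *ᵥ (aeval g ((X - C δ') ^ (j' - 1)) *ᵥ b i))) * val⁻¹ * b a ⬝ᵥ (G *ᵥ w)) := fun a i => by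
    obtain ⟨z, hz⟩ : ∃ z, z = aeval g ((X - C δ') ^ (j' - 1)) *ᵥ b i := ⟨_, rfl⟩
    obtain ⟨hi, hij⟩ := Prod.mk.inj i.2
    have hgz : g *ᵥ z = δ' • z := eigen_of_pi (by
      rw [hz, Matrix.mulVec_mulVec, ← map_mul, ← pow_succ', Nat.sub_add_cancel (Nat.pos_of_ne_zero (hij ▸ he i.1))]
      exact hb.kill i.1 (by rw [hi, hij]))
    have hpk : ∀ k : Fin j, (Kᵀ *ᵥ (G *ᵥ z)) k = (δ' - δ) ^ (k : ℕ) * (y ⬝ᵥ (G *ᵥ z)) := fun k => by
      rw [hKt, form_eigen hG hg hδ' hgz, eval_pow, eval_sub, eval_X, eval_C]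
    have hv : Kᵀ *ᵥ (G *ᵥ z) = (y ⬝ᵥ (G *ᵥ z)) • Pi.single (⟨0, hj0⟩ : Fin j) 1 := funext fun k => by
      rw [hpk, Pi.smul_apply, smul_eq_mul]
      rcases eq_or_ne k ⟨0, hj0⟩ with rfl | hk
      · rw [Pi.single_eq_same, pow_zero, one_mul, mul_one]
      · rw [Pi.single_eq_of_ne hk, mul_zero]
        rcases eq_or_ne δ' δ with h | h
        · rw [h, sub_self, zero_pow (fun h0 => hk (Fin.ext h0)), zero_mul]
        · have h0 := form_eigen hG hg hδ' hgz ((X - C δ) ^ j) y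
          rw [hkill j le_rfl, zero_dotProduct, eval_pow, eval_sub, eval_X, eval_C] at h0
          rw [(mul_eq_zero.mp h0.symm).resolve_left (pow_ne_zero _ (sub_ne_zero.mpr h)), mul_zero]
    have hlast : M⁻¹ *ᵥ Pi.single (⟨0, hj0⟩ : Fin j) 1 = val⁻¹ • Pi.single (⟨j - 1, by omega⟩ : Fin j) 1 := by
      refine (Matrix.mulVec_injective_iff_isUnit.mpr ((Matrix.isUnit_iff_isUnit_det M).mpr hMu)) ?_
      show M *ᵥ _ = M *ᵥ _
      rw [Matrix.mulVec_mulVec, Matrix.mul_nonsing_inv _ hMu, Matrix.one_mulVec, Matrix.mulVec_smul]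
      funext k
      rw [Pi.smul_apply, Matrix.mulVec_single_one, Matrix.col_apply, smul_eq_mul]
      rcases eq_or_ne k ⟨0, hj0⟩ with rfl | hk
      · rw [Pi.single_eq_same, hM1 _ _ (by simp), pow_zero, one_mul, inv_mul_cancel₀ hval0]
      · rw [Pi.single_eq_of_ne hk, hM0 _ _ (by
          have : (k : ℕ) ≠ 0 := fun h0 => hk (Fin.ext h0)
          simp only []; omega), mul_zero]
    have hPz : P *ᵥ z = ((y ⬝ᵥ (G *ᵥ z)) * val⁻¹) • w := by
      rw [hP, ← Matrix.mulVec_mulVec, ← Matrix.mulVec_mulVec, ← Matrix.mulVec_mulVec, hv, Matrix.mulVec_smul,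
        Matrix.mulVec_smul, hlast, Matrix.mulVec_smul, smul_smul, hcol, hw]
    simp only [layer, Matrix.of_apply]
    rw [← hz, ← Matrix.mulVec_mulVec, Matrix.add_mulVec, Matrix.one_mulVec, Matrix.smul_mulVec, hPz, Matrix.mulVec_add,
      Matrix.mulVec_smul, Matrix.mulVec_smul, dotProduct_add, dotProduct_smul, dotProduct_smul, smul_eq_mul, smul_eq_mul]
  refine ⟨fun ⟨h1, h3⟩ => ?_, fun hne' => ?_⟩
  · subst h1 h3
    have hl : layer g (G * (1 + c • P)) p e b δ' j' = layer g G p e b δ' j' +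
        (c * val⁻¹) • Matrix.vecMulVec (layer g G p e b δ' j' *ᵥ x) (x ᵥ* layer g G p e b δ' j') := by
      ext a i
      rw [key, hbw, Matrix.add_apply, Matrix.smul_apply, Matrix.vecMulVec_apply, smul_eq_mul]
      have : y ⬝ᵥ (G *ᵥ (aeval g ((X - C δ') ^ (j' - 1)) *ᵥ b i)) = (x ᵥ* layer g G p e b δ' j') i := by
        rw [hy, sum_dotProduct]
        refine Finset.sum_congr rfl fun l _ => ?_
        rw [smul_dotProduct, smul_eq_mul]; rfl
      rw [this]; ring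
    obtain ⟨B, hB⟩ : ∃ B, B = layer g G p e b δ' j' := ⟨_, rfl⟩
    rw [← hB] at hval
    have h4 : B + (c * val⁻¹) • Matrix.vecMulVec (B *ᵥ x) (x ᵥ* B) = B * (1 + Matrix.vecMulVec ((c * val⁻¹) • x) (x ᵥ* B)) := by
      rw [Matrix.mul_add, Matrix.mul_one, Matrix.mul_vecMulVec, Matrix.mulVec_smul, Matrix.smul_vecMulVec]
    rw [hl, ← hB, h4, Matrix.det_mul, Matrix.vecMulVec_eq Unit, Matrix.det_one_add_replicateCol_mul_replicateRow,
      dotProduct_smul, ← Matrix.dotProduct_mulVec, ← hval, smul_eq_mul, mul_assoc c, inv_mul_cancel₀ hval0, mul_one,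
      hc, add_sub_cancel, mul_comm]
  · ext a i
    rw [key, add_eq_left]
    obtain ⟨hi, hij⟩ := Prod.mk.inj i.2
    obtain ⟨ha, haj⟩ := Prod.mk.inj a.2
    have hj'0 : 0 < j' := Nat.pos_of_ne_zero (hij ▸ he i.1)
    suffices h : y ⬝ᵥ (G *ᵥ (aeval g ((X - C δ') ^ (j' - 1)) *ᵥ b i)) = 0 ∨ b a ⬝ᵥ (G *ᵥ w) = 0 by
      rcases h with h | h <;> rw [h] <;> ring
    rcases eq_or_ne δ' δ with hd | hd
    · subst hd
      rcases lt_or_gt_of_ne (fun h => hne' ⟨rfl, h⟩ : j' ≠ j) with h | h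
      · refine Or.inr ?_
        rw [hw]
        exact form_zero hG hg hδ (hb.kill a.1 (by rw [ha, haj]; exact pow_dvd_pow _ (by omega))) y
      · exact Or.inl (form_zero hG hg hδ (hkill _ (by omega)) (b i))
    · refine Or.inl ?_
      have hgz : g *ᵥ (aeval g ((X - C δ') ^ (j' - 1)) *ᵥ b i) = δ' • (aeval g ((X - C δ') ^ (j' - 1)) *ᵥ b i) :=
        eigen_of_pi (by
          rw [Matrix.mulVec_mulVec, ← map_mul, ← pow_succ', Nat.sub_add_cancel hj'0]
          exact hb.kill i.1 (by rw [hi, hij]))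
      have h0 := form_eigen hG hg hδ' hgz ((X - C δ) ^ j) y
      rw [hkill j le_rfl, zero_dotProduct, eval_pow, eval_sub, eval_X, eval_C] at h0
      exact (mul_eq_zero.mp h0.symm).resolve_left (pow_ne_zero _ (sub_ne_zero.mpr hd))

end CfsgLib.SignedClasses
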