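import Cfsg.Agent.SignedClasses.Code
import Cfsg.Agent.SignedClasses.Flip

/-!
Classes of an isometry group are determined by a signed tuple and its layer discriminant bits.
-/

set_option autoImplicit false

namespace CfsgLib.SignedClasses

open Polynomial Matrix CfsgLib.GLClassCount CfsgLib.GUClassCount
open scoped Classical

section

variable {F : Type*} [Field F] {n : ℕ}

/-- The isometries of a bilinear form. -/
def isoGroup (G : Matrix (Fin n) (Fin n) F) : Subgroup (GL (Fin n) F) where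
  carrier := {a | a.1ᵀ * G * a.1 = G}
  one_mem' := by simp
  mul_mem' {a b} ha hb := by
    show (a * b).1ᵀ * G * (a * b).1 = G
    calc (a * b).1ᵀ * G * (a * b).1 = b.1ᵀ * (a.1ᵀ * G * a.1) * b.1 := by
          rw [Units.val_mul, Matrix.transpose_mul]; simp only [Matrix.mul_assoc]
      _ = G := by rw [show a.1ᵀ * G * a.1 = G from ha]; exact hb
  inv_mem' {a} ha := by
    show (a⁻¹).1ᵀ * G * (a⁻¹).1 = G
    conv_lhs => rw [← show a.1ᵀ * G * a.1 = G from ha]
    calc (a⁻¹).1ᵀ * (a.1ᵀ * G * a.1) * (a⁻¹).1 = (a.1 * (a⁻¹).1)ᵀ * G * (a.1 * (a⁻¹).1) := by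
          rw [Matrix.transpose_mul]; simp only [Matrix.mul_assoc]
      _ = G := by rw [Units.mul_inv, Matrix.transpose_one, Matrix.one_mul, Matrix.mul_one]

theorem mem_isoGroup {G : Matrix (Fin n) (Fin n) F} {a : GL (Fin n) F} : a ∈ isoGroup G ↔ a.1ᵀ * G * a.1 = G := Iff.rfl

end

variable {F : Type*} [Field F] [Fintype F] {n : ℕ}

/-- The places carrying a discriminant bit. -/
noncomputable def bitSet (σ : ℕ → Bool) (h : Fin n → F[X]) : Finset (F × Fin n) :=
  Finset.univ.filter fun x => σ x.2 = true ∧ x.1 * x.1 = 1 ∧ (h x.2).eval x.1 = 0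

theorem two_pow_bitSet (σ : ℕ → Bool) (h : Fin n → F[X]) : 2 ^ (bitSet σ h).card = tupWt σ h := by
  rw [bitSet, Finset.card_filter, Fintype.sum_prod_type_right, ← Finset.prod_pow_eq_pow_sum, tupWt]
  refine Finset.prod_congr rfl fun j _ => ?_
  rw [← Finset.card_filter]
  by_cases hj : σ j
  · rw [if_pos hj, signWt]
    exact congrArg _ (congrArg _ (Finset.filter_congr fun δ _ => by simp [hj]))
  · rw [if_neg hj, Finset.filter_false_of_mem (fun δ _ hh => hj hh.1), Finset.card_empty, pow_zero]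

theorem isSquare_mul_of_iff {a b : F} (ha : a ≠ 0) (hb : b ≠ 0) (h : IsSquare a ↔ IsSquare b) : IsSquare (a * b) := by
  by_cases hsa : IsSquare a
  · exact hsa.mul (h.mp hsa)
  · refine (quadraticChar_one_iff_isSquare (mul_ne_zero ha hb)).mp ?_
    rw [map_mul, quadraticChar_neg_one_iff_not_isSquare.mpr hsa,
      quadraticChar_neg_one_iff_not_isSquare.mpr (fun hsb => hsa (h.mpr hsb))]
    norm_num

theorem isSquare_mul_nonsquare {a ν : F} (ha : a ≠ 0) (hν : ¬ IsSquare ν) : IsSquare (ν * a) ↔ ¬ IsSquare a := by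
  constructor
  · intro h hsa
    obtain ⟨r, hr⟩ := h
    obtain ⟨s, rfl⟩ := hsa
    have hs : s ≠ 0 := fun e => ha (by rw [e, mul_zero])
    exact hν ⟨r / s, by field_simp; linear_combination hr⟩
  · intro h
    have hν0 : ν ≠ 0 := fun e => hν (e ▸ IsSquare.zero)
    exact isSquare_mul_of_iff hν0 ha ⟨fun h' => absurd h' hν, fun h' => absurd h' h⟩

/-- Classes are determined by the tuple and the bits, and for symmetric forms one bit is redundant. -/
theorem exists_key (h2 : (2 : F) ≠ 0) (G : Matrix (Fin n) (Fin n) F) (hG : IsUnit G.det) {ε : F} (hε : ε * ε = 1)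
    (hs : Gᵀ = ε • G) (σ : ℕ → Bool) (hσ : ∀ j : ℕ, ε * (-1) ^ j = 1 ↔ σ j = true) :
    ∃ (code : ConjClasses (isoGroup G) → STup F σ n 0 n) (bit : ConjClasses (isoGroup G) → F × Fin n → Bool),
      ∀ C D, code C = code D → ((∀ x ∈ bitSet σ (code C).1.1, bit C x = bit D x) → C = D) ∧
        (ε = 1 → ∀ x₀ ∈ bitSet σ (code C).1.1,
          (∀ x ∈ bitSet σ (code C).1.1, x ≠ x₀ → bit C x = bit D x) → C = D) := by
  choose m p e hprop hT using fun g : GL (Fin n) F => exists_data g
  choose b hb using fun g : GL (Fin n) F => exists_frame g.1 (hT g)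
  have hp : ∀ g, ∀ i, Irreducible (p g i) ∧ (p g i).Monic := fun g i => ⟨((hprop g).1 i).1, ((hprop g).1 i).2.1⟩
  have he : ∀ g, ∀ i, e g i ≠ 0 := fun g i => ((hprop g).1 i).2.2
  have hp0 : ∀ g i, (p g i).coeff 0 ≠ 0 := fun g i h => (hprop g).2.2.1 i
    (eq_of_monic_of_associated monic_X ((hprop g).1 i).2.1
      (irreducible_X.associated_of_dvd ((hprop g).1 i).1 (X_dvd_iff.mpr h))).symm
  let rep : ConjClasses (isoGroup G) → GL (Fin n) F := fun C => (Quotient.out C : isoGroup G).1
  have hrep : ∀ C, (rep C).1ᵀ * G * (rep C).1 = G := fun C => (Quotient.out C : isoGroup G).2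
  let code : ConjClasses (isoGroup G) → STup F σ n 0 n := fun C =>
    ⟨⟨encode (p (rep C)) (e (rep C)) n,
      fun j => ⟨monic_prod_of_monic _ _ fun i _ => ((hprop (rep C)).1 i).2.1, by
        rw [encode, coeff_zero_prod]
        exact Finset.prod_ne_zero_iff.mpr fun i _ => hp0 (rep C) i⟩,
      fun j hj => absurd hj (Nat.not_lt_zero _),
      (encode_weight (fun i => ((hprop (rep C)).1 i).2.1) (fun i => ((hprop (rep C)).1 i).2.2)
        (hprop (rep C)).2.1).1.trans (hprop (rep C)).2.2.2⟩,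
      fun j => ⟨encode_recip (rep C) hG (hrep C) (hprop (rep C)).1 (hp0 (rep C)) (hT (rep C)) j, fun hj δ hδ =>
        encode_even h2 hG (hrep C) (hb (rep C)) (hprop (rep C)).1 hs hδ j (by
          refine (mul_self_eq_one_iff.mp ?_).resolve_left fun h => by rw [(hσ j).mp h] at hj; exact Bool.noConfusion hj
          rw [mul_mul_mul_comm, hε, ← mul_pow, neg_mul_neg, one_mul, one_mul, one_pow])⟩⟩
  let base : STup F σ n 0 n → GL (Fin n) F := fun h =>
    if hh : ∃ C, code C = h then rep hh.choose else 1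
  have hbase : ∀ C, encode (p (base (code C))) (e (base (code C))) n = encode (p (rep C)) (e (rep C)) n := fun C => by
    have hh : ∃ D, code D = code C := ⟨C, rfl⟩
    simp only [base]
    rw [dif_pos hh]
    exact congrArg (fun t : STup F σ n 0 n => t.1.1) hh.choose_spec
  have hconj : ∀ C, ∃ c : GL (Fin n) F, c * base (code C) = rep C * c := fun C => by
    obtain ⟨c, hc⟩ := isConj_iff.mp (conj_of_encode (base (code C)) (rep C) (hprop _).1 (hprop _).1 (hprop _).2.1
      (hprop _).2.1 (hT _) (hT _) (hbase C))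
    exact ⟨c, mul_inv_eq_iff_eq_mul.mp hc⟩
  choose c hc using hconj
  let form : ConjClasses (isoGroup G) → Matrix (Fin n) (Fin n) F := fun C => (c C).1ᵀ * G * (c C).1
  have hcu : ∀ C, IsUnit (c C).1.det := fun C => (Matrix.isUnit_iff_isUnit_det _).mp (c C).isUnit
  have hfu : ∀ C, IsUnit (form C).det := fun C => by
    simp only [form, Matrix.det_mul, Matrix.det_transpose]
    exact ((hcu C).mul hG).mul (hcu C)
  have hfs : ∀ C, (form C)ᵀ = ε • form C := fun C => by
    simp only [form]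
    rw [Matrix.transpose_mul, Matrix.transpose_mul, Matrix.transpose_transpose, hs, Matrix.smul_mul, Matrix.mul_smul,
      Matrix.mul_assoc]
  have hcM : ∀ C, (c C).1 * (base (code C)).1 = (rep C).1 * (c C).1 := fun C => congrArg Units.val (hc C)
  have hfg : ∀ C, (base (code C)).1ᵀ * form C * (base (code C)).1 = form C := fun C => by
    simp only [form]
    calc (base (code C)).1ᵀ * ((c C).1ᵀ * G * (c C).1) * (base (code C)).1
        = ((c C).1 * (base (code C)).1)ᵀ * G * ((c C).1 * (base (code C)).1) := by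
          rw [Matrix.transpose_mul]; simp only [Matrix.mul_assoc]
      _ = (c C).1ᵀ * ((rep C).1ᵀ * G * (rep C).1) * (c C).1 := by
          rw [hcM C, Matrix.transpose_mul]; simp only [Matrix.mul_assoc]
      _ = _ := by rw [hrep C]
  let bit : ConjClasses (isoGroup G) → F × Fin n → Bool := fun C x =>
    decide (IsSquare (layer (base (code C)).1 (form C) (p (base (code C))) (e (base (code C))) (b (base (code C))) x.1
      ((x.2 : ℕ) + 1)).det)
  have hfin : ∀ C D, code C = code D → ∀ Q : Matrix (Fin n) (Fin n) F, IsUnit Q.det →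
      Q * (base (code C)).1 = (base (code C)).1 * Q → Qᵀ * form C * Q = form D → C = D := by
    intro C D hCD Q hQ hQg hQf
    obtain ⟨u, hu⟩ : ∃ u : GL (Fin n) F, u = c C * ((Matrix.isUnit_iff_isUnit_det Q).mpr hQ).unit * (c D)⁻¹ := ⟨_, rfl⟩
    have hu1 : u.1 = (c C).1 * Q * (c D)⁻¹.1 := by rw [hu]; rfl
    have huG : u ∈ isoGroup G := by
      rw [mem_isoGroup, hu1]
      calc ((c C).1 * Q * (c D)⁻¹.1)ᵀ * G * ((c C).1 * Q * (c D)⁻¹.1)
          = (c D)⁻¹.1ᵀ * (Qᵀ * form C * Q) * (c D)⁻¹.1 := by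
            simp only [form, Matrix.transpose_mul, Matrix.mul_assoc]
        _ = ((c D).1 * (c D)⁻¹.1)ᵀ * G * ((c D).1 * (c D)⁻¹.1) := by
            rw [hQf]; simp only [form, Matrix.transpose_mul, Matrix.mul_assoc]
        _ = G := by rw [Units.mul_inv, Matrix.transpose_one, Matrix.one_mul, Matrix.mul_one]
    have huc : u * rep D = rep C * u := by
      refine Units.ext ?_
      show u.1 * (rep D).1 = (rep C).1 * u.1
      have h1 : (c D)⁻¹.1 * (rep D).1 = (base (code D)).1 * (c D)⁻¹.1 := by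
        rw [← Units.val_mul, ← Units.val_mul, inv_mul_eq_iff_eq_mul.mpr (eq_mul_inv_of_mul_eq (hc D).symm |>.trans
          (mul_assoc _ _ _))]
      rw [hu1, Matrix.mul_assoc, h1, ← hCD, ← Matrix.mul_assoc, Matrix.mul_assoc (c C).1, hQg]
      simp only [← Matrix.mul_assoc, hcM]
    rw [← Quotient.out_eq C, ← Quotient.out_eq D]
    refine Quotient.sound (show IsConj (Quotient.out C : isoGroup G) (Quotient.out D) from IsConj.symm ?_)
    exact isConj_iff.mpr ⟨⟨u, huG⟩, Subtype.ext (mul_inv_eq_iff_eq_mul.mpr huc)⟩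
  have hdisc : ∀ C (G' : Matrix (Fin n) (Fin n) F), IsUnit G'.det → G'ᵀ = ε • G' →
      (base (code C)).1ᵀ * G' * (base (code C)).1 = G' →
      ∀ H : Matrix (Fin n) (Fin n) F, IsUnit H.det → Hᵀ = ε • H →
      (base (code C)).1ᵀ * H * (base (code C)).1 = H →
      (∀ x ∈ bitSet σ (code C).1.1,
        (IsSquare (layer (base (code C)).1 G' (p (base (code C))) (e (base (code C))) (b (base (code C))) x.1
          ((x.2 : ℕ) + 1)).det ↔ IsSquare (layer (base (code C)).1 H (p (base (code C))) (e (base (code C)))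
          (b (base (code C))) x.1 ((x.2 : ℕ) + 1)).det)) →
      ∃ Q : Matrix (Fin n) (Fin n) F, IsUnit Q.det ∧ Q * (base (code C)).1 = (base (code C)).1 * Q ∧ Qᵀ * G' * Q = H := by
    intro C G' hG'u hG's hG'g H hHu hHs hHg hiff
    obtain ⟨g, hg⟩ : ∃ g, g = base (code C) := ⟨_, rfl⟩
    have hcode : (code C).1.1 = encode (p g) (e g) n := by rw [hg, hbase C]
    rw [← hg] at hG'g hHg hiff ⊢
    refine congr_of_disc h2 (hb g) (hp g) (he g) hε hG'u hHu hG's hHs hG'g hHg fun δ hδ j hj => ?_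
    rcases isEmpty_or_nonempty {i // (p g i, e g i) = (X - Polynomial.C δ, j)} with hemp | hne
    · rw [Matrix.det_isEmpty, Matrix.det_isEmpty, mul_one]; exact IsSquare.one
    obtain ⟨i, hi⟩ := id hne
    obtain ⟨h1, rfl⟩ := Prod.mk.inj hi
    obtain ⟨j', hj'⟩ : ∃ j', e g i = j' + 1 := Nat.exists_eq_succ_of_ne_zero (he g i)
    have hjn : j' < n := by have := (hprop g).2.1 i; omega
    have hmem : ((δ, ⟨j', hjn⟩) : F × Fin n) ∈ bitSet σ (code C).1.1 := by
      rw [hcode, bitSet, Finset.mem_filter]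
      refine ⟨Finset.mem_univ _, (hσ j').mp ?_, hδ, (eval_encode (hprop g).1 δ ⟨j', hjn⟩).mpr ⟨⟨i, ?_⟩⟩⟩
      · rwa [hj', Nat.add_sub_cancel] at hj
      · rw [h1]; exact congrArg _ hj'
    have := hiff _ hmem
    dsimp only at this
    rw [hj']
    exact isSquare_mul_of_iff (layer_det (hb g) (hp g) (he g) hG'u hG'g hδ _).ne_zero
      (layer_det (hb g) (hp g) (he g) hHu hHg hδ _).ne_zero this
  refine ⟨code, bit, fun C D hCD => ⟨fun hbits => ?_, fun hε1 x₀ hx₀ hbits => ?_⟩⟩
  · obtain ⟨Q, hQ, hQg, hQf⟩ := hdisc C (form C) (hfu C) (hfs C) (hfg C) (form D) (hfu D) (hfs D) (hCD ▸ hfg D)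
      fun x hx => by
        have := hbits x hx
        simp only [bit, decide_eq_decide] at this
        rwa [← hCD] at this
    exact hfin C D hCD Q hQ hQg hQf
  · by_contra hne
    obtain ⟨g, hg⟩ : ∃ g, g = base (code C) := ⟨_, rfl⟩
    have hcode : (code C).1.1 = encode (p g) (e g) n := by rw [hg, hbase C]
    obtain ⟨-, hσ0, hδ, heval⟩ := Finset.mem_filter.mp hx₀
    have hev : Even (x₀.2 : ℕ) := by
      rcases Nat.even_or_odd (x₀.2 : ℕ) with h | h
      · exact h
      · have := (hσ x₀.2).mpr hσ0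
        rw [hε1, h.neg_one_pow, one_mul] at this
        exact absurd (show (2 : F) = 0 by linear_combination -this) h2
    obtain ⟨ν, hν⟩ := FiniteField.exists_nonsquare (F := F) fun hc => h2 (by
      exact_mod_cast (ringChar.spec F 2).mpr (dvd_of_eq hc))
    have hν0 : ν ≠ 0 := fun e => hν (e ▸ IsSquare.zero)
    obtain ⟨G', hG'u, hG's, hG'g, hG'd, hlay⟩ := exists_flip h2 (hb g) (hp g) (he g) (hfu C) (hg ▸ hfg C) hε (hfs C) hδ
      (j := (x₀.2 : ℕ) + 1) (by rw [Nat.add_sub_cancel]; exact (hσ _).mpr hσ0)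
      ((eval_encode (hprop g).1 x₀.1 x₀.2).mp (hcode ▸ heval)) hν0
    have hbit : ∀ x ∈ bitSet σ (code C).1.1, (IsSquare (layer g.1 G' (p g) (e g) (b g) x.1 ((x.2 : ℕ) + 1)).det ↔
        IsSquare (layer g.1 (form D) (p g) (e g) (b g) x.1 ((x.2 : ℕ) + 1)).det) := fun x hx => by
      have hxδ : x.1 * x.1 = 1 := (Finset.mem_filter.mp hx).2.2.1
      obtain ⟨hl1, hl2⟩ := hlay x.1 hxδ ((x.2 : ℕ) + 1)
      by_cases hxx : x = x₀
      · subst hxx
        rw [hl1 ⟨rfl, rfl⟩, isSquare_mul_nonsquare (layer_det (hb g) (hp g) (he g) (hfu C) (hg ▸ hfg C) hxδ _).ne_zero hν]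
        by_contra hcon
        refine hne ?_
        obtain ⟨Q, hQ, hQg, hQf⟩ := hdisc C (form C) (hfu C) (hfs C) (hfg C) (form D) (hfu D) (hfs D) (hCD ▸ hfg D)
          fun y hy => by
            rcases eq_or_ne y x with rfl | hyx
            · rw [← hg]; tauto
            · have := hbits y hy hyx
              simp only [bit, decide_eq_decide] at this
              rwa [← hCD] at this
        exact hfin C D hCD Q hQ hQg hQf
      · rw [hl2 fun h => hxx (Prod.ext h.1 (Fin.ext (Nat.add_right_cancel h.2)))]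
        have := hbits x hx hxx
        simp only [bit, decide_eq_decide] at this
        rwa [← hCD, ← hg] at this
    obtain ⟨Q, hQ, -, hQf⟩ := hdisc C G' hG'u hG's (hg ▸ hG'g) (form D) (hfu D) (hfs D) (hCD ▸ hfg D) (hg ▸ hbit)
    have hd := congrArg Matrix.det hQf
    simp only [form, Matrix.det_mul, Matrix.det_transpose, hG'd] at hd
    obtain ⟨k, hk⟩ := hev
    rw [show (x₀.2 : ℕ) + 1 = 2 * k + 1 by omega, pow_succ, pow_mul'] at hd
    refine hν ⟨(c D).1.det / ((c C).1.det * Q.det * ν ^ k), ?_⟩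
    have := hG.ne_zero; have := (hcu C).ne_zero; have := hQ.ne_zero; have := pow_ne_zero k hν0
    field_simp
    refine mul_left_cancel₀ hG.ne_zero ?_
    linear_combination hd

end CfsgLib.SignedClasses

namespace CfsgLib.SignedClasses

open CfsgLib.GLClassCount
open scoped Classical

variable {F : Type*} [Field F] [Fintype F] {n : ℕ}

theorem card_classes_le (h2 : (2 : F) ≠ 0) (G : Matrix (Fin n) (Fin n) F) (hG : IsUnit G.det) {ε : F} (hε : ε * ε = 1)
    (hs : G.transpose = ε • G) (σ : ℕ → Bool) (hσ : ∀ j : ℕ, ε * (-1) ^ j = 1 ↔ σ j = true) :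
    Nat.card (ConjClasses (isoGroup G)) ≤ bndS (Fintype.card F) σ n 0 n := by
  have := finite_stup (F := F) σ n 0 n (Nat.zero_le n)
  letI : Fintype (STup F σ n 0 n) := Fintype.ofFinite _
  refine le_trans ?_ (stup_bound h2 σ n n 0 n (Nat.zero_add n))
  obtain ⟨code, bit, hkey⟩ := exists_key h2 G hG hε hs σ hσ
  rw [← Nat.card_congr (Equiv.sigmaFiberEquiv code), Nat.card_sigma]
  refine Finset.sum_le_sum fun h _ => ?_
  rw [← two_pow_bitSet]
  refine (Nat.card_le_card_of_injective (fun C : {C // code C = h} => fun x : ↥(bitSet σ h.1.1) => bit C.1 x.1)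
    fun C D e => Subtype.ext ((hkey C.1 D.1 (C.2.trans D.2.symm)).1 fun x hx =>
      congrFun e ⟨x, by rwa [C.2] at hx⟩)).trans ?_
  simp

/-- For symmetric forms one bit is determined by the others. -/
theorem two_card_classes_le (h2 : (2 : F) ≠ 0) (G : Matrix (Fin n) (Fin n) F) (hG : IsUnit G.det) (hs : G.transpose = G)
    (σ : ℕ → Bool) (hσ : ∀ j : ℕ, (-1 : F) ^ j = 1 ↔ σ j = true) :
    2 * Nat.card (ConjClasses (isoGroup G)) ≤
      bndS (Fintype.card F) σ n 0 n + bndS (Fintype.card F) (fun _ => false) n 0 n := by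
  obtain ⟨code, bit, hkey⟩ := exists_key h2 G hG (ε := 1) (one_mul 1) (by rw [one_smul]; exact hs) σ
    (fun j => by rw [one_mul]; exact hσ j)
  have := finite_stup (F := F) σ n 0 n (Nat.zero_le n)
  have := finite_stup (F := F) (fun _ => false) n 0 n (Nat.zero_le n)
  letI : Fintype (STup F σ n 0 n) := Fintype.ofFinite _
  letI : Fintype (STup F (fun _ => false) n 0 n) := Fintype.ofFinite _
  refine le_trans ?_ (Nat.add_le_add (stup_bound h2 σ n n 0 n (Nat.zero_add n))
    (stup_bound h2 (fun _ => false) n n 0 n (Nat.zero_add n)))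
  have hone : ∀ h : STup F (fun _ => false) n 0 n, tupWt (fun _ => false) h.1.1 = 1 := fun h => by simp [tupWt]
  simp only [hone, Finset.sum_const, Finset.card_univ, smul_eq_mul, mul_one]
  rw [← Nat.card_congr (Equiv.sigmaFiberEquiv code), Nat.card_sigma, Finset.mul_sum]
  have hz : Fintype.card {h : STup F σ n 0 n // bitSet σ h.1.1 = ∅} ≤ Fintype.card (STup F (fun _ => false) n 0 n) := by
    refine Fintype.card_le_of_injective (fun h => (⟨h.1.1, fun j => ⟨(h.1.2 j).1, fun _ δ hδ => ?_⟩⟩ :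
      STup F (fun _ => false) n 0 n)) fun a b e => Subtype.ext (Subtype.ext
        (congrArg (fun t : STup F (fun _ => false) n 0 n => t.1) e))
    by_cases hj : σ j
    · rw [Polynomial.rootMultiplicity_eq_zero]
      · exact ⟨0, rfl⟩
      · intro hr
        have hm : ((δ, j) : F × Fin n) ∈ bitSet σ h.1.1.1 := Finset.mem_filter.mpr ⟨Finset.mem_univ _, hj, hδ, hr⟩
        rw [h.2] at hm
        exact absurd hm (Finset.notMem_empty _)
    · exact (h.1.2 j).2 (by simpa using hj) δ hδ
  refine le_trans (Finset.sum_le_sum (g := fun h => tupWt σ h.1.1 + if bitSet σ h.1.1 = ∅ then 1 else 0) fun h _ => ?_) ?_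
  · rw [← two_pow_bitSet]
    by_cases hB : bitSet σ h.1.1 = ∅
    · rw [if_pos hB, hB, Finset.card_empty, pow_zero]
      have : Subsingleton {C // code C = h} := ⟨fun C D => Subtype.ext ((hkey C.1 D.1 (C.2.trans D.2.symm)).1 fun x hx => by
        rw [C.2, hB] at hx; exact absurd hx (Finset.notMem_empty _))⟩
      have := Finite.card_le_one_iff_subsingleton.mpr this
      omega
    · rw [if_neg hB, Nat.add_zero]
      obtain ⟨x₀, hx₀⟩ := Finset.nonempty_iff_ne_empty.mpr hB
      have h1 := Nat.card_le_card_of_injective (fun C : {C // code C = h} => fun x : ↥((bitSet σ h.1.1).erase x₀) => bit C.1 x.1)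
        fun C D e => Subtype.ext ((hkey C.1 D.1 (C.2.trans D.2.symm)).2 rfl x₀ (by rw [C.2]; exact hx₀) fun x hx hne =>
          congrFun e ⟨x, Finset.mem_erase.mpr ⟨hne, by rwa [C.2] at hx⟩⟩)
      simp only [Nat.card_fun, Nat.card_eq_fintype_card, Fintype.card_fun, Fintype.card_bool, Fintype.card_coe,
        Finset.card_erase_of_mem hx₀] at h1
      rw [Nat.card_eq_fintype_card]
      refine (Nat.mul_le_mul_left 2 h1).trans ?_
      rw [← pow_succ', Nat.sub_add_cancel (Finset.card_pos.mpr ⟨x₀, hx₀⟩)]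
  · rw [Finset.sum_add_distrib, Finset.sum_boole, ← Fintype.card_subtype]
    exact Nat.add_le_add_left hz _

end CfsgLib.SignedClasses
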