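import Cfsg.Agent.SignedClasses.Layer

/-!
Forms fixed by a matrix with equal layer discriminants are congruent under its centraliser.
-/

set_option autoImplicit false

namespace CfsgLib.SignedClasses

open Polynomial Matrix
open scoped Classical

variable {F : Type*} [Field F] [Fintype F] {ι : Type*} [Fintype ι] [DecidableEq ι] {g : Matrix ι ι F}
  {m : ℕ} {p : Fin m → F[X]} {e : Fin m → ℕ} {b : Fin m → ι → F}

/-- The indices attached to the eigenvalues `1` and `-1`. -/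
def Uni (p : Fin m → F[X]) (i : Fin m) : Prop := ∃ δ : F, δ * δ = 1 ∧ p i = X - C δ

theorem uni_dvd {i : Fin m} (hi : Uni p i) : p i ∣ X * X - 1 := by
  obtain ⟨δ, hδ, hp⟩ := hi
  rw [hp, dvd_iff_isRoot, IsRoot, eval_sub, eval_mul, eval_X, eval_one, hδ, sub_self]

theorem coprime_uni (hp : ∀ i, Irreducible (p i) ∧ (p i).Monic) {i : Fin m} (hi : ¬ Uni p i) :
    IsCoprime (p i) (X * X - 1) := by
  have e1 : (X * X - 1 : F[X]) = (X - C 1) * (X - C (-1)) := by rw [C_1, C_neg, C_1]; ring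
  rw [e1]
  exact (coprime_pi hp fun h => hi ⟨1, one_mul 1, h⟩).mul_right (coprime_pi hp fun h => hi ⟨-1, by ring, h⟩)

theorem exists_idem_pow {M : Type*} [Monoid M] [Finite M] (L : M) : ∃ k, k ≠ 0 ∧ L ^ (k + k) = L ^ k := by
  obtain ⟨a, b, hne, hab⟩ := Finite.exists_ne_map_eq_of_infinite fun n : ℕ => L ^ n
  wlog hlt : a < b generalizing a b
  · exact this b a hne.symm hab.symm (lt_of_le_of_ne (not_lt.mp hlt) hne.symm)
  obtain ⟨c, rfl⟩ : ∃ c, b = a + (c + 1) := ⟨b - a - 1, by omega⟩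
  have hper : ∀ s n, L ^ (a + n + (c + 1) * s) = L ^ (a + n) := fun s => by
    induction s with
    | zero => simp
    | succ s ih =>
      intro n
      rw [show a + n + (c + 1) * (s + 1) = a + (c + 1) + (n + (c + 1) * s) by ring, pow_add L (a + (c + 1)), ← hab,
        ← pow_add, ← Nat.add_assoc, ih]
  refine ⟨(c + 1) * (a + 1), by positivity, ?_⟩
  obtain ⟨n, hn⟩ : ∃ n, (c + 1) * (a + 1) = a + n :=
    ⟨(c + 1) * (a + 1) - a, (Nat.add_sub_cancel' (by nlinarith)).symm⟩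
  conv_lhs => arg 2; arg 1; rw [hn]
  conv_rhs => rw [hn]
  exact hper (a + 1) n

/-- The projection on the part at `1` and `-1`. -/
theorem exists_proj (hb : IsFrame g p e b) (hp : ∀ i, Irreducible (p i) ∧ (p i).Monic) (he : ∀ i, e i ≠ 0)
    (hgu : IsUnit g.det) :
    ∃ E, E ∈ Algebra.adjoin F ({g} : Set (Matrix ι ι F)) ∧ E * E = E ∧ E * g = g * E ∧
      (∀ i, Uni p i → E *ᵥ b i = b i) ∧ (∀ i, ¬ Uni p i → E *ᵥ b i = 0) ∧ IsUnit (g * g - 1 + g * E).det ∧
      ∀ G : Matrix ι ι F, IsUnit G.det → gᵀ * G * g = G → Eᵀ * G = G * E := by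
  haveI : Finite (Matrix ι ι F) := inferInstance
  obtain ⟨L, hL⟩ : ∃ L, L = g * g - 1 := ⟨_, rfl⟩
  have hLa : L = aeval g (X * X - 1 : F[X]) := by rw [hL, map_sub, map_mul, aeval_X, map_one]
  obtain ⟨k, hk0, hk⟩ := exists_idem_pow L
  obtain ⟨Z, hZ⟩ : ∃ Z, Z = L ^ k := ⟨_, rfl⟩
  have hZa : Z = aeval g ((X * X - 1 : F[X]) ^ k) := by rw [hZ, hLa, map_pow]
  have hZZ : Z * Z = Z := by rw [hZ, ← pow_add, hk]
  have hgL : Commute g L := by
    rw [hL]; exact ((Commute.refl g).mul_right (Commute.refl g)).sub_right (Commute.one_right g)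
  have hgZ : Commute g Z := hZ ▸ hgL.pow_right k
  refine ⟨1 - Z, ?_, ?_, ?_, fun i hi => ?_, fun i hi => ?_, ?_, fun G hG hgG => ?_⟩
  · rw [hZa, ← map_one (aeval (R := F) g), ← map_sub]; exact aeval_mem_adjoin_singleton F g
  · rw [Matrix.sub_mul, Matrix.mul_sub, Matrix.one_mul, Matrix.mul_sub, Matrix.mul_one, Matrix.one_mul, hZZ, sub_self,
      sub_zero]
  · exact ((Commute.one_right g).sub_right hgZ).eq.symm
  · have hZe : Z = aeval g ((X * X - 1 : F[X]) ^ (k * e i)) := by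
      rw [pow_mul, map_pow, ← hZa]
      obtain ⟨n, hn⟩ := Nat.exists_eq_succ_of_ne_zero (he i)
      rw [hn]
      exact ((show IsIdempotentElem Z from hZZ).pow_succ_eq n).symm
    rw [Matrix.sub_mulVec, Matrix.one_mulVec, hZe, hb.kill i, sub_zero]
    exact ((pow_dvd_pow_of_dvd (uni_dvd hi) _).trans (pow_dvd_pow _ (Nat.le_mul_of_pos_left _ (Nat.pos_of_ne_zero hk0))))
  · obtain ⟨s, t, hst⟩ := (coprime_uni hp hi).pow (m := e i) (n := k)
    have e1 : b i = aeval g t *ᵥ (Z *ᵥ b i) := by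
      conv_lhs => rw [← Matrix.one_mulVec (b i), ← map_one (aeval (R := F) g), ← hst, map_add, Matrix.add_mulVec,
        hb.kill i (dvd_mul_left _ s), zero_add, map_mul, ← hZa, ← Matrix.mulVec_mulVec]
    rw [Matrix.sub_mulVec, Matrix.one_mulVec, sub_eq_zero]
    conv_rhs => rw [e1, Matrix.mulVec_mulVec, Matrix.mulVec_mulVec, commute_aeval hgZ.eq.symm]
    rw [Matrix.mul_assoc, hZZ, ← Matrix.mulVec_mulVec, ← e1]
  · rw [← hL]
    refine isUnit_iff_ne_zero.mpr fun hdet => ?_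
    obtain ⟨v, hv0, hv⟩ := Matrix.exists_mulVec_eq_zero_iff.mpr hdet
    refine hv0 ?_
    obtain ⟨w, hw⟩ : ∃ w, w = (1 - Z) *ᵥ v := ⟨_, rfl⟩
    rw [Matrix.add_mulVec, ← Matrix.mulVec_mulVec, ← hw] at hv
    have hLZ : (1 - Z) * L = L * (1 - Z) := ((Commute.one_left L).sub_left (hZ ▸ Commute.pow_self L k)).eq
    have hEg : (1 - Z) * g = g * (1 - Z) := ((Commute.one_right g).sub_right hgZ).eq.symm
    have hw1 : (1 - Z) *ᵥ w = w := by
      rw [hw, Matrix.mulVec_mulVec]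
      congr 1
      rw [Matrix.sub_mul, Matrix.one_mul, Matrix.mul_sub, Matrix.mul_one, hZZ, sub_self, sub_zero]
    have hLw : L *ᵥ w = -(g *ᵥ w) := by
      have := congrArg ((1 - Z) *ᵥ ·) hv
      simp only [Matrix.mulVec_add, Matrix.mulVec_zero, Matrix.mulVec_mulVec, hLZ, hEg] at this
      rw [← Matrix.mulVec_mulVec, ← Matrix.mulVec_mulVec, ← hw, hw1] at this
      exact eq_neg_of_add_eq_zero_left this
    have hLk : ∀ n, (L ^ n) *ᵥ w = (-g) ^ n *ᵥ w := fun n => by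
      induction n with
      | zero => simp
      | succ n ih =>
        rw [pow_succ', ← Matrix.mulVec_mulVec, ih, Matrix.mulVec_mulVec, (hgL.symm.neg_right.pow_right n).eq,
          ← Matrix.mulVec_mulVec, hLw, ← Matrix.neg_mulVec, Matrix.mulVec_mulVec, ← pow_succ]
    have hw0 : w = 0 := by
      have h1 : (L ^ k) *ᵥ w = 0 := by
        rw [← hZ, hw, Matrix.mulVec_mulVec, Matrix.mul_sub, Matrix.mul_one, hZZ, sub_self, Matrix.zero_mulVec]
      rw [hLk] at h1
      have hu : IsUnit ((-g) ^ k) := (((Matrix.isUnit_iff_isUnit_det g).mpr hgu).neg).pow k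
      exact Matrix.mulVec_injective_iff_isUnit.mpr hu (h1.trans (Matrix.mulVec_zero _).symm)
    rw [hw0, Matrix.mulVec_zero, add_zero] at hv
    have hZv : Z *ᵥ v = 0 := by
      obtain ⟨n, hn⟩ := Nat.exists_eq_succ_of_ne_zero hk0
      rw [hZ, hn, pow_succ, ← Matrix.mulVec_mulVec, hv, Matrix.mulVec_zero]
    rw [Matrix.sub_mulVec, Matrix.one_mulVec, hZv, sub_zero, hw0] at hw
    exact hw.symm
  · have hgu' := isUnit_iso hG hgG
    obtain ⟨W, hW⟩ : ∃ W, W = -(g⁻¹ * g⁻¹) := ⟨_, rfl⟩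
    have h1 : Lᵀ * G = G * (W * L) := by
      rw [hL, Matrix.transpose_sub, Matrix.transpose_one, Matrix.transpose_mul, Matrix.sub_mul, Matrix.mul_assoc,
        transpose_mul_form hG hgG, ← Matrix.mul_assoc, transpose_mul_form hG hgG, Matrix.one_mul, hW, Matrix.neg_mul,
        Matrix.mul_sub (g⁻¹ * g⁻¹), Matrix.mul_assoc g⁻¹ g⁻¹ (g * g), Matrix.nonsing_inv_mul_cancel_left _ _ hgu',
        Matrix.nonsing_inv_mul _ hgu', Matrix.mul_one, neg_sub, Matrix.mul_sub, Matrix.mul_one, Matrix.mul_assoc]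
    have hgi : Commute g⁻¹ g := (Matrix.nonsing_inv_mul _ hgu').trans (Matrix.mul_nonsing_inv _ hgu').symm
    have hWL : Commute W L := by
      have h2 : Commute g⁻¹ L := by
        rw [hL]; exact (hgi.mul_right hgi).sub_right (Commute.one_right _)
      rw [hW]; exact (h2.mul_left h2).neg_left
    have h3 : Zᵀ * G = G * (W ^ k * Z) := by
      rw [hZ, transpose_form_pow h1 k, hWL.mul_pow]
    have hWZ : Commute (W ^ k) Z := hZ ▸ hWL.pow_pow k k
    have h4 : G * (W ^ k * Z * (W ^ k * Z)) = G * (W ^ k * Z) := by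
      rw [← Matrix.mul_assoc G, ← h3, Matrix.mul_assoc, ← h3, ← Matrix.mul_assoc, ← Matrix.transpose_mul, hZZ]
    have hWu : IsUnit (W ^ k) := by
      rw [hW]
      refine ((IsUnit.mul ?_ ?_).neg).pow k <;>
        exact (Matrix.isUnit_iff_isUnit_det _).mpr (Matrix.isUnit_nonsing_inv_det _ hgu')
    have h5 : W ^ k * Z = Z := by
      have h6 := ((Matrix.isUnit_iff_isUnit_det G).mpr hG).mul_left_cancel h4
      rw [Matrix.mul_assoc, ← Matrix.mul_assoc Z, ← hWZ.eq, Matrix.mul_assoc (W ^ k) Z Z, hZZ] at h6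
      exact hWu.mul_left_cancel h6
    rw [Matrix.transpose_sub, Matrix.transpose_one, Matrix.sub_mul, Matrix.one_mul, h3, h5, Matrix.mul_sub, Matrix.mul_one]

/-- A commuting matrix with vanishing constant coefficients on each layer is nilpotent at `1` and `-1`. -/
theorem isNilpotent_layer (hb : IsFrame g p e b) (hp : ∀ i, Irreducible (p i) ∧ (p i).Monic)
    {E : Matrix ι ι F} (hEg : E * g = g * E)
    (hE1 : ∀ i, Uni p i → E *ᵥ b i = b i) (hE0 : ∀ i, ¬ Uni p i → E *ᵥ b i = 0) {A : Matrix ι ι F} (hA : A * g = g * A)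
    (hc : ∀ δ : F, δ * δ = 1 → ∀ i, p i = X - C δ → ∀ u, A *ᵥ b i = com g b u →
      ∀ l, p l = X - C δ → e l = e i → (u l).eval δ = 0) :
    IsNilpotent (A * E) := by
  have hAE : A * E * g = g * (A * E) := by rw [Matrix.mul_assoc, hEg, ← Matrix.mul_assoc, hA, Matrix.mul_assoc]
  obtain ⟨N, hN⟩ : ∃ N, N = ∑ i, e i := ⟨_, rfl⟩
  have hle : ∀ i, e i ≤ N := fun i => hN ▸ Finset.single_le_sum (fun _ _ => Nat.zero_le _) (Finset.mem_univ i)
  have hU : ∀ i, ∃ u, (A * E) *ᵥ b i = com g b u ∧ (¬ Uni p i → u = 0) ∧ ∀ r, p r ^ e r ∣ u r → u r = 0 := fun i => by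
    by_cases hi : Uni p i
    · obtain ⟨u, hu⟩ := hb.span ((A * E) *ᵥ b i)
      refine ⟨fun r => if p r ^ e r ∣ u r then 0 else u r, ?_, fun h => absurd hi h,
        fun r h => by dsimp only at h ⊢; split_ifs at h ⊢ with hd <;> [rfl; exact absurd h hd]⟩
      rw [hu, ← sub_eq_zero, ← com_sub, hb.rel]
      intro r
      rw [Pi.sub_apply]
      split_ifs with hd
      · rwa [sub_zero]
      · rw [sub_self]; exact dvd_zero _
    · exact ⟨0, by simp [com, ← Matrix.mulVec_mulVec, hE0 i hi], fun _ => rfl, fun _ _ => rfl⟩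
  choose U hU1 hU2 hU4 using hU
  have hU3 : ∀ i r, Uni p i → p r ≠ p i → U i r = 0 := fun i r hi hne => by
    refine hU4 i r ?_
    have hz : com g b (fun l => p i ^ e i * U i l) = 0 := by
      rw [com_mul, ← hU1, Matrix.mulVec_mulVec, ← commute_aeval hAE, ← Matrix.mulVec_mulVec, hb.kill i dvd_rfl,
        Matrix.mulVec_zero]
    have hcp : IsCoprime (p r) (p i) := ((hp r).1.coprime_iff_not_dvd).mpr fun hd => hne
      (eq_of_monic_of_associated (hp r).2 (hp i).2 ((hp r).1.associated_of_dvd (hp i).1 hd))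
    exact (hcp.pow (m := e r) (n := e i)).dvd_of_dvd_mul_left ((hb.rel _).mp hz r)
  have hstep : ∀ (t : ℕ) (u : Fin m → F[X]),
      (∀ l, Uni p l → ∀ k, k * (N + 1) + (N - e l) < t → p l ^ (k + 1) ∣ u l) →
      ∃ w, (A * E) *ᵥ com g b u = com g b w ∧ (∀ r, ¬ Uni p r → p r ^ e r ∣ w r) ∧
        ∀ r, Uni p r → ∀ k, k * (N + 1) + (N - e r) < t + 1 → p r ^ (k + 1) ∣ w r := by
    intro t u hu
    refine ⟨fun r => ∑ l, u l * U l r, ?_, fun r hr => Finset.dvd_sum fun l _ => ?_,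
      fun r hr k hk => Finset.dvd_sum fun l _ => ?_⟩
    · rw [mulVec_com hAE, com_sum]
      exact Finset.sum_congr rfl fun l _ => by rw [hU1, com_mul]
    · by_cases hl : Uni p l
      · rw [hU3 l r hl fun h => hr (by obtain ⟨δ, h1, h2⟩ := hl; exact ⟨δ, h1, h.trans h2⟩)]; simp
      · rw [hU2 l hl]; simp
    · by_cases hl : Uni p l
      swap
      · rw [hU2 l hl]; simp
      by_cases hpr : p r = p l
      swap
      · rw [hU3 l r hl hpr]; simp
      rw [hpr]
      have hmono : ∀ k', k' * (N + 1) + (N - e l) < t → p l ^ (k' + 1) ∣ u l := fun k' => hu l hl k'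
      by_cases hdiv : p l ∣ U l r
      · rcases Nat.eq_zero_or_pos k with hk0 | hk0
        · subst hk0; rw [zero_add, pow_one]; exact Dvd.dvd.mul_left hdiv _
        · obtain ⟨k', rfl⟩ : ∃ k', k = k' + 1 := ⟨k - 1, by omega⟩
          have := hle r
          rw [Nat.add_mul, Nat.one_mul] at hk
          rw [pow_succ]
          exact mul_dvd_mul (hmono k' (by omega)) hdiv
      · have hlt : e r < e l := by
          by_contra hge
          rcases lt_or_eq_of_le (not_lt.mp hge) with hgt | heq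
          · refine hdiv ?_
            have hz : com g b (fun x => p l ^ e l * U l x) = 0 := by
              rw [com_mul, ← hU1, Matrix.mulVec_mulVec, ← commute_aeval hAE, ← Matrix.mulVec_mulVec, hb.kill l dvd_rfl,
                Matrix.mulVec_zero]
            have h1 := (hb.rel _).mp hz r
            rw [hpr, show e r = e l + (e r - e l) by omega, pow_add,
              mul_dvd_mul_iff_left (pow_ne_zero _ (hp l).1.ne_zero)] at h1
            exact (dvd_pow_self _ (by omega)).trans h1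
          · obtain ⟨δ, hδ, hpl⟩ := hl
            refine hdiv ?_
            rw [hpl, dvd_iff_isRoot, IsRoot]
            refine hc δ hδ l hpl (U l) ?_ r (hpr.trans hpl) heq.symm
            rw [← hU1, ← Matrix.mulVec_mulVec, hE1 l ⟨δ, hδ, hpl⟩]
        have := hle l
        exact Dvd.dvd.mul_right (hmono k (by omega)) _
  have hiter : ∀ t v, ∃ u, (A * E) ^ (t + 1) *ᵥ v = com g b u ∧ (∀ r, ¬ Uni p r → p r ^ e r ∣ u r) ∧
      ∀ r, Uni p r → ∀ k, k * (N + 1) + (N - e r) < t + 1 → p r ^ (k + 1) ∣ u r := by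
    intro t
    induction t with
    | zero =>
      intro v
      obtain ⟨u, rfl⟩ := hb.span v
      rw [pow_one]
      exact hstep 0 u fun l _ k hk => absurd hk (Nat.not_lt_zero _)
    | succ t ih =>
      intro v
      obtain ⟨u, hu1, -, hu2⟩ := ih v
      rw [pow_succ', ← Matrix.mulVec_mulVec, hu1]
      exact hstep (t + 1) u hu2
  refine ⟨N * (N + 1) + N + 1, Matrix.ext_of_mulVec_single fun j => ?_⟩
  obtain ⟨u, hu1, hu2, hu3⟩ := hiter (N * (N + 1) + N) (Pi.single j 1)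
  rw [hu1, Matrix.zero_mulVec, hb.rel]
  intro r
  by_cases hr : Uni p r
  · refine (pow_dvd_pow _ ((hle r).trans (Nat.le_succ N))).trans (hu3 r hr N ?_)
    omega
  · exact hu2 r hr

/-- The square root of a self-adjoint unipotent matrix. -/
theorem exists_sqrt (h2 : (2 : F) ≠ 0) {d G : Matrix ι ι F} (hd : IsNilpotent d) (hdG : dᵀ * G = G * d) :
    ∃ s : ℕ, (1 + d) ^ s * (1 + d) ^ s = 1 + d ∧ ((1 + d) ^ s)ᵀ * G = G * (1 + d) ^ s ∧ IsUnit ((1 + d) ^ s).det := by
  obtain ⟨p, hp⟩ := CharP.exists F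
  have : Fact p.Prime := ⟨CharP.char_is_prime F p⟩
  have hp2 : Odd p := (Fact.out : p.Prime).odd_of_ne_two fun e2 => h2 (by
    subst e2; exact_mod_cast CharP.cast_eq_zero F 2)
  obtain ⟨n, hn⟩ := hd
  have hpow : (1 + d) ^ p ^ n = 1 := by
    rcases isEmpty_or_nonempty ι with h | h
    · exact Subsingleton.elim _ _
    haveI : CharP (Matrix ι ι F) p := inferInstance
    rw [add_pow_char_pow_of_commute (p := p) (n := n) (h := Commute.one_left d), one_pow,
      pow_eq_zero_of_le (Nat.lt_pow_self (Fact.out : p.Prime).one_lt).le hn, add_zero]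
  obtain ⟨r, hr⟩ := hp2.pow (n := n)
  refine ⟨r + 1, ?_, transpose_form_pow (by rw [Matrix.transpose_add, Matrix.transpose_one, Matrix.add_mul,
    Matrix.one_mul, hdG, Matrix.mul_add, Matrix.mul_one]) _, ?_⟩
  · rw [← pow_add, show r + 1 + (r + 1) = p ^ n + 1 by omega, pow_succ, hpow, one_mul]
  · rw [← Matrix.isUnit_iff_isUnit_det]
    exact (IsUnit.of_pow_eq_one hpow (pow_ne_zero _ (Fact.out : p.Prime).ne_zero)).pow _

/-- Mixing the generators inside every group of equal prime and exponent. -/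
theorem exists_mix (hb : IsFrame g p e b)
    (a : ∀ c : F[X] × ℕ, Matrix {i : Fin m // (p i, e i) = c} {i : Fin m // (p i, e i) = c} F)
    (ha : ∀ c, IsUnit (a c).det) :
    ∃ T : Matrix ι ι F, T * g = g * T ∧ IsUnit T.det ∧
      ∀ c (i : {i : Fin m // (p i, e i) = c}), T *ᵥ b i = ∑ l, a c l i • b l.1 := by
  have mk : ∀ a : ∀ c : F[X] × ℕ, Matrix {i : Fin m // (p i, e i) = c} {i : Fin m // (p i, e i) = c} F,
      ∃ T : Matrix ι ι F, T * g = g * T ∧
        ∀ c (i : {i : Fin m // (p i, e i) = c}), T *ᵥ b i = ∑ l, a c l i • b l.1 := fun a => by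
    obtain ⟨T, hT, hTb⟩ := hb.exists_endo (fun i => ∑ l, a (p i, e i) l ⟨i, rfl⟩ • b l.1) fun i => by
      rw [Matrix.mulVec_sum]
      refine Finset.sum_eq_zero fun l _ => ?_
      rw [Matrix.mulVec_smul, hb.kill l.1, smul_zero]
      obtain ⟨h1, h2⟩ := Prod.mk.inj l.2
      rw [h1, h2]
    refine ⟨T, hT, fun c i => ?_⟩
    obtain ⟨i, rfl⟩ := i
    exact hTb i
  obtain ⟨T, hT, hTb⟩ := mk a
  obtain ⟨T', hT', hTb'⟩ := mk fun c => (a c)⁻¹
  refine ⟨T, hT, ?_, hTb⟩
  have : T * T' = 1 := hb.ext (by rw [Matrix.mul_assoc, hT', ← Matrix.mul_assoc, hT, Matrix.mul_assoc])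
    (by rw [Matrix.one_mul, Matrix.mul_one]) fun i => by
    rw [← Matrix.mulVec_mulVec, hTb' (p i, e i) ⟨i, rfl⟩, Matrix.mulVec_sum, Matrix.one_mulVec]
    simp only [Matrix.mulVec_smul, hTb, Finset.smul_sum, smul_smul]
    rw [Finset.sum_comm]
    simp only [← Finset.sum_smul]
    have key : ∀ r, (∑ l, (a (p i, e i))⁻¹ l ⟨i, rfl⟩ * a (p i, e i) r l) = (1 : Matrix {x : Fin m // (p x, e x) = (p i, e i)} {x : Fin m // (p x, e x) = (p i, e i)} F) r ⟨i, rfl⟩ := fun r => by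
      rw [← Matrix.mul_nonsing_inv _ (ha (p i, e i)), Matrix.mul_apply]
      exact Finset.sum_congr rfl fun _ _ => mul_comm _ _
    simp only [key, Matrix.one_apply, ite_smul, one_smul, zero_smul]
    simp
  exact (Matrix.isUnit_iff_isUnit_det _).mp (IsUnit.of_mul_eq_one _ this)

theorem layer_mix (hb : IsFrame g p e b) {δ : F} {j : ℕ} {G T : Matrix ι ι F} (hT : T * g = g * T)
    {a : Matrix {i : Fin m // (p i, e i) = (X - C δ, j)} {i : Fin m // (p i, e i) = (X - C δ, j)} F}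
    (hTb : ∀ i : {i : Fin m // (p i, e i) = (X - C δ, j)}, T *ᵥ b i = ∑ l, a l i • b l.1) :
    layer g (Tᵀ * G * T) p e b δ j = aᵀ * layer g G p e b δ j * a := by
  have _ := hb
  ext x i
  simp only [layer, Matrix.of_apply]
  rw [← Matrix.mulVec_mulVec, ← Matrix.mulVec_mulVec, Matrix.dotProduct_mulVec, Matrix.vecMul_transpose, hTb,
    Matrix.mulVec_mulVec _ T, commute_aeval hT, ← Matrix.mulVec_mulVec, hTb]
  simp only [Matrix.mulVec_sum, Matrix.mulVec_smul, sum_dotProduct, dotProduct_sum, smul_dotProduct, dotProduct_smul,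
    smul_eq_mul, Matrix.mul_apply, Matrix.transpose_apply, Finset.mul_sum, Finset.sum_mul, Matrix.of_apply]
  exact Finset.sum_congr rfl fun _ _ => Finset.sum_congr rfl fun _ _ => by ring

theorem iso_congr {G T : Matrix ι ι F} (h : gᵀ * G * g = G) (hT : T * g = g * T) :
    gᵀ * (Tᵀ * G * T) * g = Tᵀ * G * T := by
  calc gᵀ * (Tᵀ * G * T) * g = (T * g)ᵀ * G * (T * g) := by rw [Matrix.transpose_mul]; simp only [Matrix.mul_assoc]
    _ = Tᵀ * (gᵀ * G * g) * T := by rw [hT, Matrix.transpose_mul]; simp only [Matrix.mul_assoc]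
    _ = _ := by rw [h]

/-- Forms with equal layers are congruent under the centraliser. -/
theorem congr_of_layer_eq (h2 : (2 : F) ≠ 0) (hb : IsFrame g p e b) (hp : ∀ i, Irreducible (p i) ∧ (p i).Monic)
    (he : ∀ i, e i ≠ 0) {ε : F} (hε : ε * ε = 1) {G G' : Matrix ι ι F} (hG : IsUnit G.det) (hG' : IsUnit G'.det)
    (hs : Gᵀ = ε • G) (hs' : G'ᵀ = ε • G') (hg : gᵀ * G * g = G) (hg' : gᵀ * G' * g = G')
    (heq : ∀ δ : F, δ * δ = 1 → ∀ j, layer g G p e b δ j = layer g G' p e b δ j) :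
    ∃ C : Matrix ι ι F, IsUnit C.det ∧ C * g = g * C ∧ Cᵀ * G * C = G' := by
  have hgu := isUnit_iso hG hg
  obtain ⟨E, hEm, hEE, hEg, hE1, hE0, hEmov, hEadj⟩ := exists_proj hb hp he hgu
  obtain ⟨H, hH⟩ : ∃ H, H = G⁻¹ * G' := ⟨_, rfl⟩
  have hGH : G * H = G' := by rw [hH, Matrix.mul_nonsing_inv_cancel_left _ _ hG]
  have hHg : H * g = g * H := by
    have h1 : G * (g⁻¹ * H * g) = G * H := by
      rw [← Matrix.mul_assoc, ← Matrix.mul_assoc, ← transpose_mul_form hG hg, Matrix.mul_assoc gᵀ G H, hGH, hg']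
    have h3 := ((Matrix.isUnit_iff_isUnit_det G).mpr hG).mul_left_cancel h1
    conv_rhs => rw [← h3]
    rw [Matrix.mul_assoc g⁻¹, Matrix.mul_nonsing_inv_cancel_left _ _ hgu]
  have hEH : E * H = H * E :=
    (Algebra.commute_of_mem_adjoin_singleton_of_commute hEm (show Commute H g from hHg)).eq.symm
  have hA : (H - 1) * g = g * (H - 1) := by rw [Matrix.sub_mul, Matrix.mul_sub, hHg, Matrix.one_mul, Matrix.mul_one]
  have hnil : IsNilpotent ((H - 1) * E) := isNilpotent_layer hb hp hEg hE1 hE0 hA fun δ hδ i hi u hu l hl hle => by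
    obtain ⟨j, hj⟩ : ∃ j, j = e i := ⟨_, rfl⟩
    have hz : (layer g G p e b δ j) *ᵥ (fun r => (u r.1).eval δ) = 0 := funext fun a => by
      rw [← layer_pairing hb hp hG hg hδ hA j a ⟨i, by rw [hi, hj]⟩ hu, Matrix.mulVec_mulVec _ G, Matrix.mul_sub, hGH,
        Matrix.mul_one, Matrix.sub_mulVec, dotProduct_sub]
      have := congrFun (congrFun (heq δ hδ j) a) ⟨i, by rw [hi, hj]⟩
      simp only [layer, Matrix.of_apply] at this
      rw [Pi.zero_apply, this, sub_self]
    by_contra hne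
    refine (layer_det hb hp he hG hg hδ j).ne_zero (Matrix.exists_mulVec_eq_zero_iff.mp ⟨_, ?_, hz⟩)
    exact fun h0 => hne (congrFun h0 ⟨l, by rw [hl, hle, hj]⟩)
  have hHt : Hᵀ * G = G' := by
    have h1 : Hᵀ * (ε • G) = ε • G' := by rw [← hs, ← Matrix.transpose_mul, hGH, hs']
    rw [Matrix.mul_smul] at h1
    have := congrArg (ε • ·) h1
    simpa only [smul_smul, hε, one_smul] using this
  have hEt : Eᵀ * G = G * E := hEadj G hG hg
  have hdG : ((H - 1) * E)ᵀ * G = G * ((H - 1) * E) := by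
    rw [Matrix.transpose_mul, Matrix.transpose_sub, Matrix.transpose_one, Matrix.mul_assoc, Matrix.sub_mul, hHt,
      Matrix.one_mul, Matrix.mul_sub, ← hGH, ← Matrix.mul_assoc, hEt, Matrix.mul_assoc, hEH,
      Matrix.sub_mul, Matrix.one_mul, Matrix.mul_sub]
  obtain ⟨s, hss, hsG, hsu⟩ := exists_sqrt h2 hnil hdG
  obtain ⟨S, hS⟩ : ∃ S, S = (1 + (H - 1) * E) ^ s := ⟨_, rfl⟩
  rw [← hS] at hss hsG hsu
  have hSg : S * g = g * S := by
    rw [hS]
    exact (((Commute.one_left g).add_left ((show Commute (H - 1) g from hA).mul_left (show Commute E g from hEg))).pow_left s).eq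
  obtain ⟨G'', hG''⟩ : ∃ G'', G'' = (S⁻¹)ᵀ * G' * S⁻¹ := ⟨_, rfl⟩
  have hSi := inv_comm hsu hSg
  have hG''u : IsUnit G''.det := by
    rw [hG'', Matrix.det_mul, Matrix.det_mul, Matrix.det_transpose]
    exact (((Matrix.isUnit_nonsing_inv_det _ hsu)).mul hG').mul (Matrix.isUnit_nonsing_inv_det _ hsu)
  have hG''s : G''ᵀ = ε • G'' := by
    rw [hG'', Matrix.transpose_mul, Matrix.transpose_mul, Matrix.transpose_transpose, hs', Matrix.smul_mul, Matrix.mul_smul,
      Matrix.mul_assoc]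
  have hG''g : gᵀ * G'' * g = G'' := by rw [hG'']; exact iso_congr hg' hSi
  have hES : S * H = H * S := by
    rw [hS]
    have h1 : Commute ((H - 1) * E) H :=
      ((Commute.refl H).sub_left (Commute.one_left H)).mul_left (show Commute E H from hEH)
    exact (((Commute.one_left H).add_left h1).pow_left s).eq
  have hG''E : G'' * E = G * E := by
    have h1 : G'' = G * (S⁻¹ * H * S⁻¹) := by
      rw [hG'', ← hGH, ← Matrix.mul_assoc (S⁻¹)ᵀ]
      have : (S⁻¹)ᵀ * G = G * S⁻¹ := by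
        have hu' : IsUnit Sᵀ.det := by rwa [Matrix.det_transpose]
        rw [Matrix.transpose_nonsing_inv]
        calc Sᵀ⁻¹ * G = Sᵀ⁻¹ * (G * S) * S⁻¹ := by
              rw [Matrix.mul_assoc, Matrix.mul_nonsing_inv_cancel_right _ _ hsu]
          _ = G * S⁻¹ := by rw [← hsG, Matrix.nonsing_inv_mul_cancel_left _ _ hu']
      rw [this]; simp only [Matrix.mul_assoc]
    rw [h1, Matrix.mul_assoc]
    congr 1
    have h3 : H * E = (1 + (H - 1) * E) * E := by
      rw [Matrix.add_mul, Matrix.one_mul, Matrix.mul_assoc, hEE, Matrix.sub_mul, Matrix.one_mul, add_sub_cancel]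
    calc S⁻¹ * H * S⁻¹ * E = S⁻¹ * (H * S⁻¹) * E := by simp only [Matrix.mul_assoc]
      _ = S⁻¹ * (S⁻¹ * H) * E := by rw [inv_comm hsu (g := H) hES]
      _ = S⁻¹ * S⁻¹ * (H * E) := by simp only [Matrix.mul_assoc]
      _ = S⁻¹ * S⁻¹ * (S * S) * E := by rw [h3, ← hss]; simp only [Matrix.mul_assoc]
      _ = E := by
        rw [Matrix.mul_assoc S⁻¹, Matrix.nonsing_inv_mul_cancel_left _ _ hsu, Matrix.nonsing_inv_mul _ hsu, Matrix.one_mul]
  obtain ⟨C, hCu, hCg, hC⟩ := CfsgLib.FormConj.exists_congr_corner (RingHom.id F) (fun _ => rfl) (G := G) (G' := G'')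
    (A := g) (ε := ε) hG hG''u (by simpa [CfsgLib.FormConj.dag] using hs) (by simpa [CfsgLib.FormConj.dag] using hG''s)
    (by simpa [CfsgLib.FormConj.dag] using hg) (by simpa [CfsgLib.FormConj.dag] using hG''g) hEm hEE
    (by
      have : (E.map (RingHom.id F)) = E := by ext; rfl
      rw [CfsgLib.FormConj.adj, CfsgLib.FormConj.dag, this, Matrix.mul_assoc, hEt,
        Matrix.nonsing_inv_mul_cancel_left _ _ hG]) hG''E (Or.inr hEmov)
  have hC' : Cᵀ * G * C = G'' := by simpa [CfsgLib.FormConj.dag] using hC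
  refine ⟨C * S, by rw [Matrix.det_mul]; exact hCu.mul hsu, by rw [Matrix.mul_assoc, hSg, ← Matrix.mul_assoc, hCg,
    Matrix.mul_assoc], ?_⟩
  calc (C * S)ᵀ * G * (C * S) = Sᵀ * (Cᵀ * G * C) * S := by rw [Matrix.transpose_mul]; simp only [Matrix.mul_assoc]
    _ = (S⁻¹ * S)ᵀ * G' * (S⁻¹ * S) := by rw [hC', hG'', Matrix.transpose_mul]; simp only [Matrix.mul_assoc]
    _ = G' := by rw [Matrix.nonsing_inv_mul _ hsu, Matrix.transpose_one, Matrix.one_mul, Matrix.mul_one]

/-- Forms with equal layer discriminants are congruent under the centraliser. -/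
theorem congr_of_disc (h2 : (2 : F) ≠ 0) (hb : IsFrame g p e b) (hp : ∀ i, Irreducible (p i) ∧ (p i).Monic)
    (he : ∀ i, e i ≠ 0) {ε : F} (hε : ε * ε = 1) {G G' : Matrix ι ι F} (hG : IsUnit G.det) (hG' : IsUnit G'.det)
    (hs : Gᵀ = ε • G) (hs' : G'ᵀ = ε • G') (hg : gᵀ * G * g = G) (hg' : gᵀ * G' * g = G')
    (hsq : ∀ δ : F, δ * δ = 1 → ∀ j, ε * (-1) ^ (j - 1) = 1 →
      IsSquare ((layer g G p e b δ j).det * (layer g G' p e b δ j).det)) :
    ∃ C : Matrix ι ι F, IsUnit C.det ∧ C * g = g * C ∧ Cᵀ * G * C = G' := by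
  have hcase : ∀ (c : F[X] × ℕ), ∃ a : Matrix {i : Fin m // (p i, e i) = c} {i : Fin m // (p i, e i) = c} F,
      IsUnit a.det ∧ ∀ δ : F, δ * δ = 1 → ∀ j (hc : (X - C δ, j) = c),
        layer g G p e b δ j =
          (hc ▸ a : Matrix {i : Fin m // (p i, e i) = (X - C δ, j)} {i : Fin m // (p i, e i) = (X - C δ, j)} F)ᵀ *
            layer g G' p e b δ j * (hc ▸ a : Matrix _ _ F) := by
    intro c
    by_cases hex : ∃ δ : F, δ * δ = 1 ∧ ∃ j, (X - C δ, j) = c
    · obtain ⟨δ, hδ, j, rfl⟩ := hex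
      have hB := layer_det hb hp he hG hg hδ j
      have hB' := layer_det hb hp he hG' hg' hδ j
      have ht := layer_transpose hb he hG hg hδ hs j
      have ht' := layer_transpose hb he hG' hg' hδ hs' j
      have hsgn : ε * (-1 : F) ^ (j - 1) = 1 ∨ ε * (-1 : F) ^ (j - 1) = -1 := by
        refine mul_self_eq_one_iff.mp ?_
        rw [mul_mul_mul_comm, hε, ← mul_pow]; simp
      obtain ⟨a, ha, haB⟩ : ∃ a : Matrix _ _ F, IsUnit a.det ∧ aᵀ * layer g G' p e b δ j * a = layer g G p e b δ j := by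
        rcases hsgn with h | h
        · rw [h, one_smul] at ht ht'
          exact congr_symm h2 ht' hB' ht hB (by rw [mul_comm]; exact hsq δ hδ j h)
        · rw [h, neg_one_smul] at ht ht'
          exact congr_alt h2 ht' hB' ht hB
      refine ⟨a, ha, fun δ' _ j' hc => ?_⟩
      obtain ⟨h1, rfl⟩ := Prod.mk.inj hc
      obtain rfl : δ' = δ := C_injective (sub_right_injective h1)
      exact haB.symm
    · exact ⟨1, by rw [Matrix.det_one]; exact isUnit_one, fun δ hδ j hc => absurd ⟨δ, hδ, j, hc⟩ hex⟩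
  choose a ha haB using hcase
  obtain ⟨T, hT, hTu, hTb⟩ := exists_mix hb a ha
  have hT'u : IsUnit (Tᵀ * G' * T).det := by
    rw [Matrix.det_mul, Matrix.det_mul, Matrix.det_transpose]; exact (hTu.mul hG').mul hTu
  obtain ⟨C, hCu, hCg, hC⟩ := congr_of_layer_eq h2 hb hp he hε hG hT'u hs (by
      rw [Matrix.transpose_mul, Matrix.transpose_mul, Matrix.transpose_transpose, hs', Matrix.smul_mul, Matrix.mul_smul,
        Matrix.mul_assoc]) hg (iso_congr hg' hT)
    fun δ hδ j => by rw [layer_mix hb hT (hTb (X - C δ, j))]; exact haB _ δ hδ j rfl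
  have hTi := inv_comm hTu hT
  refine ⟨C * T⁻¹, by rw [Matrix.det_mul]; exact hCu.mul (Matrix.isUnit_nonsing_inv_det _ hTu), by
    rw [Matrix.mul_assoc, hTi, ← Matrix.mul_assoc, hCg, Matrix.mul_assoc], ?_⟩
  calc (C * T⁻¹)ᵀ * G * (C * T⁻¹) = (T⁻¹)ᵀ * (Cᵀ * G * C) * T⁻¹ := by rw [Matrix.transpose_mul]; simp only [Matrix.mul_assoc]
    _ = (T * T⁻¹)ᵀ * G' * (T * T⁻¹) := by rw [hC, Matrix.transpose_mul]; simp only [Matrix.mul_assoc]
    _ = G' := by rw [Matrix.mul_nonsing_inv _ hTu, Matrix.transpose_one, Matrix.one_mul, Matrix.mul_one]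

end CfsgLib.SignedClasses
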