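import Cfsg.Agent.SignedClasses.Count

/-!
Weighted tuples of signed self-reciprocal polynomials.
-/

set_option autoImplicit false

namespace CfsgLib.SignedClasses

open Polynomial CfsgLib.GLClassCount CfsgLib.GUClassCount
open scoped Classical

variable (F : Type*) [Field F] [Fintype F]

/-- Signed tuples: the indices with `σ j` carry signs, the others have even multiplicities at `1` and `-1`. -/
abbrev STup (σ : ℕ → Bool) (n i w : ℕ) := {h : Tuples F n i w // ∀ j : Fin n, recip (h.1 j) = h.1 j ∧
  (σ j = false → ∀ δ : F, δ * δ = 1 → Even ((h.1 j).rootMultiplicity δ))}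

variable {F}

/-- The number of sign choices of a tuple. -/
noncomputable def tupWt (σ : ℕ → Bool) {n : ℕ} (h : Fin n → F[X]) : ℕ :=
  ∏ j : Fin n, if σ j then signWt (h j) else 1

theorem signWt_one : signWt (1 : F[X]) = 1 := by simp [signWt]

theorem finite_stup (σ : ℕ → Bool) (n i w : ℕ) (hi : i ≤ n) : Finite (STup F σ n i w) :=
  have := (tuples_bound F n (n - i) i w (by omega)).1
  inferInstance

/-- Self-reciprocal polynomials allowed at an index. -/
abbrev Slot (F : Type*) [Field F] (s : Bool) (d : ℕ) :=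
  {f : SR F d // s = false → ∀ δ : F, δ * δ = 1 → Even (f.1.1.rootMultiplicity δ)}

theorem slot_le (h2 : (2 : F) ≠ 0) (s : Bool) (d : ℕ) [Fintype (Slot F s d)] :
    ∑ f : Slot F s d, (if s then signWt f.1.1.1 else 1) ≤ cntS (Fintype.card F) s d := by
  have := finite_SR (F := F) d
  letI : Fintype (SR F d) := Fintype.ofFinite _
  cases s
  · simp only [cntS, Bool.false_eq_true, if_false, Finset.sum_const, Finset.card_univ, smul_eq_mul, mul_one]
    rw [← Nat.card_eq_fintype_card]
    refine le_trans (le_of_eq ?_) (card_even_roots h2 d)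
    exact Nat.card_congr (Equiv.subtypeEquivRight fun f => ⟨fun h => h rfl, fun h _ => h⟩)
  · simp only [cntS, if_true]
    refine le_trans (le_of_eq ?_) (sum_signWt_le h2 d)
    exact Fintype.sum_equiv (Equiv.subtypeUnivEquiv (fun f h => Bool.noConfusion h)) _ _ fun f => rfl

theorem sum_sigma_prod_le {A D : Type*} [Fintype A] [Fintype D] {B C : D → Type*} [∀ d, Fintype (B d)] [∀ d, Fintype (C d)]
    (Φ : A → Σ d, B d × C d) (hΦ : Function.Injective Φ) (f : A → ℕ) (g : ∀ d, B d → ℕ) (h : ∀ d, C d → ℕ)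
    (hf : ∀ a, f a = g (Φ a).1 (Φ a).2.1 * h (Φ a).1 (Φ a).2.2) (b c : D → ℕ) (hb : ∀ d, ∑ x, g d x ≤ b d)
    (hc : ∀ d, ∑ x, h d x ≤ c d) : ∑ a, f a ≤ ∑ d, b d * c d := by
  calc ∑ a, f a = ∑ t ∈ Finset.univ.image Φ, g t.1 t.2.1 * h t.1 t.2.2 := by
        rw [Finset.sum_image fun a _ b _ e => hΦ e]; exact Finset.sum_congr rfl fun a _ => hf a
    _ ≤ ∑ t : Σ d, B d × C d, g t.1 t.2.1 * h t.1 t.2.2 :=
        Finset.sum_le_sum_of_subset_of_nonneg (Finset.subset_univ _) fun _ _ _ => Nat.zero_le _
    _ = ∑ d, (∑ x, g d x) * ∑ y, h d y := by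
        rw [Fintype.sum_sigma]
        exact Finset.sum_congr rfl fun d _ => by rw [Fintype.sum_prod_type, Finset.sum_mul_sum]
    _ ≤ _ := Finset.sum_le_sum fun d _ => Nat.mul_le_mul (hb d) (hc d)

theorem stup_bound (h2 : (2 : F) ≠ 0) (σ : ℕ → Bool) (n : ℕ) : ∀ k i w, i + k = n → ∀ [Fintype (STup F σ n i w)],
    ∑ h : STup F σ n i w, tupWt σ h.1.1 ≤ bndS (Fintype.card F) σ k i w := by
  intro k
  induction k with
  | zero =>
    intro i w hi _
    have hone : ∀ (h : Tuples F n i w) j, h.1 j = 1 := fun h j => h.2.2.1 j (by omega)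
    have hw1 : ∀ h : STup F σ n i w, tupWt σ h.1.1 = 1 := fun h =>
      Finset.prod_eq_one fun j _ => by rw [hone h.1 j, signWt_one, ite_self]
    simp only [hw1, Finset.sum_const, Finset.card_univ, smul_eq_mul, mul_one]
    have hsub : Subsingleton (STup F σ n i w) :=
      ⟨fun h g => Subtype.ext (Subtype.ext (funext fun j => (hone h.1 j).trans (hone g.1 j).symm))⟩
    by_cases hw : w = 0
    · rw [bndS, if_pos hw]; exact Fintype.card_le_one_iff_subsingleton.mpr hsub
    · have : IsEmpty (STup F σ n i w) := ⟨fun h => hw (by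
        rw [← h.1.2.2.2]; exact Finset.sum_eq_zero fun j _ => by rw [hone h.1 j]; simp)⟩
      rw [bndS, if_neg hw, Fintype.card_eq_zero]
  | succ k ih =>
    intro i w hi _
    let j₀ : Fin n := ⟨i, by omega⟩
    have hsum : ∀ h : STup F σ n i w, (i + 1) * (h.1.1 j₀).natDegree +
        ∑ j : Fin n, ((j : ℕ) + 1) * (Function.update h.1.1 j₀ 1 j).natDegree = w := fun h => by
      conv_rhs => rw [← h.1.2.2.2]
      rw [← Finset.add_sum_erase _ _ (Finset.mem_univ j₀), ← Finset.add_sum_erase _ _ (Finset.mem_univ j₀),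
        Function.update_self, natDegree_one, Nat.mul_zero, Nat.zero_add]
      refine congrArg _ (Finset.sum_congr rfl fun j hj => ?_)
      rw [Function.update_of_ne (Finset.ne_of_mem_erase hj)]
    have hd : ∀ h : STup F σ n i w, (h.1.1 j₀).natDegree < w / (i + 1) + 1 := fun h => by
      rw [Nat.lt_succ_iff, Nat.le_div_iff_mul_le (Nat.succ_pos i), mul_comm]
      exact (Nat.le_add_right _ _).trans (hsum h).le
    let T := Σ d : Fin (w / (i + 1) + 1), Slot F (σ i) d × STup F σ n (i + 1) (w - (i + 1) * d)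
    let Φ : STup F σ n i w → T := fun h =>
      ⟨⟨_, hd h⟩, ⟨⟨⟨h.1.1 j₀, (h.1.2.1 j₀).1, rfl, (h.1.2.1 j₀).2⟩, (h.2 j₀).1⟩, (h.2 j₀).2⟩,
        ⟨⟨Function.update h.1.1 j₀ 1, fun j => by
        rcases eq_or_ne j j₀ with rfl | hj
        · rw [Function.update_self]; exact ⟨monic_one, by simp⟩
        · rw [Function.update_of_ne hj]; exact h.1.2.1 j, fun j hj => by
        rcases eq_or_ne j j₀ with rfl | hj'
        · rw [Function.update_self]
        · rw [Function.update_of_ne hj']
          exact h.1.2.2.1 j (lt_of_le_of_ne (Nat.lt_succ_iff.mp hj) fun e => hj' (Fin.ext e)), by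
        have := hsum h; dsimp only; omega⟩, fun j => by
          dsimp only
          rcases eq_or_ne j j₀ with rfl | hj
          · rw [Function.update_self]
            exact ⟨tilde_one _, fun _ δ _ => by
              rw [rootMultiplicity_eq_zero (by simp [IsRoot])]; exact ⟨0, rfl⟩⟩
          · rw [Function.update_of_ne hj]; exact h.2 j⟩⟩
    have hΦ : Function.Injective Φ := fun h g e => by
      have e1 := congrArg (fun t : T => t.2.1.1.1.1) e
      have e2 := congrArg (fun t : T => t.2.2.1.1) e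
      refine Subtype.ext (Subtype.ext (funext fun j => ?_))
      rcases eq_or_ne j j₀ with rfl | hj
      · exact e1
      · have := congrFun e2 j
        simpa only [Φ, Function.update_of_ne hj] using this
    have hfs : ∀ d, Finite (SR F d) := fun d => finite_SR d
    have hft : ∀ d : ℕ, Finite (STup F σ n (i + 1) (w - (i + 1) * d)) := fun d => finite_stup σ n _ _ (by omega)
    letI : ∀ d, Fintype (Slot F (σ i) d) := fun d => Fintype.ofFinite _
    letI : ∀ d : ℕ, Fintype (STup F σ n (i + 1) (w - (i + 1) * d)) := fun d => Fintype.ofFinite _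
    rw [bndS, ← Fin.sum_univ_eq_sum_range (fun d => cntS (Fintype.card F) (σ i) d *
      bndS (Fintype.card F) σ k (i + 1) (w - (i + 1) * d))]
    refine sum_sigma_prod_le Φ hΦ _ (fun _ f => if σ i then signWt f.1.1.1 else 1) (fun _ h => tupWt σ h.1.1)
      (fun h => ?_) (fun d : Fin (w / (i + 1) + 1) => cntS (Fintype.card F) (σ i) d)
      (fun d => bndS (Fintype.card F) σ k (i + 1) (w - (i + 1) * d)) (fun d => slot_le h2 (σ i) d)
      (fun d => ih (i + 1) _ (by omega))
    show (∏ j : Fin n, if σ j then signWt (h.1.1 j) else 1) = (if σ i then signWt (h.1.1 j₀) else 1) *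
      ∏ j : Fin n, if σ j then signWt (Function.update h.1.1 j₀ 1 j) else 1
    rw [← Finset.mul_prod_erase _ _ (Finset.mem_univ j₀), ← Finset.mul_prod_erase _ _ (Finset.mem_univ j₀),
      Function.update_self, signWt_one, ite_self, one_mul]
    refine congrArg _ (Finset.prod_congr rfl fun j hj => ?_)
    rw [Function.update_of_ne (Finset.ne_of_mem_erase hj)]

end CfsgLib.SignedClasses
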