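import Cfsg.Agent.SignedClasses.Classify
import Cfsg.Agent.SignedClasses.Tuples
import Cfsg.Agent.GUClassCount.Split

/-!
The tuple of a matrix preserving a form is signed and self-reciprocal.
-/

set_option autoImplicit false

namespace CfsgLib.SignedClasses

open Polynomial Matrix CfsgLib.GLClassCount CfsgLib.GUClassCount
open scoped Classical

variable {F : Type*} [Field F] [Fintype F] {n : ℕ} {G : Matrix (Fin n) (Fin n) F}

theorem transpose_aeval_form {A A' : Matrix (Fin n) (Fin n) F} (h : Aᵀ * G = G * A') (Q : F[X]) :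
    (aeval A Q)ᵀ * G = G * aeval A' Q := by
  induction Q using Polynomial.induction_on' with
  | add p q hp hq => rw [map_add, map_add, Matrix.transpose_add, Matrix.add_mul, Matrix.mul_add, hp, hq]
  | monomial k c =>
    rw [aeval_monomial, aeval_monomial, Algebra.algebraMap_eq_smul_one, Matrix.smul_mul, Matrix.one_mul, Matrix.smul_mul,
      Matrix.one_mul, Matrix.transpose_smul, Matrix.smul_mul, Matrix.mul_smul, transpose_form_pow h k]

theorem card_ker_recip (g : GL (Fin n) F) (hG : IsUnit G.det) (hg : g.1ᵀ * G * g.1 = G) {Q : F[X]}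
    (h0 : Q.coeff 0 ≠ 0) :
    Nat.card {v : Fin n → F // aeval g.1 (recip Q) *ᵥ v = 0} = Nat.card {v : Fin n → F // aeval g.1 Q *ᵥ v = 0} := by
  have hginv : (g⁻¹).1 = g.1⁻¹ := Matrix.coe_units_inv g
  have h1 : aeval g.1 (recip Q) = (Q.coeff 0)⁻¹ • (g.1 ^ Q.natDegree * aeval g.1⁻¹ Q) := by
    rw [recip, tilde, Polynomial.map_id, RingHom.id_apply, map_mul, aeval_C, reverse, aeval_reflect g _ _ le_rfl, hginv,
      Algebra.smul_def]
  have h2 := transpose_aeval_form (transpose_mul_form hG hg) Q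
  have hGu := (Matrix.isUnit_iff_isUnit_det G).mpr hG
  rw [h1, ← card_ker_transpose (aeval g.1 Q)]
  let Φ : (Fin n → F) ≃ (Fin n → F) :=
    Equiv.ofBijective (G *ᵥ ·) ⟨Matrix.mulVec_injective_iff_isUnit.mpr hGu, Matrix.mulVec_surjective_iff_isUnit.mpr hGu⟩
  refine Nat.card_congr (Equiv.subtypeEquiv Φ fun v => ?_)
  show _ ↔ (aeval g.1 Q)ᵀ *ᵥ (G *ᵥ v) = 0
  rw [Matrix.mulVec_mulVec, h2, ← Matrix.mulVec_mulVec, Matrix.smul_mulVec, smul_eq_zero_iff_right (inv_ne_zero h0),
    ← Matrix.mulVec_mulVec]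
  have hinj : Function.Injective (Matrix.mulVec (g.1 ^ Q.natDegree)) :=
    Matrix.mulVec_injective_iff_isUnit.mpr (g.isUnit.pow _)
  have hinjG := Matrix.mulVec_injective_iff_isUnit.mpr hGu
  refine ⟨fun h => ?_, fun h => ?_⟩
  · rw [show aeval g.1⁻¹ Q *ᵥ v = 0 from hinj (h.trans (Matrix.mulVec_zero _).symm), Matrix.mulVec_zero]
  · rw [show aeval g.1⁻¹ Q *ᵥ v = 0 from hinjG (h.trans (Matrix.mulVec_zero _).symm), Matrix.mulVec_zero]

variable {m : ℕ} {p : Fin m → F[X]} {e : Fin m → ℕ}

/-- The code of an isometry is self-reciprocal. -/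
theorem encode_recip (g : GL (Fin n) F) (hG : IsUnit G.det) (hg : g.1ᵀ * G * g.1 = G)
    (hp : ∀ i, Irreducible (p i) ∧ (p i).Monic ∧ e i ≠ 0) (hp0 : ∀ i, (p i).coeff 0 ≠ 0)
    (hT : HasType (M := Module.AEval' (Matrix.toLin' g.1)) p e) (j : Fin n) :
    recip (encode p e n j) = encode p e n j := by
  rw [encode, recip, tilde_prod, Finset.prod_eq_multiset_prod, Finset.prod_eq_multiset_prod]
  congr 1
  ext P
  by_cases hP : Irreducible P ∧ P.Monic ∧ P.coeff 0 ≠ 0
  · obtain ⟨hP1, hP2, hP3⟩ := hP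
    have hθ : ∀ a : F, (RingHom.id F) ((RingHom.id F) a) = a := fun _ => rfl
    have hS : ∀ k, (∑ i ∈ Finset.univ.filter (fun i => p i = recip P), min k (e i)) =
        ∑ i ∈ Finset.univ.filter (fun i => p i = P), min k (e i) := fun k => by
      have h3 : (recip P) ^ k = recip (P ^ k) := by
        induction k with
        | zero => rw [pow_zero, pow_zero, recip, tilde_one]
        | succ k ih => rw [pow_succ, pow_succ, ih]; exact (tilde_mul (RingHom.id F) _ _).symm
      have h1 := card_torsion hp hT hP1 hP2 k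
      have h2 := card_torsion hp hT (irreducible_tilde _ hθ hP2 hP1 hP3) (monic_tilde (RingHom.id F) hP3) k
      rw [natDegree_tilde _ hP3, card_torsion_matrix, show tilde (RingHom.id F) P ^ k = recip (P ^ k) from h3,
        card_ker_recip g hG hg (Q := P ^ k)
        (by rw [coeff_zero_eq_eval_zero, eval_pow, ← coeff_zero_eq_eval_zero]; exact pow_ne_zero _ hP3),
        ← card_torsion_matrix, h1] at h2
      exact (Nat.eq_of_mul_eq_mul_left hP1.natDegree_pos (Nat.pow_right_injective Fintype.one_lt_card h2)).symm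
    have hmap : Multiset.count P ((Finset.univ.filter fun i => e i = (j : ℕ) + 1).val.map fun i => recip (p i)) =
        Multiset.count (recip P) ((Finset.univ.filter fun i => e i = (j : ℕ) + 1).val.map p) := by
      rw [Multiset.count_map, Multiset.count_map]
      congr 1
      refine Multiset.filter_congr fun i _ => ⟨fun h => ?_, fun h => ?_⟩
      · rw [h, recip, recip, tilde_tilde _ hθ (hp i).2.1 (hp0 i)]
      · rw [← h, recip, recip, tilde_tilde _ hθ hP2 hP3]
    rw [hmap]
    have h1 := count_eq p e P j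
    have h2 := count_eq p e (recip P) j
    rw [hS, hS, hS] at h2
    omega
  · rw [Multiset.count_eq_zero.mpr, Multiset.count_eq_zero.mpr] <;> intro hmem <;>
      obtain ⟨i, -, rfl⟩ := Multiset.mem_map.mp hmem
    · exact hP ⟨(hp i).1, (hp i).2.1, hp0 i⟩
    · exact hP ⟨irreducible_tilde _ (fun _ => rfl) (hp i).2.1 (hp i).1 (hp0 i), monic_tilde _ (hp0 i), by
        rw [coeff_zero_tilde _ (hp i).2.1]; exact inv_ne_zero (by simpa using hp0 i)⟩

omit [Fintype F] in
theorem rootMultiplicity_encode (hp : ∀ i, Irreducible (p i) ∧ (p i).Monic ∧ e i ≠ 0) (δ : F) (j : Fin n) :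
    (encode p e n j).rootMultiplicity δ = Fintype.card {i : Fin m // (p i, e i) = (X - C δ, (j : ℕ) + 1)} := by
  have key : ∀ s : Finset (Fin m), (∏ i ∈ s, p i).rootMultiplicity δ = (s.filter fun i => p i = X - C δ).card := by
    intro s
    induction s using Finset.induction_on with
    | empty => rw [Finset.prod_empty, Finset.filter_empty, Finset.card_empty, rootMultiplicity_eq_zero (by simp [IsRoot])]
    | insert a s has ih =>
      rw [Finset.prod_insert has, rootMultiplicity_mul (mul_ne_zero (hp a).2.1.ne_zero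
        (Finset.prod_ne_zero_iff.mpr fun i _ => (hp i).2.1.ne_zero)), ih, Finset.filter_insert]
      by_cases ha : p a = X - C δ
      · rw [if_pos ha, Finset.card_insert_of_notMem (fun h => has (Finset.mem_filter.mp h).1), ha,
          rootMultiplicity_X_sub_C_self, Nat.add_comm]
      · rw [if_neg ha, rootMultiplicity_eq_zero, Nat.zero_add]
        intro hr
        exact ha (eq_of_monic_of_associated (hp a).2.1 (monic_X_sub_C δ)
          ((irreducible_X_sub_C δ).associated_of_dvd (hp a).1 (dvd_iff_isRoot.mpr hr)).symm)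
  rw [encode, key, Finset.filter_filter, Fintype.card_subtype]
  refine congrArg _ (Finset.filter_congr fun i _ => ?_)
  rw [Prod.mk.injEq, and_comm]

omit [Fintype F] in
theorem eval_encode (hp : ∀ i, Irreducible (p i) ∧ (p i).Monic ∧ e i ≠ 0) (δ : F) (j : Fin n) :
    (encode p e n j).eval δ = 0 ↔ Nonempty {i : Fin m // (p i, e i) = (X - C δ, (j : ℕ) + 1)} := by
  rw [← Fintype.card_pos_iff, ← rootMultiplicity_encode hp δ j,
    rootMultiplicity_pos (show encode p e n j ≠ 0 from (monic_prod_of_monic _ _ fun i _ => (hp i).2.1).ne_zero)]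
  rfl

/-- Indices with alternating layers have even multiplicities. -/
theorem encode_even (h2 : (2 : F) ≠ 0) {g : Matrix (Fin n) (Fin n) F} (hG : IsUnit G.det) (hg : gᵀ * G * g = G)
    {b : Fin m → Fin n → F} (hb : IsFrame g p e b) (hp : ∀ i, Irreducible (p i) ∧ (p i).Monic ∧ e i ≠ 0)
    {ε : F} (hs : Gᵀ = ε • G) {δ : F} (hδ : δ * δ = 1) (j : Fin n) (hj : ε * (-1) ^ (j : ℕ) = -1) :
    Even ((encode p e n j).rootMultiplicity δ) := by
  rw [rootMultiplicity_encode hp]
  have hdet := layer_det hb (fun i => ⟨(hp i).1, (hp i).2.1⟩) (fun i => (hp i).2.2) hG hg hδ ((j : ℕ) + 1)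
  have ht := congrArg Matrix.det (layer_transpose hb (fun i => (hp i).2.2) hG hg hδ hs ((j : ℕ) + 1))
  rw [Nat.add_sub_cancel, hj, Matrix.det_transpose, Matrix.det_smul] at ht
  rcases Nat.even_or_odd (Fintype.card {i : Fin m // (p i, e i) = (X - C δ, (j : ℕ) + 1)}) with h | h
  · exact h
  · rw [h.neg_one_pow, neg_one_mul] at ht
    exact absurd ((mul_eq_zero.mp (show (2 : F) * (layer g G p e b δ ((j : ℕ) + 1)).det = 0 by
      linear_combination ht)).resolve_left h2) hdet.ne_zero

end CfsgLib.SignedClasses
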