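import Cfsg.Agent.GUClassCount.Tuples

/-!
Signed self-reciprocal polynomials and weighted tuples of them.
-/

set_option autoImplicit false

namespace CfsgLib.SignedClasses

open Polynomial CfsgLib.GLClassCount CfsgLib.GUClassCount
open scoped Classical

/-- Number of signed self-reciprocal polynomials. -/
def sg (q d : ℕ) : ℕ := ∑ l ∈ Finset.range 5, if l ≤ d ∧ Even (d - l) then Nat.choose 4 l * q ^ ((d - l) / 2) else 0

/-- Number of self-reciprocal polynomials with no sign. -/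
def ev (q d : ℕ) : ℕ := if Even d then q ^ (d / 2) else 0

/-- Count for an index that is signed or not. -/
def cntS (q : ℕ) (s : Bool) (d : ℕ) : ℕ := if s then sg q d else ev q d

/-- Weighted count of signed tuples supported at weights above `i`. -/
def bndS (q : ℕ) (σ : ℕ → Bool) : ℕ → ℕ → ℕ → ℕ
  | 0, _, w => if w = 0 then 1 else 0
  | k + 1, i, w => ∑ d ∈ Finset.range (w / (i + 1) + 1), cntS q (σ i) d * bndS q σ k (i + 1) (w - (i + 1) * d)

/-- The unfolding equation, generated here so that all importers share one copy. -/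
theorem bndS_unfold : type_of% @bndS.eq_def := @bndS.eq_def

variable {F : Type*} [Field F]

/-- The reciprocal polynomial. -/
noncomputable abbrev recip (f : F[X]) : F[X] := tilde (RingHom.id F) f

theorem coeff_zero_sq {f : F[X]} (hf : f.Monic) (h0 : f.coeff 0 ≠ 0) (h : recip f = f) :
    f.coeff 0 = 1 ∨ f.coeff 0 = -1 :=
  mul_self_eq_one_iff.mp (coeff_zero_norm (RingHom.id F) hf h0 h)

theorem coeff_recip {f : F[X]} (hf : f.Monic) (h0 : f.coeff 0 ≠ 0) (h : recip f = f) {i : ℕ} (hi : i ≤ f.natDegree) :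
    f.coeff i = f.coeff 0 * f.coeff (f.natDegree - i) := by
  have h1 := coeff_tilde (RingHom.id F) f hi
  rw [show tilde (RingHom.id F) f = f from h] at h1
  have h2 : f.coeff 0 * f.coeff 0 = 1 := coeff_zero_norm (RingHom.id F) hf h0 h
  simp only [RingHom.id_apply] at h1
  rw [h1, inv_eq_of_mul_eq_one_right h2]

theorem recip_linear {δ : F} (hδ : δ * δ = 1) : recip (X - C δ) = X - C δ := by
  have hδ0 : δ ≠ 0 := fun e => by rw [e, mul_zero] at hδ; exact zero_ne_one hδ
  have h0 : (X - C δ).coeff 0 ≠ 0 := by simpa using hδ0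
  ext i
  rcases le_or_gt i 1 with hi | hi
  · rw [recip, coeff_tilde _ _ (by rwa [natDegree_X_sub_C]), natDegree_X_sub_C]
    interval_cases i
    · simp [inv_eq_of_mul_eq_one_right hδ]
    · simp [hδ0]
  · rw [coeff_eq_zero_of_natDegree_lt (by rw [natDegree_tilde _ h0, natDegree_X_sub_C]; exact hi),
      coeff_eq_zero_of_natDegree_lt (by rwa [natDegree_X_sub_C])]

theorem recip_div {δ : F} (hδ : δ * δ = 1) {f g : F[X]} (h : recip f = f) (hg : f = (X - C δ) * g) : recip g = g := by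
  have h1 : recip (X - C δ) * recip g = (X - C δ) * g := by
    rw [recip, recip, ← tilde_mul, ← hg]; exact h
  rw [recip_linear hδ] at h1
  exact mul_left_cancel₀ (X_sub_C_ne_zero δ) h1

theorem eval_recip {f : F[X]} (hf : f.Monic) (h0 : f.coeff 0 ≠ 0) (h : recip f = f) {δ : F} (hδ : δ * δ = 1) :
    f.eval δ = f.coeff 0 * δ ^ f.natDegree * f.eval δ := by
  rw [eval_eq_sum_range, Finset.mul_sum]
  conv_lhs => rw [← Finset.sum_range_reflect]
  refine Finset.sum_congr rfl fun i hi => ?_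
  have hi' : i ≤ f.natDegree := Nat.lt_succ_iff.mp (Finset.mem_range.mp hi)
  rw [Nat.add_sub_cancel, coeff_recip hf h0 h (Nat.sub_le _ _), Nat.sub_sub_self hi']
  have e : δ ^ (f.natDegree - i) = δ ^ f.natDegree * δ ^ i := by
    conv_rhs => rw [← Nat.sub_add_cancel hi', pow_add, mul_assoc, ← mul_pow, hδ, one_pow, mul_one]
  rw [e]; ring

theorem even_of_even_roots (h2 : (2 : F) ≠ 0) : ∀ (d : ℕ) (f : F[X]), f.natDegree = d → f.Monic → f.coeff 0 ≠ 0 →
    recip f = f → (∀ δ : F, δ * δ = 1 → Even (f.rootMultiplicity δ)) → Even d ∧ f.coeff 0 = 1 := by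
  intro d
  induction d using Nat.strong_induction_on with
  | _ d ih =>
    intro f hd hf h0 h hev
    by_cases hroot : ∃ δ : F, δ * δ = 1 ∧ f.IsRoot δ
    · obtain ⟨δ, hδ, hδr⟩ := hroot
      have hpos := (rootMultiplicity_pos hf.ne_zero).mpr hδr
      obtain ⟨k, hk⟩ := hev δ hδ
      obtain ⟨g, hg⟩ : (X - C δ) ^ 2 ∣ f := (pow_dvd_pow _ (by omega)).trans (pow_rootMultiplicity_dvd f δ)
      have hgm : g.Monic := ((monic_X_sub_C δ).pow 2).of_mul_monic_left (hg ▸ hf)
      have hg0 : g.coeff 0 ≠ 0 := fun e => h0 (by rw [hg, mul_coeff_zero, e, mul_zero])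
      have hgr : recip g = g := by
        rw [sq, mul_assoc] at hg
        exact recip_div hδ (recip_div hδ h hg) rfl
      have hdeg : d = 2 + g.natDegree := by
        rw [← hd, hg, Monic.natDegree_mul ((monic_X_sub_C δ).pow 2) hgm, natDegree_pow, natDegree_X_sub_C]
      obtain ⟨he, he1⟩ := ih g.natDegree (by omega) g rfl hgm hg0 hgr fun μ hμ => by
        have hm := hev μ hμ
        rw [hg, rootMultiplicity_mul (hg ▸ hf.ne_zero)] at hm
        rcases eq_or_ne μ δ with rfl | hne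
        · rw [rootMultiplicity_X_sub_C_pow] at hm
          exact (Nat.even_add.mp hm).mp even_two
        · rwa [rootMultiplicity_eq_zero (by simp [IsRoot, sub_ne_zero.mpr hne]), zero_add] at hm
      refine ⟨hdeg ▸ even_two.add he, ?_⟩
      rw [hg, mul_coeff_zero, he1, mul_one, coeff_zero_eq_eval_zero, eval_pow, eval_sub, eval_X, eval_C, zero_sub, sq,
        neg_mul_neg, hδ]
    · push Not at hroot
      have h1 := eval_recip hf h0 h (one_mul 1)
      rw [one_pow, mul_one] at h1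
      have hne1 : f.eval 1 ≠ 0 := hroot 1 (one_mul 1)
      have e1 : f.coeff 0 = 1 := (mul_eq_right₀ hne1).mp h1.symm
      have h3 := eval_recip hf h0 h (δ := -1) (by ring)
      rw [e1, one_mul] at h3
      have e2 : (-1 : F) ^ f.natDegree = 1 := (mul_eq_right₀ (hroot (-1) (by ring))).mp h3.symm
      refine ⟨?_, e1⟩
      rcases Nat.even_or_odd d with he | ho
      · exact he
      · rw [hd, ho.neg_one_pow] at e2
        exact absurd (show (2 : F) = 0 by linear_combination -e2) h2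

variable [Fintype F]

/-- Self-reciprocal monic polynomials of degree `d`. -/
abbrev SR (F : Type*) [Field F] (d : ℕ) := {f : MonicUnitCoeff F d // recip f.1 = f.1}

theorem finite_SR (d : ℕ) : Finite (SR F d) :=
  have := (monicUnitCoeff_bound F d).1
  inferInstance

theorem sr_ext {d r : ℕ} {f g : SR F d} (hr : d ≤ 2 * r + 1) (h0 : f.1.1.coeff 0 = g.1.1.coeff 0)
    (h : ∀ i, 1 ≤ i → i ≤ r → i < d → f.1.1.coeff i = g.1.1.coeff i) : f = g := by
  refine Subtype.ext (Subtype.ext (Polynomial.ext fun i => ?_))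
  have key : ∀ (u : SR F d) j, j ≤ d → u.1.1.coeff j = u.1.1.coeff 0 * u.1.1.coeff (d - j) := fun u j hj => by
    have := coeff_recip u.1.2.1 u.1.2.2.2 u.2 (i := j) (by rw [u.1.2.2.1]; exact hj)
    rwa [u.1.2.2.1] at this
  have top : ∀ u : SR F d, u.1.1.coeff d = 1 := fun u => by
    conv_lhs => arg 2; rw [← u.1.2.2.1]
    exact u.1.2.1.coeff_natDegree
  rcases lt_trichotomy i d with hi | rfl | hi
  · rcases Nat.eq_zero_or_pos i with rfl | hi0
    · exact h0
    · rcases le_or_gt i r with hir | hir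
      · exact h i hi0 hir hi
      · rw [key f i hi.le, key g i hi.le, h0, h (d - i) (by omega) (by omega) (by omega)]
  · rw [top, top]
  · rw [coeff_eq_zero_of_natDegree_lt (by rw [f.1.2.2.1]; exact hi),
      coeff_eq_zero_of_natDegree_lt (by rw [g.1.2.2.1]; exact hi)]

theorem card_sr_zero : Nat.card (SR F 0) ≤ 1 := by
  have := finite_SR (F := F) 0
  refine Finite.card_le_one_iff_subsingleton.mpr ⟨fun f g => sr_ext (r := 0) (Nat.zero_le _) ?_ fun i _ _ hi => absurd hi (Nat.not_lt_zero _)⟩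
  rw [f.1.2.1.natDegree_eq_zero.mp f.1.2.2.1, g.1.2.1.natDegree_eq_zero.mp g.1.2.2.1]

theorem card_sr_odd (r : ℕ) : Nat.card (SR F (2 * r + 1)) ≤ 2 * Fintype.card F ^ r := by
  let Φ : SR F (2 * r + 1) → ({x : F // x = 1 ∨ x = -1} × (Fin r → F)) := fun f =>
    (⟨f.1.1.coeff 0, coeff_zero_sq f.1.2.1 f.1.2.2.2 f.2⟩, fun i => f.1.1.coeff ((i : ℕ) + 1))
  have hΦ : Function.Injective Φ := fun f g e => by
    simp only [Φ, Prod.mk.injEq, Subtype.mk.injEq] at e
    refine sr_ext le_rfl e.1 fun i hi hir _ => ?_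
    obtain ⟨i, rfl⟩ : ∃ i', i = i' + 1 := ⟨i - 1, by omega⟩
    exact congrFun e.2 ⟨i, by omega⟩
  refine (Nat.card_le_card_of_injective Φ hΦ).trans ?_
  rw [Nat.card_prod, Nat.card_fun, Nat.card_eq_fintype_card (α := Fin r), Fintype.card_fin, Nat.card_eq_fintype_card (α := F)]
  refine Nat.mul_le_mul_right _ ?_
  rw [Nat.card_eq_fintype_card, Fintype.card_subtype]
  refine (Finset.card_le_card (t := {1, -1}) fun x hx => ?_).trans Finset.card_le_two
  simpa using hx

theorem card_sr_even (h2 : (2 : F) ≠ 0) (r : ℕ) :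
    Nat.card (SR F (2 * (r + 1))) ≤ Fintype.card F ^ (r + 1) + Fintype.card F ^ r := by
  have := finite_SR (F := F) (2 * (r + 1))
  rw [← Nat.card_congr (Equiv.sumCompl fun f : SR F (2 * (r + 1)) => f.1.1.coeff 0 = 1), Nat.card_sum]
  refine Nat.add_le_add ?_ ?_
  · refine (Nat.card_le_card_of_injective (fun f : {f : SR F (2 * (r + 1)) // f.1.1.coeff 0 = 1} =>
      fun i : Fin (r + 1) => f.1.1.1.coeff ((i : ℕ) + 1)) fun f g e => Subtype.ext ?_).trans
      (by rw [Nat.card_fun, Nat.card_eq_fintype_card, Nat.card_eq_fintype_card (α := Fin (r + 1)), Fintype.card_fin])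
    refine sr_ext (r := r + 1) (by omega) (f.2.trans g.2.symm) fun i hi hir _ => ?_
    obtain ⟨i, rfl⟩ : ∃ i', i = i' + 1 := ⟨i - 1, by omega⟩
    exact congrFun e ⟨i, by omega⟩
  · have hneg : ∀ f : {f : SR F (2 * (r + 1)) // ¬ f.1.1.coeff 0 = 1},
        f.1.1.1.coeff 0 = -1 ∧ f.1.1.1.coeff (r + 1) = 0 := fun f => by
      have h0 := (coeff_zero_sq f.1.1.2.1 f.1.1.2.2.2 f.1.2).resolve_left f.2
      have h1 := coeff_recip f.1.1.2.1 f.1.1.2.2.2 f.1.2 (i := r + 1) (by rw [f.1.1.2.2.1]; omega)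
      rw [f.1.1.2.2.1, h0, show 2 * (r + 1) - (r + 1) = r + 1 by omega] at h1
      exact ⟨h0, (mul_eq_zero.mp (show (2 : F) * f.1.1.1.coeff (r + 1) = 0 by linear_combination h1)).resolve_left h2⟩
    refine (Nat.card_le_card_of_injective (fun f : {f : SR F (2 * (r + 1)) // ¬ f.1.1.coeff 0 = 1} =>
      fun i : Fin r => f.1.1.1.coeff ((i : ℕ) + 1)) fun f g e => Subtype.ext ?_).trans
      (by rw [Nat.card_fun, Nat.card_eq_fintype_card, Nat.card_eq_fintype_card (α := Fin r), Fintype.card_fin])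
    refine sr_ext (r := r + 1) (by omega) ((hneg f).1.trans (hneg g).1.symm) fun i hi hir _ => ?_
    rcases eq_or_ne i (r + 1) with rfl | hne
    · rw [(hneg f).2, (hneg g).2]
    · obtain ⟨i, rfl⟩ : ∃ i', i = i' + 1 := ⟨i - 1, by omega⟩
      exact congrFun e ⟨i, by omega⟩

theorem card_even_roots (h2 : (2 : F) ≠ 0) (d : ℕ) :
    Nat.card {f : SR F d // ∀ δ : F, δ * δ = 1 → Even (f.1.1.rootMultiplicity δ)} ≤ ev (Fintype.card F) d := by
  have := finite_SR (F := F) d
  have hev := fun f : {f : SR F d // ∀ δ : F, δ * δ = 1 → Even (f.1.1.rootMultiplicity δ)} =>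
    even_of_even_roots h2 d f.1.1.1 f.1.1.2.2.1 f.1.1.2.1 f.1.1.2.2.2 f.1.2 f.2
  unfold ev
  split_ifs with hd
  · obtain ⟨r, rfl⟩ := hd
    rw [show (r + r) / 2 = r by omega]
    refine (Nat.card_le_card_of_injective (fun f : {f : SR F (r + r) // ∀ δ : F, δ * δ = 1 → Even (f.1.1.rootMultiplicity δ)} =>
      fun i : Fin r => f.1.1.1.coeff ((i : ℕ) + 1)) fun f g e => Subtype.ext ?_).trans
      (by rw [Nat.card_fun, Nat.card_eq_fintype_card, Nat.card_eq_fintype_card (α := Fin r), Fintype.card_fin])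
    refine sr_ext (r := r) (by omega) ((hev f).2.trans (hev g).2.symm) fun i hi hir _ => ?_
    obtain ⟨i, rfl⟩ : ∃ i', i = i' + 1 := ⟨i - 1, by omega⟩
    exact congrFun e ⟨i, by omega⟩
  · have : IsEmpty {f : SR F d // ∀ δ : F, δ * δ = 1 → Even (f.1.1.rootMultiplicity δ)} := ⟨fun f => hd (hev f).1⟩
    rw [Nat.card_of_isEmpty]

/-- The weight of a polynomial: two choices of sign at each root `1` and `-1`. -/
noncomputable def signWt (f : F[X]) : ℕ := 2 ^ ((Finset.univ.filter fun δ : F => δ * δ = 1 ∧ f.eval δ = 0).card)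

theorem card_root (h : F) (hδ : h * h = 1) (d : ℕ) :
    Nat.card {f : SR F (d + 1) // f.1.1.eval h = 0} ≤ Nat.card (SR F d) := by
  have := finite_SR (F := F) d
  choose g hg using fun f : {f : SR F (d + 1) // f.1.1.eval h = 0} => dvd_iff_isRoot.mpr (show f.1.1.1.IsRoot h from f.2)
  have hgm : ∀ f, (g f).Monic := fun f => (monic_X_sub_C h).of_mul_monic_left (hg f ▸ f.1.1.2.1)
  refine Nat.card_le_card_of_injective (fun f => (⟨⟨g f, hgm f, ?_, fun e => f.1.1.2.2.2 (by rw [hg f, mul_coeff_zero, e, mul_zero])⟩,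
    recip_div hδ f.1.2 (hg f)⟩ : SR F d)) fun a b e => ?_
  · have h1 := f.1.1.2.2.1
    rw [hg f, Monic.natDegree_mul (monic_X_sub_C h) (hgm f), natDegree_X_sub_C] at h1
    omega
  · have e' : g a = g b := congrArg (fun u : SR F d => u.1.1) e
    exact Subtype.ext (Subtype.ext (Subtype.ext (by rw [hg a, hg b, e'])))

theorem card_roots_both (h2 : (2 : F) ≠ 0) (d : ℕ) :
    Nat.card {f : SR F (d + 2) // f.1.1.eval 1 = 0 ∧ f.1.1.eval (-1) = 0} ≤ Nat.card (SR F d) := by
  have := finite_SR (F := F) d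
  have := finite_SR (F := F) (d + 2)
  have hne : (1 : F) ≠ -1 := fun e => h2 (by linear_combination e)
  have hd : ∀ f : {f : SR F (d + 2) // f.1.1.eval 1 = 0 ∧ f.1.1.eval (-1) = 0}, (X - C 1) * (X - C (-1)) ∣ f.1.1.1 :=
    fun f => IsCoprime.mul_dvd (isCoprime_X_sub_C_of_isUnit_sub (sub_ne_zero.mpr hne).isUnit)
      (dvd_iff_isRoot.mpr f.2.1) (dvd_iff_isRoot.mpr f.2.2)
  choose g hg using hd
  have hgm : ∀ f, (g f).Monic := fun f => ((monic_X_sub_C (1 : F)).mul (monic_X_sub_C (-1))).of_mul_monic_left (hg f ▸ f.1.1.2.1)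
  refine Nat.card_le_card_of_injective (fun f => (⟨⟨g f, hgm f, ?_, fun e => f.1.1.2.2.2 (by rw [hg f, mul_coeff_zero, e, mul_zero])⟩,
    recip_div (by ring : (-1 : F) * -1 = 1) (recip_div (one_mul 1) f.1.2 ((hg f).trans (mul_assoc _ _ _))) rfl⟩ : SR F d)) fun a b e => ?_
  · have h1 := f.1.1.2.2.1
    rw [hg f, Monic.natDegree_mul ((monic_X_sub_C (1 : F)).mul (monic_X_sub_C (-1))) (hgm f),
      Monic.natDegree_mul (monic_X_sub_C (1 : F)) (monic_X_sub_C (-1)), natDegree_X_sub_C, natDegree_X_sub_C] at h1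
    omega
  · have e' : g a = g b := congrArg (fun u : SR F d => u.1.1) e
    exact Subtype.ext (Subtype.ext (Subtype.ext (by rw [hg a, hg b, e'])))

theorem sum_signWt (h2 : (2 : F) ≠ 0) (d : ℕ) [Fintype (SR F d)] :
    ∑ f : SR F d, signWt f.1.1 ≤ Nat.card (SR F d) +
      (Nat.card {f : SR F d // f.1.1.eval 1 = 0} + Nat.card {f : SR F d // f.1.1.eval (-1) = 0}) +
      Nat.card {f : SR F d // f.1.1.eval 1 = 0 ∧ f.1.1.eval (-1) = 0} := by
  have hne : (1 : F) ≠ -1 := fun e => h2 (by linear_combination e)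
  have hW : ∀ f : F[X], signWt f = 1 + ((if f.eval 1 = 0 then 1 else 0) + (if f.eval (-1) = 0 then 1 else 0)) +
      (if f.eval 1 = 0 ∧ f.eval (-1) = 0 then 1 else 0) := fun f => by
    have hset : (Finset.univ.filter fun δ : F => δ * δ = 1 ∧ f.eval δ = 0) = ({1, -1} : Finset F).filter fun δ => f.eval δ = 0 := by
      ext δ; simp [mul_self_eq_one_iff]
    rw [signWt, hset, Finset.card_filter, Finset.sum_pair hne]
    split_ifs <;> simp_all
  simp only [hW, Finset.sum_add_distrib, Finset.sum_const, Finset.card_univ, smul_eq_mul, mul_one, Finset.sum_boole,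
    Nat.card_eq_fintype_card, Fintype.card_subtype, Nat.cast_id]
  exact le_rfl

theorem sg_even (q r : ℕ) : sg q (2 * (r + 1 + 1)) = q ^ (r + 1 + 1) + 6 * q ^ (r + 1) + q ^ r := by
  simp only [sg, Finset.sum_range_succ, Finset.sum_range_zero]
  rw [if_pos ⟨Nat.zero_le _, Nat.even_iff.mpr (by omega)⟩, if_neg (fun h => by have := Nat.even_iff.mp h.2; omega),
    if_pos ⟨by omega, Nat.even_iff.mpr (by omega)⟩, if_neg (fun h => by have := Nat.even_iff.mp h.2; omega),
    if_pos ⟨by omega, Nat.even_iff.mpr (by omega)⟩, show (2 * (r + 1 + 1) - 0) / 2 = r + 1 + 1 by omega,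
    show (2 * (r + 1 + 1) - 2) / 2 = r + 1 by omega, show (2 * (r + 1 + 1) - 4) / 2 = r by omega]
  norm_num [Nat.choose]

theorem sg_two (q : ℕ) : sg q (2 * (0 + 1)) = q + 6 := by
  simp only [sg, Finset.sum_range_succ, Finset.sum_range_zero]
  norm_num [Nat.choose, Nat.even_iff]

theorem sg_odd (q r : ℕ) : sg q (2 * (r + 1) + 1) = 4 * q ^ (r + 1) + 4 * q ^ r := by
  simp only [sg, Finset.sum_range_succ, Finset.sum_range_zero]
  rw [if_neg (fun h => by have := Nat.even_iff.mp h.2; omega), if_pos ⟨by omega, Nat.even_iff.mpr (by omega)⟩,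
    if_neg (fun h => by have := Nat.even_iff.mp h.2; omega), if_pos ⟨by omega, Nat.even_iff.mpr (by omega)⟩,
    if_neg (fun h => by have := Nat.even_iff.mp h.2; omega), show (2 * (r + 1) + 1 - 1) / 2 = r + 1 by omega,
    show (2 * (r + 1) + 1 - 3) / 2 = r by omega]
  norm_num [Nat.choose]

theorem sum_signWt_le (h2 : (2 : F) ≠ 0) (d : ℕ) [Fintype (SR F d)] :
    ∑ f : SR F d, signWt f.1.1 ≤ sg (Fintype.card F) d := by
  refine (sum_signWt h2 d).trans ?_
  obtain ⟨q, hq⟩ : ∃ q, q = Fintype.card F := ⟨_, rfl⟩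
  have hA : ∀ r, Nat.card (SR F (2 * r + 1)) ≤ 2 * q ^ r := fun r => hq ▸ card_sr_odd r
  have hB : ∀ r, Nat.card (SR F (2 * (r + 1))) ≤ q ^ (r + 1) + q ^ r := fun r => hq ▸ card_sr_even h2 r
  have hC : Nat.card (SR F 0) ≤ 1 := card_sr_zero
  rw [← hq]
  have h11 : (-1 : F) * -1 = 1 := by ring
  rcases d with _ | _ | d
  · have hz : ∀ f : SR F 0, f.1.1 = 1 := fun f => f.1.2.1.natDegree_eq_zero.mp f.1.2.2.1
    have : IsEmpty {f : SR F 0 // f.1.1.eval 1 = 0} := ⟨fun f => by simpa [hz] using f.2⟩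
    have : IsEmpty {f : SR F 0 // f.1.1.eval (-1) = 0} := ⟨fun f => by simpa [hz] using f.2⟩
    have : IsEmpty {f : SR F 0 // f.1.1.eval 1 = 0 ∧ f.1.1.eval (-1) = 0} := ⟨fun f => by simpa [hz] using f.2.1⟩
    simpa [sg, Finset.sum_range_succ] using hC
  · have h1 := card_root (F := F) 1 (one_mul 1) 0
    have h3 := card_root (F := F) (-1) h11 0
    have hne : (1 : F) ≠ -1 := fun e => h2 (by linear_combination e)
    have : IsEmpty {f : SR F 1 // f.1.1.eval 1 = 0 ∧ f.1.1.eval (-1) = 0} := ⟨fun f => by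
      have hlin := eq_X_add_C_of_natDegree_le_one (le_of_eq f.1.1.2.2.1)
      have hc : f.1.1.1.coeff 1 = 1 := by
        have := f.1.1.2.1.coeff_natDegree
        rwa [f.1.1.2.2.1] at this
      rw [hc, C_1, one_mul] at hlin
      have e1 := f.2.1
      have e2 := f.2.2
      rw [hlin, eval_add, eval_X, eval_C] at e1 e2
      exact hne (by linear_combination e1 - e2)⟩
    have := hA 0
    have key : sg q 1 = 4 := by simp [sg, Finset.sum_range_succ]
    rw [Nat.card_of_isEmpty (α := {f : SR F 1 // f.1.1.eval 1 = 0 ∧ f.1.1.eval (-1) = 0}), key]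
    have hA0 : Nat.card (SR F (0 + 1)) ≤ 2 := by simpa using hA 0
    omega
  · have h1 := card_root (F := F) 1 (one_mul 1) (d + 1)
    have h3 := card_root (F := F) (-1) h11 (d + 1)
    have h4 : Nat.card {f : SR F (d + 1 + 1) // f.1.1.eval 1 = 0 ∧ f.1.1.eval (-1) = 0} ≤ Nat.card (SR F d) :=
      card_roots_both (F := F) h2 d
    refine le_trans (b := Nat.card (SR F (d + 1 + 1)) + 2 * Nat.card (SR F (d + 1)) + Nat.card (SR F d)) (by omega) ?_
    rcases Nat.even_or_odd d with ⟨r, rfl⟩ | ⟨r, rfl⟩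
    · have e1 : r + r + 1 + 1 = 2 * (r + 1) := by omega
      have e2 : r + r + 1 = 2 * r + 1 := by omega
      rw [e1, e2]
      have hb := hB r
      have ha := hA r
      rcases r with _ | s
      · rw [sg_two]
        simp only [Nat.zero_add, Nat.add_zero, pow_one, pow_zero, Nat.mul_one, Nat.mul_zero] at ha hb ⊢
        omega
      · have := hB s
        rw [show s + 1 + (s + 1) = 2 * (s + 1) by omega]
        rw [sg_even]
        omega
    · have e1 : 2 * r + 1 + 1 + 1 = 2 * (r + 1) + 1 := by omega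
      have e2 : 2 * r + 1 + 1 = 2 * (r + 1) := by omega
      rw [e1]
      conv_lhs => arg 1; arg 2; rw [e2]
      have := hB r
      have := hA r
      have := hA (r + 1)
      rw [sg_odd]
      omega

end CfsgLib.SignedClasses
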