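import Cfsg.Agent.GLClassCount.Classes
import Cfsg.Agent.GLClassCount.CentDet

/-!
Generators of a primary decomposition of a matrix and the endomorphisms they determine.
-/

set_option autoImplicit false

namespace CfsgLib.SignedClasses

open Polynomial Module Matrix CfsgLib.GLClassCount

variable {F : Type*} [Field F] {ι : Type*} [Fintype ι] [DecidableEq ι] (g : Matrix ι ι F) {m : ℕ}

/-- The combination of the vectors `b` with polynomial coefficients. -/
noncomputable def com (b : Fin m → ι → F) (u : Fin m → F[X]) : ι → F := ∑ i, aeval g (u i) *ᵥ b i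

/-- `b` generates the module of `g` with the relations `p i ^ e i`. -/
structure IsFrame (p : Fin m → F[X]) (e : Fin m → ℕ) (b : Fin m → ι → F) : Prop where
  span : ∀ v, ∃ u, v = com g b u
  rel : ∀ u, com g b u = 0 ↔ ∀ i, p i ^ e i ∣ u i

theorem of_aeval (u : F[X]) (v : ι → F) :
    AEval'.of (Matrix.toLin' g) (aeval g u *ᵥ v) = u • AEval'.of (Matrix.toLin' g) v := by
  have h : aeval (Matrix.toLin' g) u = Matrix.toLin' (aeval g u) :=
    aeval_algHom_apply Matrix.toLinAlgEquiv'.toAlgHom g u
  rw [← AEval.of_aeval_smul]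
  show _ = AEval'.of (Matrix.toLin' g) ((aeval (Matrix.toLin' g) u) v)
  rw [h, Matrix.toLin'_apply]

theorem exists_frame [DecidableEq F[X]] {p : Fin m → F[X]} {e : Fin m → ℕ} (hT : HasType (M := AEval' (Matrix.toLin' g)) p e) :
    ∃ b, IsFrame g p e b := by
  obtain ⟨φ⟩ := hT
  let b : Fin m → ι → F := fun i => (AEval'.of (Matrix.toLin' g)).symm (φ.symm (Pi.single i 1))
  have hcom : ∀ u : Fin m → F[X],
      AEval'.of (Matrix.toLin' g) (com g b u) = φ.symm (fun i => Ideal.Quotient.mk _ (u i)) := fun u => by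
    rw [com, map_sum]
    simp only [of_aeval, b, LinearEquiv.apply_symm_apply, ← map_smul, ← map_sum]
    congr 1
    funext j
    rw [Finset.sum_apply, Finset.sum_eq_single j (fun i _ hi => by rw [Pi.smul_apply, Pi.single_eq_of_ne hi.symm, smul_zero])
      (fun hj => absurd (Finset.mem_univ j) hj), Pi.smul_apply, Pi.single_eq_same]
    show Ideal.Quotient.mk _ (u j * 1) = _
    rw [mul_one]
  refine ⟨b, ⟨fun v => ?_, fun u => ?_⟩⟩
  · choose u hu using fun i => Ideal.Quotient.mk_surjective (φ (AEval'.of (Matrix.toLin' g) v) i)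
    refine ⟨u, (AEval'.of (Matrix.toLin' g)).injective ?_⟩
    rw [hcom, funext hu, φ.symm_apply_apply]
  · rw [← LinearEquiv.map_eq_zero_iff (AEval'.of (Matrix.toLin' g)), hcom, φ.symm.map_eq_zero_iff, funext_iff]
    exact forall_congr' fun i => by rw [Pi.zero_apply, Ideal.Quotient.eq_zero_iff_mem, Ideal.mem_span_singleton]

variable {g} {b : Fin m → ι → F}

theorem com_add (u u' : Fin m → F[X]) : com g b (u + u') = com g b u + com g b u' := by
  simp only [com, Pi.add_apply, map_add, Matrix.add_mulVec, Finset.sum_add_distrib]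

theorem com_sub (u u' : Fin m → F[X]) : com g b (u - u') = com g b u - com g b u' := by
  simp only [com, Pi.sub_apply, map_sub, Matrix.sub_mulVec, Finset.sum_sub_distrib]

theorem com_mul (r : F[X]) (u : Fin m → F[X]) : com g b (fun i => r * u i) = aeval g r *ᵥ com g b u := by
  simp only [com, map_mul, ← Matrix.mulVec_mulVec, Matrix.mulVec_sum]

theorem com_sum {κ : Type*} (s : Finset κ) (u : κ → Fin m → F[X]) :
    com g b (fun i => ∑ k ∈ s, u k i) = ∑ k ∈ s, com g b (u k) := by
  simp only [com, map_sum, Matrix.sum_mulVec]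
  exact Finset.sum_comm

theorem com_single [DecidableEq F[X]] (l : Fin m) (r : F[X]) :
    com g b (Pi.single l r) = aeval g r *ᵥ b l := by
  rw [com, Finset.sum_eq_single l (fun i _ hi => by rw [Pi.single_eq_of_ne hi, map_zero, Matrix.zero_mulVec])
    (fun hl => absurd (Finset.mem_univ l) hl), Pi.single_eq_same]

theorem com_smul (c : Fin m → F) : com g b (fun i => C (c i)) = ∑ i, c i • b i := by
  simp only [com, aeval_C, Algebra.algebraMap_eq_smul_one, Matrix.smul_mulVec, Matrix.one_mulVec]

variable {p : Fin m → F[X]} {e : Fin m → ℕ}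

theorem IsFrame.kill (hb : IsFrame g p e b) (l : Fin m) {r : F[X]} (hr : p l ^ e l ∣ r) : aeval g r *ᵥ b l = 0 := by
  classical
  rw [← com_single, hb.rel]
  intro i
  rcases eq_or_ne i l with rfl | hi
  · rwa [Pi.single_eq_same]
  · rw [Pi.single_eq_of_ne hi]; exact dvd_zero _

theorem commute_aeval {A : Matrix ι ι F} (hA : A * g = g * A) (u : F[X]) : A * aeval g u = aeval g u * A :=
  Algebra.commute_of_mem_adjoin_singleton_of_commute (aeval_mem_adjoin_singleton F g) (show Commute A g from hA)

theorem mulVec_com {A : Matrix ι ι F} (hA : A * g = g * A) (u : Fin m → F[X]) :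
    A *ᵥ com g b u = ∑ i, aeval g (u i) *ᵥ (A *ᵥ b i) := by
  simp only [com, Matrix.mulVec_sum, Matrix.mulVec_mulVec, commute_aeval hA]

theorem IsFrame.ext (hb : IsFrame g p e b) {A A' : Matrix ι ι F} (hA : A * g = g * A) (hA' : A' * g = g * A')
    (h : ∀ i, A *ᵥ b i = A' *ᵥ b i) : A = A' := by
  refine Matrix.ext_of_mulVec_single fun j => ?_
  obtain ⟨u, hu⟩ := hb.span (Pi.single j 1)
  rw [hu, mulVec_com hA, mulVec_com hA']
  simp only [h]

theorem IsFrame.exists_endo (hb : IsFrame g p e b) (w : Fin m → ι → F)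
    (hw : ∀ i, aeval g (p i ^ e i) *ᵥ w i = 0) : ∃ T : Matrix ι ι F, T * g = g * T ∧ ∀ i, T *ᵥ b i = w i := by
  classical
  choose u hu using hb.span
  have key : ∀ u u', com g b u = com g b u' → com g w u = com g w u' := fun u u' h => by
    rw [← sub_eq_zero, ← com_sub]
    have h' : com g b (u - u') = 0 := by rw [com_sub, h, sub_self]
    refine Finset.sum_eq_zero fun i _ => ?_
    obtain ⟨r, hr⟩ := (hb.rel _).mp h' i
    rw [hr, mul_comm, map_mul, ← Matrix.mulVec_mulVec, hw, Matrix.mulVec_zero]
  let L : (ι → F) →ₗ[F] (ι → F) :=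
    { toFun := fun v => com g w (u v)
      map_add' := fun v v' => by
        rw [← com_add]
        exact key _ _ (by rw [com_add, ← hu, ← hu, ← hu])
      map_smul' := fun c v => by
        have e1 : com g w (fun i => C c * u v i) = c • com g w (u v) := by
          rw [com_mul, aeval_C, Algebra.algebraMap_eq_smul_one, Matrix.smul_mulVec, Matrix.one_mulVec]
        rw [RingHom.id_apply, ← e1]
        refine key _ _ ?_
        rw [← hu, com_mul, ← hu, aeval_C, Algebra.algebraMap_eq_smul_one, Matrix.smul_mulVec, Matrix.one_mulVec] }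
  refine ⟨LinearMap.toMatrix' L, Matrix.ext_of_mulVec_single fun j => ?_, fun i => ?_⟩
  · rw [← Matrix.mulVec_mulVec, ← Matrix.mulVec_mulVec, LinearMap.toMatrix'_mulVec, LinearMap.toMatrix'_mulVec]
    show com g w (u _) = g *ᵥ com g w (u _)
    conv_rhs => arg 1; rw [← aeval_X (R := F) g]
    rw [← com_mul]
    refine key _ _ ?_
    rw [← hu, com_mul, ← hu, aeval_X]
  · rw [LinearMap.toMatrix'_mulVec]
    show com g w (u (b i)) = w i
    have e1 : com g w (Pi.single i 1) = w i := by rw [com_single, map_one, Matrix.one_mulVec]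
    rw [← e1]
    exact key _ _ (by rw [← hu, com_single, map_one, Matrix.one_mulVec])

theorem inv_comm {T : Matrix ι ι F} (hT : IsUnit T.det) (h : T * g = g * T) : T⁻¹ * g = g * T⁻¹ := by
  calc T⁻¹ * g = T⁻¹ * (g * T) * T⁻¹ := by
        rw [Matrix.mul_assoc, Matrix.mul_assoc, Matrix.mul_nonsing_inv _ hT, Matrix.mul_one]
    _ = g * T⁻¹ := by rw [← h, Matrix.nonsing_inv_mul_cancel_left _ _ hT]

end CfsgLib.SignedClasses
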