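import Cfsg.Agent.SignedClasses.Frame
import Cfsg.Agent.SignedClasses.Congr
import Cfsg.Agent.FormConj.Adjoint

/-!
Forms fixed by a matrix are classified by the forms they induce on the layers at `1` and `-1`.
-/

set_option autoImplicit false

namespace CfsgLib.SignedClasses

open Polynomial Matrix
open scoped Classical

variable {F : Type*} [Field F] {ι : Type*} [Fintype ι] [DecidableEq ι] {g G : Matrix ι ι F} {δ : F}

theorem aeval_pi (δ : F) : aeval g (X - C δ) = g - δ • (1 : Matrix ι ι F) := by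
  rw [map_sub, aeval_X, aeval_C, Algebra.algebraMap_eq_smul_one]

theorem isUnit_iso (hG : IsUnit G.det) (h : gᵀ * G * g = G) : IsUnit g.det := by
  have := congrArg Matrix.det h
  rw [Matrix.det_mul, Matrix.det_mul] at this
  exact isUnit_of_mul_isUnit_right (x := gᵀ.det * G.det) (by rw [this]; exact hG)

theorem transpose_mul_form (hG : IsUnit G.det) (h : gᵀ * G * g = G) : gᵀ * G = G * g⁻¹ := by
  conv_rhs => rw [← h]
  rw [Matrix.mul_nonsing_inv_cancel_right _ _ (isUnit_iso hG h)]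

theorem transpose_form_pow {A A' : Matrix ι ι F} (h : Aᵀ * G = G * A') : ∀ k : ℕ, (A ^ k)ᵀ * G = G * A' ^ k
  | 0 => by simp
  | k + 1 => by
    rw [pow_succ, Matrix.transpose_mul, Matrix.mul_assoc, transpose_form_pow h k, ← Matrix.mul_assoc, h,
      Matrix.mul_assoc, ← pow_succ']

/-- Moving a power of `g - δ` across the form. -/
theorem move_pi (hG : IsUnit G.det) (h : gᵀ * G * g = G) (hδ : δ * δ = 1) (k : ℕ) :
    (aeval g ((X - C δ) ^ k))ᵀ * G = G * (((-δ) • g⁻¹) ^ k * aeval g ((X - C δ) ^ k)) := by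
  have hu := isUnit_iso hG h
  have hc : Commute ((-δ) • g⁻¹) (g - δ • (1 : Matrix ι ι F)) := by
    refine Commute.smul_left (Commute.sub_right ?_ (Commute.smul_right (Commute.one_right _) δ)) _
    exact (Matrix.nonsing_inv_mul _ hu).trans (Matrix.mul_nonsing_inv _ hu).symm
  rw [map_pow, aeval_pi, ← hc.mul_pow]
  refine transpose_form_pow ?_ k
  rw [Matrix.transpose_sub, Matrix.sub_mul, Matrix.transpose_smul, Matrix.transpose_one, Matrix.smul_mul,
    Matrix.one_mul, transpose_mul_form hG h, Matrix.smul_mul, Matrix.mul_sub g⁻¹, Matrix.nonsing_inv_mul _ hu,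
    Matrix.mul_smul g⁻¹, Matrix.mul_one, smul_sub, smul_smul, neg_mul, hδ, neg_smul, neg_smul, one_smul]
  rw [sub_neg_eq_add, Matrix.mul_add, Matrix.mul_neg, Matrix.mul_smul, Matrix.mul_one]
  abel

theorem form_pi (hG : IsUnit G.det) (h : gᵀ * G * g = G) (hδ : δ * δ = 1) (k : ℕ) (x y : ι → F) :
    (aeval g ((X - C δ) ^ k) *ᵥ x) ⬝ᵥ (G *ᵥ y) =
      x ⬝ᵥ (G *ᵥ (((-δ) • g⁻¹) ^ k *ᵥ (aeval g ((X - C δ) ^ k) *ᵥ y))) := by
  rw [Matrix.mulVec_mulVec y, Matrix.mulVec_mulVec y, Matrix.dotProduct_mulVec x, ← move_pi hG h hδ k,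
    ← Matrix.vecMul_vecMul, Matrix.vecMul_transpose, ← Matrix.dotProduct_mulVec]

theorem form_zero (hG : IsUnit G.det) (h : gᵀ * G * g = G) (hδ : δ * δ = 1) {k : ℕ} {x : ι → F}
    (hx : aeval g ((X - C δ) ^ k) *ᵥ x = 0) (y : ι → F) :
    x ⬝ᵥ (G *ᵥ (aeval g ((X - C δ) ^ k) *ᵥ y)) = 0 := by
  obtain ⟨W, hW⟩ : ∃ W, W = ((-δ) • g⁻¹) ^ k := ⟨_, rfl⟩
  have hδ0 : δ ≠ 0 := fun e => by rw [e, mul_zero] at hδ; exact zero_ne_one hδ
  have hWu : IsUnit W.det := by
    rw [hW, Matrix.det_pow, Matrix.det_smul]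
    exact (((Ne.isUnit (neg_ne_zero.mpr hδ0)).pow _).mul (Matrix.isUnit_nonsing_inv_det _ (isUnit_iso hG h))).pow _
  have hWg : W * g = g * W := by
    have hu := isUnit_iso hG h
    rw [hW]
    exact (((show Commute g⁻¹ g from (Matrix.nonsing_inv_mul _ hu).trans (Matrix.mul_nonsing_inv _ hu).symm).smul_left
      (-δ)).pow_left k).eq
  have e : y = W *ᵥ (W⁻¹ *ᵥ y) := by rw [Matrix.mulVec_mulVec, Matrix.mul_nonsing_inv _ hWu, Matrix.one_mulVec]
  rw [e, Matrix.mulVec_mulVec _ (aeval g _) W, ← commute_aeval hWg, ← Matrix.mulVec_mulVec, hW, ← form_pi hG h hδ, hx,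
    zero_dotProduct]

theorem aeval_eigen {A : Matrix ι ι F} {y : ι → F} (hy : A *ᵥ y = δ • y) (u : F[X]) :
    aeval A u *ᵥ y = u.eval δ • y := by
  induction u using Polynomial.induction_on' with
  | add p q hp hq => rw [map_add, Matrix.add_mulVec, hp, hq, eval_add, add_smul]
  | monomial n c =>
    rw [aeval_monomial, eval_monomial, Algebra.algebraMap_eq_smul_one, Matrix.smul_mul, Matrix.one_mul,
      Matrix.smul_mulVec, mul_smul]
    congr 1
    induction n with
    | zero => simp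
    | succ n ih => rw [pow_succ, ← Matrix.mulVec_mulVec, hy, Matrix.mulVec_smul, ih, smul_smul, mul_comm, ← pow_succ]

theorem form_eigen (hG : IsUnit G.det) (h : gᵀ * G * g = G) (hδ : δ * δ = 1) {y : ι → F} (hy : g *ᵥ y = δ • y)
    (u : F[X]) (x : ι → F) : (aeval g u *ᵥ x) ⬝ᵥ (G *ᵥ y) = u.eval δ * x ⬝ᵥ (G *ᵥ y) := by
  induction u using Polynomial.induction_on' with
  | add p q hp hq => rw [map_add, Matrix.add_mulVec, add_dotProduct, hp, hq, eval_add, add_mul]
  | monomial n c =>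
    rw [aeval_monomial, eval_monomial, Algebra.algebraMap_eq_smul_one, Matrix.smul_mul, Matrix.one_mul,
      Matrix.smul_mulVec, smul_dotProduct, smul_eq_mul, mul_assoc]
    congr 1
    induction n generalizing x with
    | zero => simp
    | succ n ih =>
      rw [pow_succ', ← Matrix.mulVec_mulVec, ← Matrix.vecMul_transpose, ← Matrix.dotProduct_mulVec,
        Matrix.mulVec_mulVec y, transpose_mul_form hG h, ← Matrix.mulVec_mulVec,
        show g⁻¹ *ᵥ y = δ • y from ?_, Matrix.mulVec_smul, dotProduct_smul, smul_eq_mul, ih, ← mul_assoc, ← pow_succ']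
      conv_lhs => rw [← one_smul F y, ← hδ, ← smul_smul, ← hy, ← Matrix.mulVec_smul, Matrix.mulVec_mulVec,
        Matrix.nonsing_inv_mul _ (isUnit_iso hG h), Matrix.one_mulVec]

variable {m : ℕ} {p : Fin m → F[X]} {e : Fin m → ℕ} {b : Fin m → ι → F}

/-- The form induced on the layer `c` at `δ`. -/
noncomputable def layer (g G : Matrix ι ι F) (p : Fin m → F[X]) (e : Fin m → ℕ) (b : Fin m → ι → F) (δ : F) (j : ℕ) :
    Matrix {i : Fin m // (p i, e i) = (X - C δ, j)} {i : Fin m // (p i, e i) = (X - C δ, j)} F :=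
  Matrix.of fun a l => b a ⬝ᵥ (G *ᵥ (aeval g ((X - C δ) ^ (j - 1)) *ᵥ b l))

theorem coprime_pi (hp : ∀ i, Irreducible (p i) ∧ (p i).Monic) {l : Fin m} (hl : p l ≠ X - C δ) :
    IsCoprime (p l) (X - C δ) :=
  ((hp l).1.coprime_iff_not_dvd).mpr fun hd => hl
    (eq_of_monic_of_associated (hp l).2 (monic_X_sub_C δ) ((hp l).1.associated_of_dvd (irreducible_X_sub_C δ) hd))

theorem layer_det (hb : IsFrame g p e b) (hp : ∀ i, Irreducible (p i) ∧ (p i).Monic) (he : ∀ i, e i ≠ 0)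
    (hG : IsUnit G.det) (h : gᵀ * G * g = G) (hδ : δ * δ = 1) (j : ℕ) [Finite F] :
    IsUnit (layer g G p e b δ j).det := by
  classical
  refine isUnit_iff_ne_zero.mpr fun hdet => ?_
  obtain ⟨x, hx0, hx⟩ := Matrix.exists_mulVec_eq_zero_iff.mpr hdet
  let U := {i : Fin m // p i = X - C δ}
  let y : (U → F) → ι → F := fun c => ∑ l : U, c l • (aeval g ((X - C δ) ^ (e l - 1)) *ᵥ b l)
  let T : (U → F) → U → F := fun c a => b a ⬝ᵥ (G *ᵥ y c)
  have hy : ∀ c, g *ᵥ y c = δ • y c := fun c => by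
    rw [← sub_eq_zero, ← Matrix.one_mulVec (δ • y c), Matrix.mulVec_smul, ← Matrix.smul_mulVec, ← Matrix.sub_mulVec,
      ← aeval_pi, Matrix.mulVec_sum]
    refine Finset.sum_eq_zero fun l _ => ?_
    rw [Matrix.mulVec_smul, Matrix.mulVec_mulVec, ← map_mul, ← pow_succ', Nat.sub_add_cancel (Nat.pos_of_ne_zero (he _)),
      hb.kill l.1 (by rw [l.2]), smul_zero]
  have hTinj : Function.Injective T := by
    intro c c' hcc
    obtain ⟨d, hd⟩ : ∃ d, d = c - c' := ⟨_, rfl⟩
    have hyd : y d = y c - y c' := by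
      rw [hd]; simp only [y, Pi.sub_apply, sub_smul, Finset.sum_sub_distrib]
    have hTd : ∀ a : U, b a ⬝ᵥ (G *ᵥ y d) = 0 := fun a => by
      rw [hyd, Matrix.mulVec_sub, dotProduct_sub]; exact sub_eq_zero.mpr (congrFun hcc a)
    have hall : ∀ v, v ⬝ᵥ (G *ᵥ y d) = 0 := fun v => by
      obtain ⟨u, rfl⟩ := hb.span v
      rw [com, sum_dotProduct]
      refine Finset.sum_eq_zero fun a _ => ?_
      rw [form_eigen hG h hδ (hy d)]
      by_cases ha : p a = X - C δ
      · rw [hTd ⟨a, ha⟩, mul_zero]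
      · obtain ⟨s, t, hst⟩ := (coprime_pi hp ha).pow_left (m := e a)
        have e1 : b a = aeval g ((X - C δ) ^ 1) *ᵥ (aeval g t *ᵥ b a) := by
          rw [Matrix.mulVec_mulVec, ← map_mul, pow_one, mul_comm]
          conv_lhs => rw [← Matrix.one_mulVec (b a), ← map_one (aeval (R := F) g), ← hst, map_add, Matrix.add_mulVec,
            hb.kill a (dvd_mul_left _ s), zero_add]
        rw [e1, form_pi hG h hδ, pow_one (X - C δ), aeval_pi, Matrix.sub_mulVec, hy, Matrix.smul_mulVec,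
          Matrix.one_mulVec, sub_self, Matrix.mulVec_zero, Matrix.mulVec_zero, dotProduct_zero, mul_zero]
    have hy0 : y d = 0 := by
      by_contra hne
      refine hG.ne_zero (Matrix.exists_mulVec_eq_zero_iff.mp ⟨y d, hne, funext fun i => ?_⟩)
      simpa using hall (Pi.single i 1)
    have hu := (hb.rel (fun i => if hi : p i = X - C δ then C (d ⟨i, hi⟩) * (X - C δ) ^ (e i - 1) else 0)).mp (by
      rw [← hy0, com, ← Finset.sum_subset (Finset.subset_univ (Finset.univ.filter fun i => p i = X - C δ))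
        (fun i _ hi => by rw [dif_neg (by simpa using hi), map_zero, Matrix.zero_mulVec]),
        Finset.sum_subtype (p := fun i => p i = X - C δ) _ (by simp)]
      refine Finset.sum_congr rfl fun l _ => ?_
      rw [dif_pos l.2, map_mul, ← Matrix.mulVec_mulVec, aeval_C, Algebra.algebraMap_eq_smul_one, Matrix.smul_mulVec,
        Matrix.one_mulVec])
    refine sub_eq_zero.mp (hd ▸ funext fun l => ?_)
    have hl := hu l.1
    rw [dif_pos l.2, l.2] at hl
    nth_rw 1 [show e l.1 = 1 + (e l.1 - 1) from (Nat.add_sub_cancel' (Nat.pos_of_ne_zero (he _))).symm] at hl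
    rw [pow_add, pow_one, mul_dvd_mul_iff_right (pow_ne_zero _ (X_sub_C_ne_zero δ)), dvd_iff_isRoot, IsRoot, eval_C] at hl
    exact hl
  have hTsurj : ∀ t, Set.SurjOn T {c : U → F | ∀ l, e l.1 < t → c l = 0} {c : U → F | ∀ l, e l.1 < t → c l = 0} := by
    intro t
    have hmaps : Set.MapsTo T {c : U → F | ∀ l, e l.1 < t → c l = 0} {c : U → F | ∀ l, e l.1 < t → c l = 0} := by
      intro c hc a ha
      show b a ⬝ᵥ (G *ᵥ y c) = 0
      rw [Matrix.mulVec_sum, dotProduct_sum]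
      refine Finset.sum_eq_zero fun l _ => ?_
      rcases lt_or_ge (e l.1) t with hl | hl
      · rw [hc l hl, zero_smul, Matrix.mulVec_zero, dotProduct_zero]
      · rw [Matrix.mulVec_smul, dotProduct_smul, form_zero hG h hδ (hb.kill a.1 ?_), smul_zero]
        rw [a.2]
        exact pow_dvd_pow _ (by omega)
    exact ((hmaps.restrict_inj.mpr hTinj.injOn |> Finite.injective_iff_surjective.mp) |> hmaps.restrict_surjective_iff.mp)
  have hxU : ∀ a : {i : Fin m // (p i, e i) = (X - C δ, j)}, p a.1 = X - C δ ∧ e a.1 = j := fun a => Prod.mk.inj a.2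
  let c : U → F := fun l => if hl : e l.1 = j then x ⟨l.1, by rw [l.2, hl]⟩ else 0
  have hTc : ∀ a : U, e a.1 < j + 1 → T c a = 0 := fun a ha => by
    show b a ⬝ᵥ (G *ᵥ y c) = 0
    rw [Matrix.mulVec_sum, dotProduct_sum]
    rcases lt_or_eq_of_le (Nat.le_of_lt_succ ha) with ha' | ha'
    · refine Finset.sum_eq_zero fun l _ => ?_
      rw [Matrix.mulVec_smul, dotProduct_smul]
      by_cases hl : e l.1 = j
      · rw [form_zero hG h hδ (hb.kill a.1 (by rw [a.2]; exact pow_dvd_pow _ (by omega))), smul_zero]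
      · simp only [c, dif_neg hl, zero_smul]
    · have hsum := congrFun hx ⟨a.1, by rw [a.2, ha']⟩
      rw [Pi.zero_apply] at hsum
      rw [← hsum]
      simp only [Matrix.mulVec, dotProduct, layer, Matrix.of_apply]
      symm
      refine Finset.sum_of_injOn (fun l => (⟨l.1, (hxU l).1⟩ : U))
        (fun a _ b _ hab => Subtype.ext (congrArg (fun z : U => z.1) hab))
        (fun _ _ => Finset.mem_coe.mpr (Finset.mem_univ _)) (fun l _ hl => ?_) (fun l _ => ?_)
      · have : e l.1 ≠ j := fun hj => hl ⟨⟨l.1, by rw [l.2, hj]⟩, Finset.mem_coe.mpr (Finset.mem_univ _), rfl⟩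
        simp only [c, dif_neg this, zero_smul]
        simp [Matrix.mulVec, dotProduct]
      · simp only [c, dif_pos (hxU l).2, (hxU l).2, Matrix.mulVec, dotProduct, Pi.smul_apply, smul_eq_mul, Finset.mul_sum,
          Finset.sum_mul]
        exact Finset.sum_congr rfl fun i _ => Finset.sum_congr rfl fun k _ => Finset.sum_congr rfl fun _ _ => by ring
  obtain ⟨c', hc', hcc'⟩ := hTsurj (j + 1) (show T c ∈ {c : U → F | ∀ l, e l.1 < j + 1 → c l = 0} from hTc)
  obtain rfl := hTinj hcc'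
  refine hx0 (funext fun l => ?_)
  have := hc' ⟨l.1, (hxU l).1⟩ (by show e l.1 < j + 1; rw [(hxU l).2]; exact Nat.lt_succ_self j)
  simp only [c, dif_pos (hxU l).2] at this
  exact this

theorem layer_transpose (hb : IsFrame g p e b) (he : ∀ i, e i ≠ 0) (hG : IsUnit G.det) (h : gᵀ * G * g = G)
    (hδ : δ * δ = 1) {ε : F} (hε : Gᵀ = ε • G) (j : ℕ) :
    (layer g G p e b δ j)ᵀ = (ε * (-1) ^ (j - 1)) • layer g G p e b δ j := by
  ext a l
  obtain ⟨hl, hlj⟩ := Prod.mk.inj l.2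
  have hj : j ≠ 0 := hlj ▸ he _
  simp only [Matrix.transpose_apply, Matrix.smul_apply, layer, Matrix.of_apply, smul_eq_mul]
  obtain ⟨z, hz⟩ : ∃ z, z = aeval g ((X - C δ) ^ (j - 1)) *ᵥ b l := ⟨_, rfl⟩
  have hsw : ∀ x y : ι → F, x ⬝ᵥ (G *ᵥ y) = ε * y ⬝ᵥ (G *ᵥ x) := fun x y => by
    rw [Matrix.dotProduct_mulVec, ← Matrix.mulVec_transpose, hε, Matrix.smul_mulVec, smul_dotProduct, smul_eq_mul,
      dotProduct_comm]
  rw [hsw, ← hz]
  have hgz : g *ᵥ z = δ • z := by
    rw [← sub_eq_zero, ← Matrix.one_mulVec (δ • z), Matrix.mulVec_smul, ← Matrix.smul_mulVec, ← Matrix.sub_mulVec,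
      ← aeval_pi, hz, Matrix.mulVec_mulVec, ← map_mul, ← pow_succ', Nat.sub_add_cancel (Nat.pos_of_ne_zero hj),
      hb.kill l.1 (by rw [hl, hlj])]
  rw [form_pi hG h hδ, ← hz, mul_assoc]
  congr 1
  have e1 : ((-δ) • g⁻¹) *ᵥ z = (-1 : F) • z := by
    rw [Matrix.smul_mulVec, show g⁻¹ *ᵥ z = δ • z from ?_, smul_smul, neg_mul, hδ]
    conv_lhs => rw [← one_smul F z, ← hδ, ← smul_smul, ← hgz, ← Matrix.mulVec_smul, Matrix.mulVec_mulVec,
      Matrix.nonsing_inv_mul _ (isUnit_iso hG h), Matrix.one_mulVec]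
  have e2 : ∀ k : ℕ, (((-δ) • g⁻¹) ^ k) *ᵥ z = (-1 : F) ^ k • z := fun k => by
    induction k with
    | zero => simp
    | succ k ih => rw [pow_succ, ← Matrix.mulVec_mulVec, e1, Matrix.mulVec_smul, ih, smul_smul, pow_succ, mul_comm]
  rw [e2, Matrix.mulVec_smul, dotProduct_smul, smul_eq_mul]

/-- Constant coefficients of a commuting matrix seen through the layer form. -/
theorem layer_pairing (hb : IsFrame g p e b) (hp : ∀ i, Irreducible (p i) ∧ (p i).Monic)
    (hG : IsUnit G.det) (h : gᵀ * G * g = G) (hδ : δ * δ = 1) {A : Matrix ι ι F} (hA : A * g = g * A) (j : ℕ)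
    (a i : {i : Fin m // (p i, e i) = (X - C δ, j)}) {u : Fin m → F[X]} (hu : A *ᵥ b i = com g b u) :
    b a ⬝ᵥ (G *ᵥ (A *ᵥ (aeval g ((X - C δ) ^ (j - 1)) *ᵥ b i))) =
      (layer g G p e b δ j *ᵥ fun l => (u l.1).eval δ) a := by
  classical
  obtain ⟨hi, hij⟩ := Prod.mk.inj i.2
  obtain ⟨ha, haj⟩ := Prod.mk.inj a.2
  have hkill : ∀ l, p l ^ e l ∣ (X - C δ) ^ j * u l := (hb.rel _).mp (by
    rw [com_mul, ← hu, Matrix.mulVec_mulVec, ← commute_aeval hA, ← Matrix.mulVec_mulVec,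
      hb.kill i.1 (by rw [hi, hij]), Matrix.mulVec_zero])
  rw [Matrix.mulVec_mulVec _ A, commute_aeval hA, ← Matrix.mulVec_mulVec, hu, com, Matrix.mulVec_sum, Matrix.mulVec_sum,
    dotProduct_sum, ← Finset.sum_subset (Finset.subset_univ (Finset.univ.filter fun l => (p l, e l) = (X - C δ, j)))
      (fun l _ hl => ?_), Finset.sum_subtype (p := fun l => (p l, e l) = (X - C δ, j)) _ (by simp)]
  · refine Finset.sum_congr rfl fun l _ => ?_
    obtain ⟨hl, hlj⟩ := Prod.mk.inj l.2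
    obtain ⟨r, hr⟩ : X - C δ ∣ u l.1 - C ((u l.1).eval δ) := X_sub_C_dvd_sub_C_eval
    simp only [layer, Matrix.of_apply]
    rw [Matrix.mulVec_mulVec (b l.1), ← map_mul, eq_add_of_sub_eq hr, mul_add, map_add, Matrix.add_mulVec]
    rw [hb.kill l.1 (r := (X - C δ) ^ (j - 1) * ((X - C δ) * r)) (by
      rw [hl, hlj, ← mul_assoc, ← pow_succ]; exact Dvd.dvd.mul_right (pow_dvd_pow _ (by omega)) r), zero_add,
      map_mul, aeval_C, Algebra.algebraMap_eq_smul_one, Matrix.mul_smul, Matrix.mul_one,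
      Matrix.smul_mulVec, Matrix.mulVec_smul, dotProduct_smul, smul_eq_mul, mul_comm]
    rw [eval_add, eval_mul, eval_sub, eval_X, eval_C, sub_self, zero_mul, zero_add, eval_C]
  · have hne : ¬ (p l = X - C δ ∧ e l = j) := fun hh => (Finset.mem_filter.not.mp hl) ⟨Finset.mem_univ _, Prod.ext hh.1 hh.2⟩
    rw [Matrix.mulVec_mulVec (b l), ← map_mul]
    by_cases hpl : p l = X - C δ
    · rcases lt_or_gt_of_ne (fun hh => hne ⟨hpl, hh⟩) with hlt | hgt
      · rw [hb.kill l (by rw [hpl]; exact Dvd.dvd.mul_right (pow_dvd_pow _ (by omega)) _), Matrix.mulVec_zero,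
          dotProduct_zero]
      · have h1 := hkill l
        rw [hpl, show e l = j + (e l - j) by omega, pow_add, mul_dvd_mul_iff_left (pow_ne_zero _ (X_sub_C_ne_zero δ))] at h1
        obtain ⟨v, hv⟩ := h1
        rw [hv, ← mul_assoc, ← pow_add, map_mul, ← Matrix.mulVec_mulVec, form_zero hG h hδ (hb.kill a.1 ?_)]
        rw [ha, haj]; exact pow_dvd_pow _ (by omega)
    · rw [hb.kill l (Dvd.dvd.mul_left ((((coprime_pi hp hpl).pow (m := e l) (n := j))).dvd_of_dvd_mul_left (hkill l)) _),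
        Matrix.mulVec_zero, dotProduct_zero]

end CfsgLib.SignedClasses
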