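import Cfsg.Agent.SignedClasses.Key
import Cfsg.Agent.SignedClasses.Congr
import Cfsg.Agent.SympSemiCount.Companion

/-!
Characteristic polynomials realised in even-dimensional orthogonal groups, odd characteristic.
-/

set_option autoImplicit false

namespace CfsgLib.SignedClasses

open Polynomial Matrix CfsgLib.SympSemiCount
open scoped Classical

variable {F : Type*} [Field F]

/-- `X^n P(X + 1/X)`. -/
noncomputable def plift (n : ℕ) (P : F[X]) : F[X] := lift n fun i => P.coeff i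

theorem plift_add (n : ℕ) (P P' : F[X]) : plift n (P + P') = plift n P + plift n P' := by
  simp only [plift, lift, coeff_add, map_add, add_mul, Finset.sum_add_distrib]

theorem plift_sub (n : ℕ) (P P' : F[X]) : plift n (P - P') = plift n P - plift n P' := by
  simp only [plift, lift, coeff_sub, map_sub, sub_mul, Finset.sum_sub_distrib]

theorem plift_monomial {n i : ℕ} (hi : i ≤ n) (c : F) :
    plift n (C c * X ^ i) = C c * (X ^ (n - i) * (X ^ 2 + 1) ^ i) := by
  rw [plift, lift, Finset.sum_eq_single (⟨i, Nat.lt_succ_of_le hi⟩ : Fin (n + 1))]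
  · rw [coeff_C_mul, coeff_X_pow, if_pos rfl, mul_one]
  · intro j _ hj
    rw [coeff_C_mul, coeff_X_pow, if_neg fun h => hj (Fin.ext h), mul_zero, C_0, zero_mul]
  · exact fun h => absurd (Finset.mem_univ _) h

theorem plift_mul_linear (n : ℕ) (a : F) (P : F[X]) (hP : P.natDegree ≤ n) :
    plift (n + 1) ((X - C a) * P) = (X ^ 2 + 1 - C a * X) * plift n P := by
  refine induction_with_natDegree_le (fun P => plift (n + 1) ((X - C a) * P) = (X ^ 2 + 1 - C a * X) * plift n P) n
    (by simp [plift, lift]) (fun i c _ hi => ?_) (fun p p' _ _ hp hp' => ?_) P hP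
  · rw [show (X - C a) * (C c * X ^ i) = C c * X ^ (i + 1) - C (a * c) * X ^ i by rw [C_mul]; ring, plift_sub,
      plift_monomial (Nat.succ_le_succ hi), plift_monomial (Nat.le_succ_of_le hi), plift_monomial hi, C_mul,
      Nat.succ_sub_succ, Nat.succ_sub hi]
    simp only [Nat.succ_eq_add_one, pow_succ]
    ring
  · rw [mul_add, plift_add, hp, hp', plift_add, mul_add]

theorem eval_plift (n : ℕ) (P : F[X]) (hP : P.natDegree ≤ n) {δ : F} (hδ : δ * δ = 1) :
    (plift n P).eval δ = δ ^ n * P.eval (2 * δ) := by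
  refine induction_with_natDegree_le (fun P => (plift n P).eval δ = δ ^ n * P.eval (2 * δ)) n
    (by simp [plift, lift]) (fun i c _ hi => ?_) (fun p p' _ _ hp hp' => ?_) P hP
  · rw [plift_monomial hi, eval_mul, eval_mul, eval_pow, eval_pow, eval_add, eval_pow, eval_X, eval_C, eval_one,
      eval_mul, eval_C, eval_pow, eval_X, sq, hδ]
    have : δ ^ n * (2 * δ) ^ i = δ ^ (n - i) * (1 + 1) ^ i := by
      conv_lhs => rw [show n = (n - i) + i by omega, pow_add, mul_assoc, ← mul_pow,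
        show δ * (2 * δ) = 1 + 1 by linear_combination 2 * hδ]
    rw [← mul_assoc (δ ^ n), mul_comm (δ ^ n) c, mul_assoc, this]
  · rw [plift_add, eval_add, hp, hp', eval_add, mul_add]

/-- A pair of a symmetric form and an isometry of it with given characteristic polynomial. -/
def IsModel {ι : Type*} [Fintype ι] [DecidableEq ι] (g H : Matrix ι ι F) (f : F[X]) : Prop :=
  IsUnit H.det ∧ Hᵀ = H ∧ gᵀ * H * g = H ∧ g.charpoly = f

theorem model_trick (n : ℕ) (P : F[X]) (hPm : P.Monic) (hPd : P.natDegree = n)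
    (h : P.eval 2 * P.eval (-2) ≠ 0) :
    ∃ g H : Matrix (Fin n ⊕ Fin n) (Fin n ⊕ Fin n) F, IsModel g H (plift n P) ∧
      H.det = (-1) ^ n * (P.eval 2 * P.eval (-2)) := by
  obtain ⟨g, hg⟩ := exists_symp_charpoly n (fun i => P.coeff i) (by rw [Fin.val_last, ← hPd]; exact hPm.coeff_natDegree)
  obtain ⟨J, hJ⟩ : ∃ J, J = Matrix.J (Fin n) F := ⟨_, rfl⟩
  have hgJ : g.1ᵀ * J * g.1 = J := hJ ▸ SymplecticGroup.mem_iff'.mp g.2
  have hJt : Jᵀ = -J := hJ ▸ Matrix.J_transpose (Fin n) F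
  have hJd : J.det = 1 := hJ ▸ SymplecticGroup.det_eq_one (SymplecticGroup.J_mem (Fin n) F)
  have hdg : g.1.det = 1 := SymplecticGroup.det_eq_one g.2
  have hu : IsUnit g.1.det := by rw [hdg]; exact isUnit_one
  have hmove : g.1ᵀ * J = J * g.1⁻¹ := transpose_mul_form (by rw [hJd]; exact isUnit_one) hgJ
  have hdet : (g.1 - g.1⁻¹).det = (-1) ^ n * (P.eval 2 * P.eval (-2)) := by
    have h1 : (g.1 - g.1⁻¹).det = (g.1 * g.1 - 1).det := by
      rw [← Matrix.mul_nonsing_inv _ hu, ← Matrix.mul_sub, Matrix.det_mul, hdg, one_mul]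
    have h2 : g.1 * g.1 - 1 = (Matrix.scalar _ (1 : F) - g.1) * (Matrix.scalar _ (-1 : F) - g.1) := by
      rw [map_one, map_neg, map_one]; noncomm_ring
    rw [h1, h2, Matrix.det_mul, ← Matrix.eval_charpoly, ← Matrix.eval_charpoly, hg]
    show (plift n P).eval 1 * (plift n P).eval (-1) = _
    rw [eval_plift n P hPd.le (one_mul 1), eval_plift n P hPd.le (show (-1 : F) * -1 = 1 by ring)]
    ring_nf
  refine ⟨g.1, J * (g.1 - g.1⁻¹), ⟨?_, ?_, ?_, hg⟩, by rw [Matrix.det_mul, hJd, one_mul, hdet]⟩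
  · rw [Matrix.det_mul, hJd, one_mul, hdet, isUnit_iff_ne_zero]
    exact mul_ne_zero (pow_ne_zero _ (neg_ne_zero.mpr one_ne_zero)) h
  · have h3 : (g.1⁻¹)ᵀ * J = J * g.1 := by
      conv_lhs => rw [← hgJ]
      rw [← Matrix.mul_assoc, ← Matrix.mul_assoc, ← Matrix.transpose_mul, Matrix.mul_nonsing_inv _ hu,
        Matrix.transpose_one, Matrix.one_mul]
    rw [Matrix.transpose_mul, Matrix.transpose_sub, hJt, Matrix.mul_neg, Matrix.sub_mul, hmove, h3, Matrix.mul_sub, neg_sub]
  · rw [← Matrix.mul_assoc g.1ᵀ, hmove, Matrix.mul_assoc, Matrix.sub_mul, Matrix.nonsing_inv_mul _ hu, Matrix.mul_assoc]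
    congr 1
    rw [Matrix.mul_sub, Matrix.mul_one, Matrix.nonsing_inv_mul_cancel_left _ _ hu]

theorem model_reindex {ι κ : Type*} [Fintype ι] [DecidableEq ι] [Fintype κ] [DecidableEq κ] (e : ι ≃ κ) {g H : Matrix ι ι F}
    {f : F[X]} (h : IsModel g H f) : IsModel (Matrix.reindex e e g) (Matrix.reindex e e H) f := by
  obtain ⟨h1, h2, h3, h4⟩ := h
  refine ⟨by rwa [Matrix.det_reindex_self], by rw [Matrix.transpose_reindex, h2], ?_, by rw [Matrix.charpoly_reindex, h4]⟩
  simp only [Matrix.reindex_apply, Matrix.transpose_submatrix, Matrix.submatrix_mul_equiv, h3]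

theorem model_block {ι : Type*} [Fintype ι] [DecidableEq ι] {g H : Matrix ι ι F} {f : F[X]} (h : IsModel g H f) {δ : F}
    (hδ : δ * δ = 1) {t : F} (ht : t ≠ 0) :
    IsModel (Matrix.fromBlocks g 0 0 (δ • (1 : Matrix (Fin 2) (Fin 2) F))) (Matrix.fromBlocks H 0 0 (Matrix.diagonal ![1, t]))
        ((X - C δ) ^ 2 * f) ∧
      (Matrix.fromBlocks H 0 0 (Matrix.diagonal ![1, t])).det = H.det * t := by
  obtain ⟨h1, h2, h3, h4⟩ := h
  have hdet : (Matrix.fromBlocks H 0 0 (Matrix.diagonal ![1, t])).det = H.det * t := by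
    rw [Matrix.det_fromBlocks_zero₁₂, Matrix.det_diagonal, Fin.prod_univ_two]; simp
  refine ⟨⟨by rw [hdet]; exact h1.mul ht.isUnit, ?_, ?_, ?_⟩, hdet⟩
  · rw [Matrix.fromBlocks_transpose, h2, Matrix.transpose_zero, Matrix.transpose_zero, Matrix.diagonal_transpose]
  · rw [Matrix.fromBlocks_transpose, Matrix.fromBlocks_multiply, Matrix.fromBlocks_multiply]
    simp [h3, smul_smul, hδ]
  · rw [Matrix.charpoly_fromBlocks_zero₁₂, h4, mul_comm, smul_one_eq_diagonal, Matrix.charpoly_diagonal,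
      Fin.prod_univ_two, sq]

theorem exists_model : ∀ (n : ℕ) (P : F[X]), P.Monic → P.natDegree = n →
    ∃ g H : Matrix (Fin (n + n)) (Fin (n + n)) F, IsModel g H (plift n P) ∧
      (P.eval 2 * P.eval (-2) ≠ 0 → H.det = (-1) ^ n * (P.eval 2 * P.eval (-2))) ∧
      (P.eval 2 * P.eval (-2) = 0 → ∀ d : F, d ≠ 0 →
        ∃ g H : Matrix (Fin (n + n)) (Fin (n + n)) F, IsModel g H (plift n P) ∧ IsSquare (H.det * d)) := by
  intro n
  induction n with
  | zero =>
    intro P hPm hPd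
    obtain rfl : P = 1 := hPm.natDegree_eq_zero.mp hPd
    refine ⟨1, 1, ⟨by rw [Matrix.det_one]; exact isUnit_one, by simp, by simp, ?_⟩, fun _ => by simp, fun h => by simp at h⟩
    simp [plift, lift, Matrix.charpoly]
  | succ n ih =>
    intro P hPm hPd
    by_cases h : P.eval 2 * P.eval (-2) = 0
    · obtain ⟨δ, hδ, hroot⟩ : ∃ δ : F, δ * δ = 1 ∧ P.eval (2 * δ) = 0 := by
        rcases mul_eq_zero.mp h with h | h
        · exact ⟨1, one_mul 1, by rwa [mul_one]⟩
        · exact ⟨-1, by ring, by rwa [mul_neg_one]⟩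
      obtain ⟨P', hP'⟩ := dvd_iff_isRoot.mpr (show P.IsRoot (2 * δ) from hroot)
      have hP'm : P'.Monic := (monic_X_sub_C _).of_mul_monic_left (hP' ▸ hPm)
      have hP'd : P'.natDegree = n := by
        rw [hP', (monic_X_sub_C _).natDegree_mul hP'm, natDegree_X_sub_C] at hPd; omega
      obtain ⟨g, H, hgH, -⟩ := ih P' hP'm hP'd
      have hf : plift (n + 1) P = (X - C δ) ^ 2 * plift n P' := by
        rw [hP', plift_mul_linear n _ P' hP'd.le]
        congr 1
        have hC : (C δ : F[X]) * C δ = 1 := by rw [← C_mul, hδ, C_1]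
        rw [C_mul, C_ofNat]
        linear_combination (-1 : F[X]) * hC
      let e : Fin (n + n) ⊕ Fin 2 ≃ Fin (n + 1 + (n + 1)) := finSumFinEquiv.trans (finCongr (by omega))
      have hall : ∀ d : F, d ≠ 0 → ∃ g H : Matrix (Fin (n + 1 + (n + 1))) (Fin (n + 1 + (n + 1))) F,
          IsModel g H (plift (n + 1) P) ∧ IsSquare (H.det * d) := fun d hd => by
        obtain ⟨hm, hdet⟩ := model_block hgH hδ (t := d * H.det) (mul_ne_zero hd hgH.1.ne_zero)
        refine ⟨_, _, hf ▸ model_reindex e hm, ?_⟩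
        rw [Matrix.det_reindex_self, hdet]
        exact ⟨H.det * d, by ring⟩
      obtain ⟨g', H', h', -⟩ := hall 1 one_ne_zero
      exact ⟨g', H', h', fun hne => absurd h hne, fun _ => hall⟩
    · obtain ⟨g, H, hgH, hd⟩ := model_trick (n + 1) P hPm hPd h
      refine ⟨_, _, model_reindex finSumFinEquiv hgH, fun _ => ?_, fun h' => absurd h' h⟩
      rw [Matrix.det_reindex_self, hd]

theorem charpoly_eq_of_isConj {n : ℕ} {G : Matrix (Fin n) (Fin n) F} {a b : isoGroup G} (h : IsConj a b) :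
    a.1.1.charpoly = b.1.1.charpoly := by
  obtain ⟨u, rfl⟩ := isConj_iff.mp h
  rw [← Matrix.charpoly_units_conj u.1 a.1.1, ← Matrix.coe_units_inv]
  rfl

/-- At least half of the palindromic polynomials occur in each even-dimensional orthogonal group. -/
theorem card_classes_ge [Fintype F] (h2 : (2 : F) ≠ 0) {n : ℕ} (hn : 2 ≤ n) (G : Matrix (Fin (n + n)) (Fin (n + n)) F)
    (hG : IsUnit G.det) (hs : Gᵀ = G) : Fintype.card F ^ n ≤ 2 * Nat.card (ConjClasses (isoGroup G)) := by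
  obtain ⟨Pc, hPc⟩ : ∃ Pc : (Fin n → F) → F[X], Pc = fun c => X ^ n + ∑ i : Fin n, C (c i) * X ^ (i : ℕ) := ⟨_, rfl⟩
  have hlow : ∀ c : Fin n → F, (∑ i : Fin n, C (c i) * X ^ (i : ℕ)).degree < (n : WithBot ℕ) := fun c =>
    lt_of_le_of_lt (degree_sum_le _ _) ((Finset.sup_lt_iff (WithBot.bot_lt_coe n)).mpr fun i _ =>
      lt_of_le_of_lt (degree_C_mul_X_pow_le _ _) (WithBot.coe_lt_coe.mpr i.2))
  have hPm : ∀ c, (Pc c).Monic := fun c => by rw [hPc]; exact monic_X_pow_add (hlow c)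
  have hPd : ∀ c, (Pc c).natDegree = n := fun c => by
    refine natDegree_eq_of_degree_eq_some ?_
    rw [hPc]
    dsimp only
    rw [degree_add_eq_left_of_degree_lt] <;> rw [degree_X_pow]
    exact hlow c
  have hco : ∀ c (i : Fin n), (Pc c).coeff i = c i := fun c i => by
    rw [hPc]
    dsimp only
    rw [coeff_add, coeff_X_pow, if_neg i.2.ne, zero_add, finsetSum_coeff]
    simp [coeff_C_mul, coeff_X_pow, Fin.val_inj]
  obtain ⟨A, hA⟩ : ∃ A : F → (Fin n → F) → F, A = fun s c => (Pc c).eval s := ⟨_, rfl⟩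
  let Good := {c : Fin n → F // IsSquare ((-1) ^ n * (A 2 c * A (-2) c) * G.det)}
  have hreal : ∀ c : Good, ∃ C : ConjClasses (isoGroup G), ∀ a : isoGroup G, ConjClasses.mk a = C →
      a.1.1.charpoly = plift n (Pc c.1) := fun c => by
    obtain ⟨g, H, hm, h1, h3⟩ := exists_model n (Pc c.1) (hPm c.1) (hPd c.1)
    obtain ⟨g', H', hm', hsq⟩ : ∃ g H : Matrix (Fin (n + n)) (Fin (n + n)) F, IsModel g H (plift n (Pc c.1)) ∧
        IsSquare (H.det * G.det) := by
      have hc := c.2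
      simp only [hA] at hc
      by_cases h : (Pc c.1).eval 2 * (Pc c.1).eval (-2) = 0
      · exact h3 h _ hG.ne_zero
      · exact ⟨g, H, hm, by rw [h1 h]; exact hc⟩
    obtain ⟨hu, hs', hg', hf⟩ := hm'
    obtain ⟨R, hR, hRH⟩ := congr_symm h2 hs' hu hs hG hsq
    obtain ⟨u, hu1⟩ : ∃ u : GL (Fin (n + n)) F, u.1 = R := ⟨((Matrix.isUnit_iff_isUnit_det R).mpr hR).unit, rfl⟩
    have hgu : IsUnit g' := (Matrix.isUnit_iff_isUnit_det g').mpr (isUnit_iso hu hg')
    have hmem : u⁻¹ * hgu.unit * u ∈ isoGroup G := by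
      rw [mem_isoGroup, ← hRH, ← hu1]
      calc (u⁻¹.1 * g' * u.1)ᵀ * (u.1ᵀ * H' * u.1) * (u⁻¹.1 * g' * u.1)
          = u.1ᵀ * g'ᵀ * ((u.1 * u⁻¹.1)ᵀ * H' * (u.1 * u⁻¹.1)) * g' * u.1 := by
            simp only [Matrix.transpose_mul, Matrix.mul_assoc]
        _ = u.1ᵀ * (g'ᵀ * H' * g') * u.1 := by
            rw [Units.mul_inv, Matrix.transpose_one, Matrix.one_mul, Matrix.mul_one]; simp only [Matrix.mul_assoc]
        _ = _ := by rw [hg']
    refine ⟨ConjClasses.mk ⟨_, hmem⟩, fun a ha => (charpoly_eq_of_isConj (ConjClasses.mk_eq_mk_iff_isConj.mp ha)).trans ?_⟩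
    rw [← hf]
    rw [← Matrix.charpoly_units_conj' u g', ← Matrix.coe_units_inv]
    rfl
  choose C hC using hreal
  have hinj : Function.Injective C := fun c d h => by
    obtain ⟨a, ha⟩ := ConjClasses.exists_rep (C c)
    have h1 := lift_injective n ((hC c a ha).symm.trans (hC d a (ha.trans h)))
    refine Subtype.ext (funext fun i => ?_)
    have h2 := congrFun h1 i.castSucc
    simp only [Fin.val_castSucc] at h2
    rwa [hco, hco] at h2
  refine le_trans ?_ (Nat.mul_le_mul_left 2 (Nat.card_le_card_of_injective C hinj))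
  obtain ⟨ν, hν⟩ := FiniteField.exists_nonsquare (F := F) fun hc => h2 (by
    exact_mod_cast (ringChar.spec F 2).mpr (dvd_of_eq hc))
  let Bad := {c : Fin n → F // ¬ IsSquare ((-1) ^ n * (A 2 c * A (-2) c) * G.det)}
  let i0 : Fin n := ⟨0, by omega⟩
  let i1 : Fin n := ⟨1, by omega⟩
  let d : (Fin n → F) → Fin n → F := fun c => Pi.single i0 ((ν - 1) * A 2 c / 2) + Pi.single i1 ((ν - 1) * A 2 c / 4)
  have h01 : i1 ≠ i0 := fun h => one_ne_zero (congrArg Fin.val h)
  have hshift : ∀ c s, A s (c + d c) = A s c + ((ν - 1) * A 2 c / 2 + (ν - 1) * A 2 c / 4 * s) := fun c s => by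
    simp only [hA, hPc, Pi.add_apply, map_add, add_mul, Finset.sum_add_distrib, eval_add]
    simp only [eval_finsetSum, eval_mul, eval_C, eval_pow, eval_X, d, Pi.add_apply, add_mul, Finset.sum_add_distrib]
    have hone : ∀ (i : Fin n) (v : F), ∑ x : Fin n, Pi.single (M := fun _ => F) i v x * s ^ (x : ℕ) = v * s ^ (i : ℕ) := fun i v => by
      rw [Finset.sum_eq_single i (fun j _ hj => by rw [Pi.single_eq_of_ne hj, zero_mul]) (by simp), Pi.single_eq_same]
    rw [hone, hone, show ((i0 : Fin n) : ℕ) = 0 from rfl, show ((i1 : Fin n) : ℕ) = 1 from rfl, pow_zero, pow_one, mul_one]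
    simp only [hA, hPc, eval_add, eval_finsetSum, eval_mul, eval_C, eval_pow, eval_X]
    ring
  have h4 : (4 : F) ≠ 0 := by rw [show (4 : F) = 2 * 2 by norm_num]; exact mul_ne_zero h2 h2
  have hsh2 : ∀ c, A 2 (c + d c) = ν * A 2 c ∧ A (-2) (c + d c) = A (-2) c := fun c => by
    rw [hshift, hshift]; constructor <;> field_simp <;> ring
  let Φ : Bad → Good := fun c => ⟨c.1 + d c.1, by
    rw [(hsh2 _).1, (hsh2 _).2]
    by_cases h : (-1) ^ n * (A 2 c.1 * A (-2) c.1) * G.det = 0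
    · exact absurd (by rw [h]; exact IsSquare.zero) c.2
    rw [show (-1) ^ n * (ν * A 2 c.1 * A (-2) c.1) * G.det = ν * ((-1) ^ n * (A 2 c.1 * A (-2) c.1) * G.det) by ring,
      isSquare_mul_nonsquare h hν]
    exact c.2⟩
  have hΦ : Function.Injective Φ := fun a b h => by
    have h' : a.1 + d a.1 = b.1 + d b.1 := congrArg Subtype.val h
    have hA2 : A 2 a.1 = A 2 b.1 := mul_left_cancel₀ (show ν ≠ 0 from fun e => hν (e ▸ IsSquare.zero))
      (by rw [← (hsh2 a.1).1, h', (hsh2 b.1).1])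
    have hd : d a.1 = d b.1 := by simp only [d, hA2]
    rw [hd] at h'
    exact Subtype.ext (add_right_cancel h')
  have hbad := Nat.card_le_card_of_injective Φ hΦ
  have hsum : Nat.card Good + Nat.card Bad = Fintype.card F ^ n := by
    rw [← Nat.card_sum, Nat.card_congr (Equiv.sumCompl _), Nat.card_fun, Nat.card_eq_fintype_card (α := F)]
    simp
  omega

end CfsgLib.SignedClasses
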